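import Cfsg.Agent.StChar.OTransport
import Cfsg.Agent.S0188
import Cfsg.Agent.Clifford.Basic

/-!
Standard frames, and the small dimensional cases of the Steinberg character of `PΩ`.
-/

set_option autoImplicit false
set_option maxHeartbeats 1000000

open QuadraticMap

namespace CfsgLib.StChar.Orth

open CfsgLib.Forms

/-- the character of `G` from the one of a quotient by a kernel of order prime to `p` -/
theorem steinberg_of_surjective {p : ℕ} [Fact p.Prime] {G H : Type*} [Group G] [Finite G] [Group H]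
    (π : G →* H) (hπ : Function.Surjective π)
    (hker : ∀ x : G, π x = 1 → (∃ j : ℕ, x ^ p ^ j = 1) → x = 1)
    (h : ∃ χ : H → ℂ, Cfsg.IsIrrCharacter H χ ∧
      ∀ P : Sylow p H, χ 1 = Nat.card P ∧ ∀ x : H, x ∈ P → x ≠ 1 → χ x = 0) :
    ∃ χ : G → ℂ, Cfsg.IsIrrCharacter G χ ∧
      ∀ P : Sylow p G, χ 1 = Nat.card P ∧ ∀ x : G, x ∈ P → x ≠ 1 → χ x = 0 := by
  obtain ⟨χ, hχ, h⟩ := h
  refine ⟨fun x => χ (π x), CfsgLib.Clifford.isIrrCharacter_comp hχ π hπ, fun P => ?_⟩
  have hp : ∀ x : G, x ∈ P → ∃ j : ℕ, x ^ p ^ j = 1 := fun x hx => by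
    obtain ⟨j, hj⟩ := P.isPGroup' ⟨x, hx⟩
    exact ⟨j, congrArg Subtype.val hj⟩
  obtain ⟨h1, h2⟩ := h (P.mapSurjective hπ)
  have hcard : Nat.card ((P.mapSurjective hπ : Sylow p H) : Subgroup H) = Nat.card (P : Subgroup G) := by
    rw [Sylow.coe_mapSurjective]
    refine (Nat.card_congr (Equiv.ofBijective
      (fun y : (P : Subgroup G) => (⟨π y.1, Subgroup.mem_map_of_mem _ y.2⟩ :
        ((P : Subgroup G).map π : Subgroup H))) ⟨fun a b e => ?_, ?_⟩)).symm
    · have e' : π a.1 = π b.1 := congrArg Subtype.val e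
      refine Subtype.ext (inv_mul_eq_one.1 (hker _ ?_ (hp _ (a⁻¹ * b).2)))
      show π ((a.1)⁻¹ * b.1) = 1
      rw [map_mul, map_inv, e', inv_mul_cancel]
    · rintro ⟨_, y, hy, rfl⟩
      exact ⟨⟨y, hy⟩, rfl⟩
  refine ⟨?_, fun x hx hx1 => h2 _ ⟨x, hx, rfl⟩ fun e => hx1 (hker x e (hp x hx))⟩
  show χ (π 1) = _
  rw [map_one, h1]
  exact_mod_cast congrArg (Nat.cast : ℕ → ℂ) hcard

/-- transport along an isomorphism -/
theorem steinberg_of_equiv {p : ℕ} [Fact p.Prime] {G H : Type*} [Group G] [Finite G] [Group H]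
    (e : G ≃* H)
    (h : ∃ χ : H → ℂ, Cfsg.IsIrrCharacter H χ ∧
      ∀ P : Sylow p H, χ 1 = Nat.card P ∧ ∀ x : H, x ∈ P → x ≠ 1 → χ x = 0) :
    ∃ χ : G → ℂ, Cfsg.IsIrrCharacter G χ ∧
      ∀ P : Sylow p G, χ 1 = Nat.card P ∧ ∀ x : G, x ∈ P → x ≠ 1 → χ x = 0 :=
  steinberg_of_surjective e.toMonoidHom e.surjective
    (fun _ hx _ => e.injective (hx.trans (map_one e).symm)) h

/-- groups of order prime to `p` -/
theorem steinberg_of_no_pelt {p : ℕ} [Fact p.Prime] {G : Type*} [Group G] [Finite G]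
    (h : ∀ x : G, x ^ p = 1 → x = 1) :
    ∃ χ : G → ℂ, Cfsg.IsIrrCharacter G χ ∧
      ∀ P : Sylow p G, χ 1 = Nat.card P ∧ ∀ x : G, x ∈ P → x ≠ 1 → χ x = 0 := by
  refine ⟨fun _ => 1, CfsgLib.CharBasics.isIrrCharacter_one, fun P => ?_⟩
  have hP : (P : Subgroup G) = ⊥ := by
    refine (Subgroup.eq_bot_iff_forall _).2 fun x hx => ?_
    obtain ⟨j, hj⟩ := P.isPGroup' ⟨x, hx⟩
    have hj' : x ^ p ^ j = 1 := congrArg Subtype.val hj
    clear hj hx
    induction j generalizing x with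
    | zero => simpa using hj'
    | succ j ih =>
      have : x ^ p = 1 := ih (x ^ p) (by rw [← pow_mul, ← pow_succ']; exact hj')
      exact h x this
  refine ⟨?_, fun x hx hx1 => absurd (Subgroup.mem_bot.1 (hP ▸ hx)) hx1⟩
  have : Nat.card (P : Subgroup G) = 1 := by rw [hP]; exact Subgroup.card_bot
  show (1 : ℂ) = _
  exact_mod_cast this.symm

/-- products -/
theorem steinberg_prod {p : ℕ} [Fact p.Prime] {A B : Type*} [Group A] [Finite A] [Group B] [Finite B]
    (hA : ∃ χ : A → ℂ, Cfsg.IsIrrCharacter A χ ∧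
      ∀ P : Sylow p A, χ 1 = Nat.card P ∧ ∀ x : A, x ∈ P → x ≠ 1 → χ x = 0)
    (hB : ∃ χ : B → ℂ, Cfsg.IsIrrCharacter B χ ∧
      ∀ P : Sylow p B, χ 1 = Nat.card P ∧ ∀ x : B, x ∈ P → x ≠ 1 → χ x = 0) :
    ∃ χ : A × B → ℂ, Cfsg.IsIrrCharacter (A × B) χ ∧
      ∀ P : Sylow p (A × B), χ 1 = Nat.card P ∧ ∀ x : A × B, x ∈ P → x ≠ 1 → χ x = 0 := by
  obtain ⟨φ, hφ, hA⟩ := hA
  obtain ⟨ψ, hψ, hB⟩ := hB
  refine ⟨fun x => φ x.1 * ψ x.2, (Cfsg.Agent.S0188.result _).2 ⟨φ, ψ, hφ, hψ, rfl⟩, fun P => ?_⟩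
  have hf : Function.Surjective (MonoidHom.fst A B) := fun a => ⟨(a, 1), rfl⟩
  have hs : Function.Surjective (MonoidHom.snd A B) := fun b => ⟨(1, b), rfl⟩
  set PA := P.mapSurjective hf with hPA
  set PB := P.mapSurjective hs with hPB
  obtain ⟨a1, a2⟩ := hA PA
  obtain ⟨b1, b2⟩ := hB PB
  have hle : (P : Subgroup (A × B)) ≤ (PA : Subgroup A).prod (PB : Subgroup B) := fun x hx =>
    ⟨⟨x, hx, rfl⟩, ⟨x, hx, rfl⟩⟩
  have heq : (P : Subgroup (A × B)) = (PA : Subgroup A).prod (PB : Subgroup B) := by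
    refine (P.is_maximal' ?_ hle).symm
    intro ⟨x, hx⟩
    obtain ⟨i, hi⟩ := PA.isPGroup' ⟨x.1, hx.1⟩
    obtain ⟨j, hj⟩ := PB.isPGroup' ⟨x.2, hx.2⟩
    refine ⟨i + j, Subtype.ext (Prod.ext ?_ ?_)⟩
    · have : x.1 ^ p ^ i = 1 := congrArg Subtype.val hi
      show x.1 ^ p ^ (i + j) = 1
      rw [pow_add, pow_mul, this, one_pow]
    · have : x.2 ^ p ^ j = 1 := congrArg Subtype.val hj
      show x.2 ^ p ^ (i + j) = 1
      rw [pow_add, mul_comm, pow_mul, this, one_pow]
  refine ⟨?_, fun x hx hx1 => ?_⟩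
  · show φ 1 * ψ 1 = _
    rw [a1, b1, ← Nat.cast_mul]
    have : Nat.card (P : Subgroup (A × B)) = Nat.card (PA : Subgroup A) * Nat.card (PB : Subgroup B) := by
      rw [heq, Nat.card_congr ((PA : Subgroup A).prodEquiv (PB : Subgroup B)).toEquiv, Nat.card_prod]
    exact_mod_cast congrArg (Nat.cast : ℕ → ℂ) this.symm
  · by_cases h : x.1 = 1
    · show φ x.1 * ψ x.2 = 0
      rw [b2 x.2 ⟨x, hx, rfl⟩ fun h' => hx1 (Prod.ext h h'), mul_zero]
    · show φ x.1 * ψ x.2 = 0
      rw [a2 x.1 ⟨x, hx, rfl⟩ h, zero_mul]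

variable {F : Type*} [Field F]

/-- no unipotent elements in the commutator subgroup in dimension two -/
theorem eq_one_of_dim_two [Finite F] {V : Type*} [AddCommGroup V] [Module F V] [FiniteDimensional F V]
    {Q : QuadraticForm F V} (hQ : (polarBilin Q).Nondegenerate) (hV : Module.finrank F V = 2)
    {p : ℕ} [Fact p.Prime] [CharP F p] (g : isom Q) (hg : g ∈ commutator (isom Q))
    (hp : g ^ p = 1) : g = 1 := by
  classical
  set L : V →ₗ[F] V := ((g : V ≃ₗ[F] V) : V →ₗ[F] V) with hL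
  have hLpow : ∀ n : ℕ, ((((g : V ≃ₗ[F] V) ^ n : V ≃ₗ[F] V)) : V →ₗ[F] V) = L ^ n := by
    intro n
    induction n with
    | zero => rfl
    | succ n ih => rw [pow_succ, pow_succ, ← ih]; rfl
  have hLp : L ^ p = 1 := by
    rw [← hLpow, ← SubgroupClass.coe_pow, hp]; rfl
  haveI : Nontrivial V := Module.nontrivial_of_finrank_pos (R := F) (by omega)
  haveI : CharP (Module.End F V) p := charP_of_injective_algebraMap' F p
  have hnil : (L - 1) ^ p = 0 := by
    rw [sub_pow_char_of_commute p (Commute.one_right _), hLp, one_pow, sub_self]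
  obtain ⟨v, hv0, hv⟩ : ∃ v : V, v ≠ 0 ∧ L v = v := by
    by_contra hc
    push Not at hc
    have hinj : Function.Injective ⇑(L - 1) := by
      rw [injective_iff_map_eq_zero]
      intro x hx
      by_contra h0
      exact hc x h0 (sub_eq_zero.1 hx)
    have := Module.End.iterate_injective (hinj) p
    rw [hnil] at this
    obtain ⟨a, ha⟩ := exists_ne (0 : V)
    exact ha (this (by simp))
  have hgv : (g : V ≃ₗ[F] V) v = v := hv
  set P := perp Q (Submodule.span F {v}) with hP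
  have hP1 : Module.finrank F P = 1 := by
    rw [hP, finrank_perp hQ, hV, finrank_span_singleton hv0]
  obtain ⟨u, hu0, hu⟩ := finrank_eq_one_iff'.1 hP1
  have hc : ∀ x : V, ∃ c : F, (g : V ≃ₗ[F] V) x - x = c • (u : V) := by
    intro x
    have hm : (g : V ≃ₗ[F] V) x - x ∈ P := by
      rw [hP, mem_perp_span]
      rintro _ rfl
      rw [polar_sub_left]
      conv_lhs => arg 1; rw [← hgv]
      rw [isom_polar g.2, sub_self]
    obtain ⟨c, hc⟩ := hu ⟨_, hm⟩
    exact ⟨c, (congrArg Subtype.val hc).symm⟩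
  choose c hc using hc
  have hrel : ∀ x, c x = 0 ∨ c x * Q (u : V) + polar Q x (u : V) = 0 := by
    intro x
    have h := g.2 x
    rw [show (g : V ≃ₗ[F] V) x = x + c x • (u : V) by rw [← hc]; abel, map_add_smul] at h
    have : c x * (c x * Q (u : V) + polar Q x (u : V)) = 0 := by linear_combination h
    exact mul_eq_zero.1 this
  by_contra hne
  obtain ⟨w, hw⟩ : ∃ w, c w ≠ 0 := by
    by_contra hall
    push Not at hall
    refine hne (Subtype.ext (LinearEquiv.ext fun x => ?_))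
    have := hc x
    rw [hall, zero_smul, sub_eq_zero] at this
    exact this
  have hww := (hrel w).resolve_left hw
  have hadd : ∀ x y, c (x + y) = c x + c y := by
    intro x y
    have h := hc (x + y)
    rw [map_add, show (g : V ≃ₗ[F] V) x + (g : V ≃ₗ[F] V) y - (x + y) =
      ((g : V ≃ₗ[F] V) x - x) + ((g : V ≃ₗ[F] V) y - y) by abel, hc, hc, ← add_smul] at h
    exact (smul_left_injective F (fun h0 => hu0 (Subtype.ext h0)) h).symm
  have hall : ∀ x, c x * Q (u : V) + polar Q x (u : V) = 0 := by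
    intro x
    rcases hrel x with h | h
    · have h2 := (hrel (x + w)).resolve_left (by rw [hadd, h, zero_add]; exact hw)
      rw [hadd, polar_add_left] at h2
      linear_combination h2 - hww
    · exact h
  have hQu : Q (u : V) ≠ 0 := by
    intro h0
    refine hu0 (Subtype.ext (polar_ext hQ fun y => ?_))
    rw [polar_comm]
    simpa [h0] using hall y
  have hl : g = ⟨reflProd Q [⟨(u : V), hQu⟩], reflProd_mem_isom _⟩ := by
    refine Subtype.ext (LinearEquiv.ext fun x => ?_)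
    show (g : V ≃ₗ[F] V) x = Forms.refl Q (u : V) hQu x
    rw [refl_apply, ← sub_eq_zero]
    have e : c x = -((Q (u : V))⁻¹ * polar Q x (u : V)) := by
      have h := hall x
      field_simp
      linear_combination h
    have h := hc x
    rw [e] at h
    linear_combination (norm := module) h
  rw [hl] at hg
  have := even_of_mem_commutator hQ (Or.inr (by omega)) _ hg
  simp at this

theorem steinberg_dim_two [Fintype F] {ι : Type} [Fintype ι] [DecidableEq ι]
    {Q : QuadraticForm F (ι → F)} (hQ : (polarBilin Q).Nondegenerate) (hι : Fintype.card ι = 2)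
    {p : ℕ} [Fact p.Prime] [CharP F p] :
    ∃ χ : Cfsg.POmega F ⇑Q → ℂ, Cfsg.IsIrrCharacter (Cfsg.POmega F ⇑Q) χ ∧
      ∀ P : Sylow p (Cfsg.POmega F ⇑Q), χ 1 = Nat.card P ∧
        ∀ x : Cfsg.POmega F ⇑Q, x ∈ P → x ≠ 1 → χ x = 0 := by
  have hno : ∀ x : Cfsg.Omega F ⇑Q, x ^ p = 1 → x = 1 := by
    intro x hx
    have h := eq_one_of_dim_two hQ (by rw [Module.finrank_fintype_fun_eq_card, hι]) (isoEquiv Q x.1)
      ((mem_Omega_iff Q x.1).1 x.2) (by rw [← map_pow, ← SubgroupClass.coe_pow, hx]; exact map_one _)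
    exact Subtype.ext ((isoEquiv Q).injective (h.trans (map_one (isoEquiv Q)).symm))
  refine steinberg_of_no_pelt fun x hx => ?_
  by_contra hne
  have h1 : orderOf x = p := orderOf_eq_prime hx hne
  have h2 : p ∣ Nat.card (Cfsg.POmega F ⇑Q) := h1 ▸ orderOf_dvd_natCard x
  obtain ⟨y, hy⟩ := exists_prime_orderOf_dvd_card' p (h2.trans (Subgroup.card_quotient_dvd_card _))
  have h3 := hno y (hy ▸ pow_orderOf_eq_one y)
  rw [h3, orderOf_one] at hy
  exact (Fact.out : p.Prime).one_lt.ne hy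

theorem equivFun_symm_reindex {ι κ : Type*} [Fintype ι] [Fintype κ] (e : ι ≃ κ) (c : κ → F) :
    ((Pi.basisFun F ι).reindex e).equivFun.symm c = c ∘ e := by
  rw [LinearEquiv.symm_apply_eq]
  funext x
  simp [Module.Basis.equivFun_apply, Module.Basis.repr_reindex_apply, Pi.basisFun_repr]

/-- the index map of the odd form -/
def eOdd (k : ℕ) : Unit ⊕ (Fin (k + 1) ⊕ Fin (k + 1)) ≃ J k 1 :=
  (Equiv.sumComm _ _).trans (Equiv.sumCongr (Equiv.refl _) (Equiv.ofUnique Unit (Fin 1)))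

/-- the odd form -/
noncomputable def oframeOdd (k : ℕ) : OFrame (quadOdd F (k + 1)) k 1 where
  b := (Pi.basisFun F _).reindex (eOdd k)
  qb p := by
    rcases p with i | i <;>
      simp [eOdd, Cfsg.quadFormOdd, Module.Basis.reindex_apply, Pi.basisFun_apply, Pi.single_apply]
  gram p x := by
    rcases p with i | i <;> rcases x with (l | l) | l <;>
      simp [eOdd, polar_odd, Module.Basis.reindex_apply, Pi.basisFun_apply, Pi.single_apply, eq_comm]
  aniso z h := by
    rw [equivFun_symm_reindex] at h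
    simp [eOdd, Cfsg.quadFormOdd] at h
    funext j
    rw [Subsingleton.elim j default]
    exact h

/-- the elliptic form -/
noncomputable def oframeMinus (k : ℕ) {a b : F}
    (hab : ∀ z₁ z₂ : F, z₁ ^ 2 + a * z₁ * z₂ + b * z₂ ^ 2 = 0 → z₁ = 0 ∧ z₂ = 0) :
    OFrame (quadMinus F (k + 1) a b) k 2 where
  b := (Pi.basisFun F _).reindex (Equiv.refl _)
  qb p := by
    rcases p with i | i <;>
      simp [Cfsg.quadFormMinus, Module.Basis.reindex_apply, Pi.basisFun_apply, Pi.single_apply]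
  gram p x := by
    rcases p with i | i <;> rcases x with (l | l) | l <;>
      simp [polar_minus, Module.Basis.reindex_apply, Pi.basisFun_apply, Pi.single_apply, eq_comm]
  aniso z h := by
    rw [equivFun_symm_reindex] at h
    simp [Cfsg.quadFormMinus] at h
    obtain ⟨h0, h1⟩ := hab _ _ h
    funext j
    fin_cases j
    exacts [h0, h1]

/-- the index map of the split form -/
def ePlus (k : ℕ) : Fin (k + 1) ⊕ Fin (k + 1) ≃ J k 0 := (Equiv.sumEmpty _ (Fin 0)).symm

/-- the split form -/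
noncomputable def oframePlus (k : ℕ) : OFrame (quadPlus F (k + 1)) k 0 where
  b := (Pi.basisFun F _).reindex (ePlus k)
  qb p := by
    rcases p with i | i <;>
      simp [ePlus, Cfsg.quadFormPlus, Module.Basis.reindex_apply, Pi.basisFun_apply, Pi.single_apply]
  gram p x := by
    rcases x with x | x
    · rcases p with i | i <;> rcases x with l | l <;>
        simp [ePlus, polar_plus, Module.Basis.reindex_apply, Pi.basisFun_apply, Pi.single_apply,
          eq_comm]
    · exact x.elim0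
  aniso z _ := Subsingleton.elim _ _

end CfsgLib.StChar.Orth
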