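import Cfsg.Agent.StChar.OFrame

/-!
Root elements and Weyl elements of an orthogonal frame.
-/

set_option autoImplicit false
set_option maxHeartbeats 1000000

open QuadraticMap

namespace CfsgLib.StChar

/-- rank one identity from a conjugation identity -/
theorem Layout.rank1_of_identity {G F ι P : Type*} [Group G] [Finite G] [Field F] [Fintype ι]
    [DecidableEq ι] {L : Layout G F ι P} {σ : Equiv.Perm P} {R : P → P → Prop} {s n x x1 x2 : G}
    (hσσ : σ * σ = 1) (hs : L.Mono σ s) (hn : L.Mono σ n) (h1 : L.Supp R x1) (h2 : L.Supp R x2)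
    (he : s * x * s⁻¹ = x1 * n * x2) : ∃ x' h x'',
      L.Supp R x' ∧ L.Supp R x'' ∧ L.Mono 1 h ∧ s * x * s = x' * s * h * x'' := by
  have hss : L.Mono 1 (s * s) := hσσ ▸ hs.mul hs
  refine ⟨x1, s⁻¹ * n * (s * s), (s * s)⁻¹ * x2 * (s * s), h1, ?_, ?_, ?_⟩
  · have := hss.inv.conj h2
    simp only [inv_inv] at this
    exact this.mono fun p q h => by simpa using h
  · have := (hs.inv.mul hn).mul hss
    rwa [inv_mul_cancel, one_mul] at this
  · calc s * x * s = (s * x * s⁻¹) * (s * s) := by group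
      _ = _ := by rw [he]; group

namespace Orth

open CfsgLib.Forms CfsgLib.OrthTwoGen

variable {F V : Type*} [Field F] [AddCommGroup V] [Module F V] {Q : QuadraticForm F V} {k d : ℕ}

/-- the short reflection on the index set -/
def swJ (i : Fin k) : Equiv.Perm (J k d) :=
  Equiv.sumCongr (Equiv.sumCongr (Equiv.swap i.castSucc i.succ) (Equiv.swap i.castSucc i.succ))
    (Equiv.refl _)

/-- the exchange inside one pair -/
def swP (i : Fin (k + 1)) : Equiv.Perm (J k d) :=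
  Equiv.sumCongr (Equiv.swap (Sum.inl i) (Sum.inr i)) (Equiv.refl _)

/-- short roots -/
def RswJ (i : Fin k) (a b : J k d) : Prop :=
  (a = Sum.inl (Sum.inl i.castSucc) ∧ b = Sum.inl (Sum.inl i.succ)) ∨
    (a = Sum.inl (Sum.inr i.succ) ∧ b = Sum.inl (Sum.inr i.castSucc))

/-- roots of the last pair -/
def RLastJ (a b : J k d) : Prop :=
  (a = Sum.inl (Sum.inl (Fin.last k)) ∧ ∃ j, b = Sum.inr j) ∨
    ((∃ j, a = Sum.inr j) ∧ b = Sum.inl (Sum.inr (Fin.last k))) ∨
    (a = Sum.inl (Sum.inl (Fin.last k)) ∧ b = Sum.inl (Sum.inr (Fin.last k)))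

namespace OFrame

variable (D : OFrame Q k d)

/-- short root elements -/
noncomputable def xS (i : Fin k) (t : F) : V ≃ₗ[F] V := sigma Q (D.e i.castSucc) (D.f i.succ) t

/-- short Weyl elements -/
noncomputable def nS (i : Fin k) (t : F) : V ≃ₗ[F] V :=
  nEl Q (D.e i.castSucc) (D.f i.castSucc) (D.e i.succ) (D.f i.succ) t

theorem twoS (i : Fin k) :
    TwoPairs Q (D.e i.castSucc) (D.f i.castSucc) (D.e i.succ) (D.f i.succ) :=
  D.two (Fin.castSucc_lt_succ (i := i)).ne

theorem xS_repr (i : Fin k) (t : F) (v : V) (x : J k d) :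
    D.b.repr (xS D i t v) x = D.b.repr v x +
      (if (Sum.inl (Sum.inl i.castSucc) : J k d) = x then
        t * D.b.repr v (Sum.inl (Sum.inl i.succ)) else 0) -
      (if (Sum.inl (Sum.inr i.succ) : J k d) = x then
        t * D.b.repr v (Sum.inl (Sum.inr i.castSucc)) else 0) := by
  rw [xS, sigma, sg_apply (D.qe _) ((D.twoS i).sigma_dom t), QuadraticMap.map_smul, D.qf, smul_zero,
    zero_mul, sub_zero, polar_smul_right, ← D.repr_l, ← D.repr_r, map_sub, map_add, map_smul, map_smul,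
    map_smul, Finsupp.sub_apply, Finsupp.add_apply, Finsupp.smul_apply, Finsupp.smul_apply,
    Finsupp.smul_apply, e, f, D.repr_b, D.repr_b]
  simp only [smul_eq_mul, mul_ite, mul_one, mul_zero]
  congr 1
  split_ifs <;> ring

theorem xS_supp (i : Fin k) (t : F) : D.layJ.Supp (RswJ i) (xS D i t) := by
  refine D.supp_iff.2 fun a b hab => ?_
  rw [xS_repr]
  simp only [D.repr_b]
  have h1 : ∀ h : (Sum.inl (Sum.inl i.castSucc) : J k d) = a, b ≠ Sum.inl (Sum.inl i.succ) :=
    fun h hb => hab (Or.inl ⟨h.symm, hb⟩)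
  have h2 : ∀ h : (Sum.inl (Sum.inr i.succ) : J k d) = a, b ≠ Sum.inl (Sum.inr i.castSucc) :=
    fun h hb => hab (Or.inr ⟨h.symm, hb⟩)
  have e1 : (if (Sum.inl (Sum.inl i.castSucc) : J k d) = a then
      t * (if b = Sum.inl (Sum.inl i.succ) then (1 : F) else 0) else 0) = 0 := by
    split_ifs with h <;> simp_all
  have e2 : (if (Sum.inl (Sum.inr i.succ) : J k d) = a then
      t * (if b = Sum.inl (Sum.inr i.castSucc) then (1 : F) else 0) else 0) = 0 := by
    split_ifs with h <;> simp_all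
  rw [e1, e2, add_zero, sub_zero]

theorem rkJ_lt_of_RswJ {i : Fin k} {a b : J k d} (h : RswJ i a b) : rkJ a < rkJ b := by
  rcases h with ⟨rfl, rfl⟩ | ⟨rfl, rfl⟩ <;> simp <;> omega

theorem rkJ_lt_of_RLastJ {a b : J k d} (h : RLastJ a b) : rkJ a < rkJ b := by
  rcases h with ⟨rfl, j, rfl⟩ | ⟨⟨j, rfl⟩, rfl⟩ | ⟨rfl, rfl⟩ <;> simp <;> omega

theorem xS_upper (i : Fin k) (t : F) : D.Upper (xS D i t) :=
  (xS_supp D i t).mono fun _ _ h => rkJ_lt_of_RswJ h

theorem xS_inv (i : Fin k) (t : F) : (xS D i t)⁻¹ = xS D i (-t) := by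
  rw [xS, xS, sigma, sigma, sg_inv (D.qe _) ((D.twoS i).sigma_dom t), neg_smul]

theorem xS_ne (i : Fin k) {t : F} (ht : t ≠ 0) : xS D i t ≠ 1 := by
  intro h
  have := (D.twoS i).sigma_e' t
  rw [← xS, h] at this
  simp only [LinearEquiv.coe_one, id_eq, left_eq_add, smul_eq_zero] at this
  exact this.elim ht fun h0 => by
    have h1 := D.pef i.castSucc
    rw [h0] at h1
    simp at h1

theorem nS_b (i : Fin k) {t : F} (ht : t ≠ 0) (y : J k d) :
    ∃ c : F, c ≠ 0 ∧ nS D i t (D.b y) = c • D.b (swJ i y) := by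
  have h := D.twoS i
  have hne : i.castSucc ≠ i.succ := (Fin.castSucc_lt_succ (i := i)).ne
  rcases y with (j | j) | j
  · by_cases h1 : j = i.castSucc
    · subst h1
      exact ⟨-t⁻¹, by simp [ht], by rw [nS, ← e, h.n_e ht]; simp [swJ, e]⟩
    by_cases h2 : j = i.succ
    · subst h2
      exact ⟨t, ht, by rw [nS, ← e, h.n_e' ht]; simp [swJ, e]⟩
    refine ⟨1, one_ne_zero, ?_⟩
    rw [nS, ← e, h.n_fix t (D.pee _ _) (D.pef' h1) (D.pee _ _) (D.pef' h2), one_smul, e]
    simp [swJ, Equiv.swap_apply_of_ne_of_ne h1 h2]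
  · by_cases h1 : j = i.castSucc
    · subst h1
      exact ⟨-t, by simp [ht], by rw [nS, ← f, h.n_f ht]; simp [swJ, f]⟩
    by_cases h2 : j = i.succ
    · subst h2
      exact ⟨t⁻¹, inv_ne_zero ht, by rw [nS, ← f, h.n_f' ht]; simp [swJ, f]⟩
    refine ⟨1, one_ne_zero, ?_⟩
    rw [nS, ← f, h.n_fix t (D.pfe' h1) (D.pff _ _) (D.pfe' h2) (D.pff _ _), one_smul, f]
    simp [swJ, Equiv.swap_apply_of_ne_of_ne h1 h2]
  · refine ⟨1, one_ne_zero, ?_⟩
    rw [nS, h.n_fix t, one_smul]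
    · simp [swJ]
    all_goals first
      | rw [← D.repr_r, D.repr_b, if_neg (by simp)]
      | rw [← D.repr_l, D.repr_b, if_neg (by simp)]

theorem factor_long {u : V ≃ₗ[F] V} (i : Fin k) (hu : u ∈ isom Q) (hU : D.Upper u) :
    ∃ t, D.Upper (u * (xS D i t)⁻¹) ∧
      ∀ a b, RswJ i a b → D.b.repr ((u * (xS D i t)⁻¹) (D.b b)) a = 0 := by
  have hne : i.castSucc ≠ i.succ := (Fin.castSucc_lt_succ (i := i)).ne
  set t := D.b.repr (u (D.e i.succ)) (Sum.inl (Sum.inl i.castSucc)) with ht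
  refine ⟨t, ?_⟩
  rw [xS_inv]
  set u' := u * xS D i (-t) with hu'
  have hi' : u' ∈ isom Q := mul_mem hu (sg_mem_isom _ _)
  have hU' : D.Upper u' := hU.mul (xS_upper D i _)
  refine ⟨hU', ?_⟩
  have h1 : D.b.repr (u' (D.e i.succ)) (Sum.inl (Sum.inl i.castSucc)) = 0 := by
    rw [hu', LinearEquiv.mul_apply, xS, (D.twoS i).sigma_e' (-t), map_add, map_smul, map_add,
      map_smul, Finsupp.add_apply, Finsupp.smul_apply, ← ht, e, hU.row _ _ (lt_irrefl _), if_pos rfl]
    simp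
  rintro a b (⟨rfl, rfl⟩ | ⟨rfl, rfl⟩)
  · exact h1
  have h := isom_polar hi' (D.f i.castSucc) (D.e i.succ)
  have hm : D.mid (u' (D.e i.succ)) = 0 := funext fun j => by
    rw [D.mid_apply, e, hU'.row _ _ (by simp), if_neg (by simp)]; rfl
  have hr : ∀ l, D.b.repr (u' (D.e i.succ)) (Sum.inl (Sum.inr l)) = 0 := fun l => by
    rw [e, hU'.row _ _ (by simp; omega), if_neg (by simp)]
  rw [D.pfe' hne, D.polar_repr, hm, map_zero, polar_zero_right, add_zero,
    Finset.sum_eq_single i.succ] at h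
  · rw [hr, mul_zero, zero_add, e, hU'.row _ _ (lt_irrefl _), if_pos rfl, mul_one] at h
    exact h
  · intro l _ hl
    rw [hr, mul_zero, zero_add]
    by_cases hl' : l = i.castSucc
    · subst hl'; rw [h1, mul_zero]
    by_cases hlt : l.1 < i.1
    · rw [f, hU'.row _ _ (by simp; omega), if_neg (by simp [Ne.symm hl']), zero_mul]
    · rw [e, hU'.row _ _ (by
        have : l.1 ≠ i.1 := fun e => hl' (Fin.ext e)
        have : l.1 ≠ i.1 + 1 := fun e => hl (Fin.ext (by simpa using e))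
        simp; omega), if_neg (by simp [Ne.symm hl]), mul_zero]
  · simp

theorem rank_long (i : Fin k) {t : F} (ht : t ≠ 0) :
    nS D i 1 * xS D i t * (nS D i 1)⁻¹ = xS D i (-(1 / t)) * nS D i (1 / t) * xS D i (-(1 / t)) := by
  have h := D.twoS i
  have hy : nS D i 1 * xS D i t * (nS D i 1)⁻¹ = sigma Q (D.e i.succ) (D.f i.castSucc) (-t) := by
    rw [nS, xS, sigma, sg_conj (nEl_mem_isom _ _ _ _ _) (D.qe _) (h.sigma_dom t), map_smul,
      h.n_e one_ne_zero, h.n_f' one_ne_zero, inv_one, one_smul,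
      sg_smul (D.qe _) (h.symm.sigma_dom t), sigma, smul_smul, neg_one_mul]
  have hn : nS D i (1 / t) =
      xS D i (1 / t) * sigma Q (D.e i.succ) (D.f i.castSucc) (-t) * xS D i (1 / t) := by
    rw [nS, nEl, xS, one_div, inv_inv]
  rw [hy, hn, ← xS_inv]
  group

/-- short root elements of the last pair -/
noncomputable def xL (z : Fin d → F) : V ≃ₗ[F] V := sg Q (D.e (Fin.last k)) (D.vec z)

/-- reflections of one pair -/
noncomputable def nP (i : Fin (k + 1)) (z : Fin d → F) : V ≃ₗ[F] V :=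
  nzEl Q (D.e i) (D.f i) (D.vec z)

theorem xL_repr (z : Fin d → F) (v : V) (x : J k d) :
    D.b.repr (xL D z v) x = D.b.repr v x +
      (if (Sum.inl (Sum.inl (Fin.last k)) : J k d) = x then
        polar Q v (D.vec z) - Q (D.vec z) * D.b.repr v (Sum.inl (Sum.inr (Fin.last k))) else 0) -
      D.b.repr v (Sum.inl (Sum.inr (Fin.last k))) * Sum.elim (fun _ => 0) z x := by
  rw [xL, sg_apply (D.qe _) (D.vec_e z _), ← D.repr_r, map_sub, map_add, map_smul, map_smul,
    Finsupp.sub_apply, Finsupp.add_apply, Finsupp.smul_apply, Finsupp.smul_apply, e, D.repr_b,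
    D.repr_vec]
  simp only [smul_eq_mul, mul_ite, mul_one, mul_zero]

theorem xL_supp (z : Fin d → F) : D.layJ.Supp RLastJ (xL D z) := by
  refine D.supp_iff.2 fun a b hab => ?_
  rw [xL_repr]
  simp only [D.repr_b]
  have hpl : ∀ p : Fin (k + 1) ⊕ Fin (k + 1), polar Q (D.b (Sum.inl p)) (D.vec z) = 0 := fun p => by
    rw [polar_comm]
    rcases p with l | l
    · exact D.vec_e z l
    · exact D.vec_f z l
  rcases a with (i | i) | j <;> rcases b with (l | l) | m <;> simp [RLastJ, hpl] at hab ⊢ <;>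
    (try (rcases eq_or_ne i (Fin.last k) with rfl | hi <;> simp_all [D.repr_l, D.repr_r, polar_comm])) <;>
    simp_all [polar_comm Q (D.b _) (D.vec z), ← D.repr_l, ← D.repr_r] <;>
    (intro e; exact absurd e.symm (by assumption))

theorem xL_upper (z : Fin d → F) : D.Upper (xL D z) :=
  (xL_supp D z).mono fun _ _ h => rkJ_lt_of_RLastJ h

theorem xL_inv (z : Fin d → F) : (xL D z)⁻¹ = xL D (-z) := by
  rw [xL, xL, sg_inv (D.qe _) (D.vec_e z _), map_neg]

theorem xL_ne {z : Fin d → F} (hz : z ≠ 0) : xL D z ≠ 1 := by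
  intro h
  obtain ⟨j, hj⟩ := Function.ne_iff.1 hz
  have := xL_repr D z (D.f (Fin.last k)) (Sum.inr j)
  rw [h] at this
  simp [f, D.repr_b] at this
  exact hj this

theorem nP_inl {i : Fin (k + 1)} {z : Fin d → F} (hz : z ≠ 0) (p : Fin (k + 1) ⊕ Fin (k + 1)) :
    ∃ c : F, c ≠ 0 ∧ nP D i z (D.b (Sum.inl p)) = c • D.b (swP i (Sum.inl p)) := by
  have hQ : Q (D.vec z) ≠ 0 := fun h => hz (D.aniso' h)
  rcases p with j | j
  · by_cases h : j = i
    · subst h
      refine ⟨-(Q (D.vec z))⁻¹, by simp [hQ], ?_⟩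
      rw [nP, ← e, nz_e (D.qe _) (D.qf _) (D.pef _) (D.vec_e z _) (D.vec_f z _) hQ]
      simp [swP, f]
    refine ⟨1, one_ne_zero, ?_⟩
    rw [nP, ← e, nz_perp (D.qe _) (D.qf _) (D.pef _) (D.vec_e z _) (D.vec_f z _) hQ (D.pee _ _)
      (D.pef' h), polar_comm, D.vec_e]
    simp [swP, e, Equiv.swap_apply_def, h]
  · by_cases h : j = i
    · subst h
      refine ⟨-(Q (D.vec z)), by simp [hQ], ?_⟩
      rw [nP, ← f, nz_f (D.qe _) (D.qf _) (D.pef _) (D.vec_e z _) (D.vec_f z _) hQ]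
      simp [swP, e]
    refine ⟨1, one_ne_zero, ?_⟩
    rw [nP, ← f, nz_perp (D.qe _) (D.qf _) (D.pef _) (D.vec_e z _) (D.vec_f z _) hQ (D.pfe' h)
      (D.pff _ _), polar_comm, D.vec_f]
    simp [swP, f, Equiv.swap_apply_def, h]

theorem nP_vec {i : Fin (k + 1)} {z : Fin d → F} (hz : z ≠ 0) (y : Fin d → F) :
    nP D i z (D.vec y) = D.vec (y - ((Q (D.vec z))⁻¹ * polar Q (D.vec y) (D.vec z)) • z) := by
  have hQ : Q (D.vec z) ≠ 0 := fun h => hz (D.aniso' h)
  rw [nP, nz_perp (D.qe _) (D.qf _) (D.pef _) (D.vec_e z _) (D.vec_f z _) hQ (D.vec_e y _)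
    (D.vec_f y _), map_sub, map_smul]

theorem nP_mid {i : Fin (k + 1)} {z : Fin d → F} (hz : z ≠ 0) (j : Fin d)
    (p : Fin (k + 1) ⊕ Fin (k + 1)) :
    D.b.repr (nP D i z (D.b (Sum.inr j))) (Sum.inl p) = 0 := by
  have hbv : D.vec (Pi.single j 1) = D.b (Sum.inr j) := D.b.ext_elem fun x => by
    rw [D.repr_vec, D.repr_b]
    rcases x with x | x <;> simp [Pi.single_apply, eq_comm]
  rw [← hbv, nP_vec D hz, D.repr_vec]; rfl

theorem factor_last {u : V ≃ₗ[F] V} (hu : u ∈ isom Q) (hU : D.Upper u) :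
    ∃ z, D.Upper (u * (xL D z)⁻¹) ∧
      ∀ a b, RLastJ a b → D.b.repr ((u * (xL D z)⁻¹) (D.b b)) a = 0 := by
  set z0 := D.mid (u (D.f (Fin.last k))) with hz0
  refine ⟨-z0, ?_⟩
  rw [xL_inv, neg_neg]
  set u' := u * xL D z0 with hu'
  have hi' : u' ∈ isom Q := mul_mem hu (sg_mem_isom _ _)
  have hU' : D.Upper u' := hU.mul (xL_upper D _)
  refine ⟨hU', ?_⟩
  have hmidu : ∀ y, D.mid (u (D.vec y)) = y := by
    intro y
    have : (D.mid.comp ((u : V →ₗ[F] V).comp D.vec)) = LinearMap.id := by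
      refine LinearMap.pi_ext' fun m => LinearMap.ext_ring (funext fun j => ?_)
      have hbv : D.vec (Pi.single m 1) = D.b (Sum.inr m) := D.b.ext_elem fun x => by
        rw [D.repr_vec, D.repr_b]
        rcases x with x | x <;> simp [Pi.single_apply, eq_comm]
      show D.mid (u (D.vec (Pi.single m 1))) j = _
      rw [hbv, D.mid_apply, hU.row _ _ (by simp)]
      simp [Pi.single_apply, eq_comm]
    exact LinearMap.congr_fun this y
  have hmide : D.mid (u (D.e (Fin.last k))) = 0 := funext fun j => by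
    rw [D.mid_apply, e, hU.row _ _ (by simp), if_neg (by simp)]; rfl
  have hA : D.mid (u' (D.f (Fin.last k))) = 0 := by
    rw [hu', LinearEquiv.mul_apply, xL, sg_apply (D.qe _) (D.vec_e z0 _), polar_comm Q (D.f _) (D.vec z0),
      D.vec_f, polar_comm Q (D.f _) (D.e _), D.pef, one_smul, map_sub, map_add, map_smul, map_sub,
      map_add, map_smul, hmide, hmidu, ← hz0]
    simp
  have hr : ∀ i, i ≠ Fin.last k → D.b.repr (u' (D.f (Fin.last k))) (Sum.inl (Sum.inr i)) = 0 :=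
    fun i hi => by
      rw [f, hU'.row _ _ (by
        have : i.1 ≠ k := fun e => hi (Fin.ext e)
        simp; omega), if_neg (by simp [Ne.symm hi])]
  have hB : D.b.repr (u' (D.f (Fin.last k))) (Sum.inl (Sum.inl (Fin.last k))) = 0 := by
    rw [D.upper_top hi' hU' _ hr, hA, map_zero, QuadraticMap.map_zero, neg_zero]
  rintro a b (⟨rfl, j, rfl⟩ | ⟨⟨j, rfl⟩, rfl⟩ | ⟨rfl, rfl⟩)
  · have h := isom_polar hi' (D.b (Sum.inr j)) (D.f (Fin.last k))
    rw [f, polar_comm Q (D.b (Sum.inr j)) (D.b _), D.gram, if_neg (by simp), ← f, D.polar_repr, hA,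
      map_zero, polar_zero_right, add_zero, Finset.sum_eq_single (Fin.last k)] at h
    · rw [hB, mul_zero, add_zero] at h
      rw [f, hU'.row _ (Sum.inl (Sum.inr _)) (lt_irrefl _), if_pos rfl, mul_one] at h
      exact h
    · intro l _ hl
      rw [hr l hl, mul_zero, zero_add, hU'.row _ _ (by simp; omega), if_neg (by simp), zero_mul]
    · simp
  · exact congrFun hA j
  · exact hB

theorem rank_last {z z0 : Fin d → F} (hz : z ≠ 0) (hz0 : z0 ≠ 0) :
    ∃ z' v, v ≠ 0 ∧ nP D (Fin.last k) z0 * xL D z * (nP D (Fin.last k) z0)⁻¹ =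
      xL D z' * nP D (Fin.last k) v * xL D z' := by
  have hQ0 : Q (D.vec z0) ≠ 0 := fun h => hz0 (D.aniso' h)
  set n := nP D (Fin.last k) z0 with hn
  have hni : n ∈ isom Q := mul_mem (mul_mem (sg_mem_isom _ _) (sg_mem_isom _ _)) (sg_mem_isom _ _)
  set c := -(Q (D.vec z0))⁻¹ with hc
  set w := z - ((Q (D.vec z0))⁻¹ * polar Q (D.vec z) (D.vec z0)) • z0
  have hnv : n (D.vec z) = D.vec w := nP_vec D hz0 z
  have hne : n (D.e (Fin.last k)) = c • D.f (Fin.last k) := by
    rw [hn, nP, nz_e (D.qe _) (D.qf _) (D.pef _) (D.vec_e z0 _) (D.vec_f z0 _) hQ0]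
  have hw : w ≠ 0 := by
    intro h
    rw [h, map_zero] at hnv
    refine hz (D.aniso' ?_)
    rw [← hni (D.vec z), hnv, QuadraticMap.map_zero]
  set u := c • w with hu
  have hu0 : u ≠ 0 := smul_ne_zero (by simp [hc, hQ0]) hw
  have hQu : Q (D.vec u) ≠ 0 := fun h => hu0 (D.aniso' h)
  set v := (Q (D.vec u))⁻¹ • u with hv
  have hv0 : v ≠ 0 := smul_ne_zero (inv_ne_zero hQu) hu0
  have hvu : (Q (D.vec v))⁻¹ • D.vec v = D.vec u := by
    rw [hv, map_smul, QuadraticMap.map_smul, smul_smul, smul_eq_mul]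
    have : ((Q (D.vec u))⁻¹ * (Q (D.vec u))⁻¹ * Q (D.vec u))⁻¹ * (Q (D.vec u))⁻¹ = 1 := by
      field_simp
    rw [this, one_smul]
  have hy : n * xL D z * n⁻¹ = sg Q (D.f (Fin.last k)) (D.vec u) := by
    rw [xL, sg_conj hni (D.qe _) (D.vec_e z _), hne, hnv, sg_smul (D.qf _) (D.vec_f w _), hu,
      map_smul]
  have hnz : nP D (Fin.last k) v = xL D v * sg Q (D.f (Fin.last k)) (D.vec u) * xL D v := by
    rw [nP, nzEl, hvu, xL]
  refine ⟨-v, v, hv0, ?_⟩
  rw [hy, hnz, ← xL_inv]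
  group

theorem xS_mem [Finite F] [FiniteDimensional F V] (hQ : (polarBilin Q).Nondegenerate)
    (hn : 5 ≤ Module.finrank F V) (i : Fin k) (t : F) : xS D i t ∈ rootGroup Q :=
  sg_mem_root hQ hn _ _

theorem nS_mem [Finite F] [FiniteDimensional F V] (hQ : (polarBilin Q).Nondegenerate)
    (hn : 5 ≤ Module.finrank F V) (i : Fin k) (t : F) : nS D i t ∈ rootGroup Q :=
  nEl_mem_root hQ hn _ _ _ _ _

theorem xL_mem [Finite F] [FiniteDimensional F V] (hQ : (polarBilin Q).Nondegenerate)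
    (hn : 5 ≤ Module.finrank F V) (z : Fin d → F) : xL D z ∈ rootGroup Q :=
  sg_mem_root hQ hn _ _

theorem nP_mem [Finite F] [FiniteDimensional F V] (hQ : (polarBilin Q).Nondegenerate)
    (hn : 5 ≤ Module.finrank F V) (i : Fin (k + 1)) (z : Fin d → F) : nP D i z ∈ rootGroup Q :=
  mul_mem (mul_mem (sg_mem_root hQ hn _ _) (sg_mem_root hQ hn _ _)) (sg_mem_root hQ hn _ _)

theorem exists_chain {H : Subgroup (V ≃ₗ[F] V)} (hH : ∀ i, nS D i 1 ∈ H) (j : Fin (k + 1)) :
    ∃ g ∈ H, g ∈ isom Q ∧ ∃ c c' : F, c ≠ 0 ∧ c' ≠ 0 ∧ g (D.e 0) = c • D.e j ∧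
      g (D.f 0) = c' • D.f j := by
  induction j using Fin.induction with
  | zero =>
    exact ⟨1, one_mem _, one_mem _, 1, 1, one_ne_zero, one_ne_zero, (one_smul F _).symm,
      (one_smul F _).symm⟩
  | succ i ih =>
    obtain ⟨g, hg, hgi, c, c', hc, hc', he, hf⟩ := ih
    refine ⟨nS D i 1 * g, mul_mem (hH i) hg, mul_mem (nEl_mem_isom _ _ _ _ _) hgi,
      c * -(1 : F)⁻¹, c' * -1, by simp [hc], by simp [hc'], ?_, ?_⟩
    · rw [LinearEquiv.mul_apply, he, map_smul, nS, (D.twoS i).n_e one_ne_zero, smul_smul]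
    · rw [LinearEquiv.mul_apply, hf, map_smul, nS, (D.twoS i).n_f one_ne_zero, smul_smul]

theorem root_le_of_gen (hQ : (polarBilin Q).Nondegenerate) {H : Subgroup (V ≃ₗ[F] V)}
    (hU : ∀ a, polar Q a (D.e 0) = 0 → D.Upper (sg Q (D.e 0) a) → sg Q (D.e 0) a ∈ H)
    {w : V ≃ₗ[F] V} (hw : w ∈ H) (hwi : w ∈ isom Q) {c : F} (hc : c ≠ 0)
    (hwe : w (D.e 0) = c • D.f 0) : rootGroup Q ≤ H := by
  have hE : ∀ x, polar Q x (D.e 0) = 0 → sg Q (D.e 0) x ∈ H := fun x hx =>
    hU x hx (D.sg_upper hx fun i hi => absurd hi (Fin.not_lt_zero i))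
  refine rootGroup_le_of_pair hQ (D.qe 0) (D.qf 0) (D.pef 0) hE fun x hx => ?_
  set a := w.symm (c⁻¹ • x) with ha
  have hwa : w a = c⁻¹ • x := w.apply_symm_apply _
  have hae : polar Q a (D.e 0) = 0 := by
    rw [← isom_polar hwi, hwa, hwe, polar_smul_left, polar_smul_right, hx, smul_zero, smul_zero]
  have h1 := mul_mem (mul_mem hw (hE a hae)) (inv_mem hw)
  rw [sg_conj hwi (D.qe 0) hae, hwe, hwa, sg_smul (D.qf 0) (by rw [polar_smul_left, hx, smul_zero]),
    smul_smul, mul_inv_cancel₀ hc, one_smul] at h1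
  exact h1

end OFrame

/-- exchanging the two halves of the last pair -/
def tauP : Equiv.Perm (Fin (k + 1) ⊕ Fin (k + 1)) :=
  Equiv.swap (Sum.inl (Fin.last k)) (Sum.inr (Fin.last k))

/-- exchanging the two halves of the last pair, on the index set -/
def tauJ : Equiv.Perm (J k 0) := Equiv.sumCongr tauP (Equiv.refl _)

theorem tauP_swap (p : Fin (k + 1) ⊕ Fin (k + 1)) : (tauP p).swap = tauP p.swap := by
  rcases p with i | i <;> simp [tauP, Equiv.swap_apply_def] <;> split_ifs <;> simp_all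

theorem tauJ_tauJ (x : J k 0) : tauJ (tauJ x) = x := by
  rcases x with x | x
  · simp [tauJ, tauP]
  · exact x.elim0

theorem tauJ_inl (p : Fin (k + 1) ⊕ Fin (k + 1)) :
    tauJ (Sum.inl p : J k 0) = Sum.inl (tauP p) := rfl

namespace OFrame

variable (D : OFrame Q k 0)

/-- the frame with the last pair exchanged -/
noncomputable def flip : OFrame Q k 0 where
  b := D.b.reindex (tauJ (k := k)).symm
  qb p := by rw [Module.Basis.reindex_apply, Equiv.symm_symm, tauJ_inl]; exact D.qb _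
  gram p x := by
    rw [Module.Basis.reindex_apply, Module.Basis.reindex_apply, Equiv.symm_symm, tauJ_inl, D.gram,
      tauP_swap, ← tauJ_inl]
    exact if_congr tauJ.injective.eq_iff rfl rfl
  aniso z _ := Subsingleton.elim _ _

theorem flip_b (x : J k 0) : D.flip.b x = D.b (tauJ x) := by
  rw [flip, Module.Basis.reindex_apply, Equiv.symm_symm]

theorem flip_repr (v : V) (x : J k 0) : D.flip.b.repr v x = D.b.repr v (tauJ x) := by
  rw [flip, Module.Basis.repr_reindex_apply, Equiv.symm_symm]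

theorem supp_flip {R : J k 0 → J k 0 → Prop} {g : V ≃ₗ[F] V} :
    D.flip.layJ.Supp R g ↔ D.layJ.Supp (fun a b => R (tauJ a) (tauJ b)) g := by
  rw [D.flip.supp_iff, D.supp_iff]
  constructor <;> intro h a b hab
  · have := h (tauJ a) (tauJ b) hab
    rw [flip_repr, flip_b, tauJ_tauJ, tauJ_tauJ] at this
    rw [this]
    exact if_congr tauJ.injective.eq_iff rfl rfl
  · rw [flip_repr, flip_b, h (tauJ a) (tauJ b) (by rwa [tauJ_tauJ, tauJ_tauJ])]
    exact if_congr tauJ.injective.eq_iff rfl rfl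

theorem upper_flip {g : V ≃ₗ[F] V} (hg : g ∈ isom Q) (hU : D.Upper g) : D.flip.Upper g := by
  rw [Upper, supp_flip, D.supp_iff]
  intro a b hab
  by_cases hlt : rkJ a < rkJ b
  · by_cases htop : a = Sum.inl (Sum.inl (Fin.last k)) ∧ b = Sum.inl (Sum.inr (Fin.last k))
    · obtain ⟨rfl, rfl⟩ := htop
      have hr : ∀ i, i ≠ Fin.last k → D.b.repr (g (D.f (Fin.last k))) (Sum.inl (Sum.inr i)) = 0 :=
        fun i hi => by
          rw [f, hU.row _ _ (by
            have : i.1 ≠ k := fun e => hi (Fin.ext e)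
            simp; omega), if_neg (by simp [Ne.symm hi])]
      have h0 := D.upper_top hg hU _ hr
      rw [show D.mid (g (D.f (Fin.last k))) = 0 from funext fun j => j.elim0, map_zero,
        QuadraticMap.map_zero, neg_zero] at h0
      rw [if_neg (by simp)]
      exact h0
    · exfalso
      rcases a with (i | i) | m <;> rcases b with (l | l) | m'
      all_goals first | exact m.elim0 | exact m'.elim0 | skip
      all_goals
        simp [tauJ, tauP, Equiv.swap_apply_def, apply_ite rkJ] at hab hlt htop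
        simp only [Fin.ext_iff, Fin.lt_def, Fin.le_def, Fin.val_last] at hab hlt htop
        split_ifs at hab <;> omega
  · exact hU.row a b hlt

end OFrame

end Orth

end CfsgLib.StChar
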