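import Cfsg.Agent.StChar.BD
import Cfsg.Agent.StChar.ORoots

/-!
The apartment data of a split orthogonal group in even dimension.
-/

set_option autoImplicit false
set_option maxHeartbeats 1000000

open QuadraticMap

namespace CfsgLib.StChar.OD

open CfsgLib.Forms CfsgLib.OrthTwoGen CfsgLib.StChar.Orth CfsgLib.StChar.BD

variable {F V : Type*} [Field F] [AddCommGroup V] [Module F V] {Q : QuadraticForm F V} {k : ℕ}

/-- the positions -/
def pos : J (k + 1) 0 → Pos k :=
  Sum.elim (Sum.elim pl pr) fun j => j.elim0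

@[simp] theorem pos_l (i : Fin (k + 2)) : pos (Sum.inl (Sum.inl i) : J (k + 1) 0) = pl i := rfl
@[simp] theorem pos_r (i : Fin (k + 2)) : pos (Sum.inl (Sum.inr i) : J (k + 1) 0) = pr i := rfl

theorem pos_injective : Function.Injective (pos : J (k + 1) 0 → Pos k) := by
  intro a b h
  rcases a with (i | i) | i <;> rcases b with (l | l) | l
  all_goals first | exact i.elim0 | exact l.elim0 | skip
  all_goals simp at h
  all_goals rw [h]

theorem Rsw_pos (i : Fin (k + 1)) (a b : J (k + 1) 0) : Rsw i (pos a) (pos b) ↔ RswJ i a b := by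
  rcases a with (x | x) | x <;> rcases b with (y | y) | y
  all_goals first | exact x.elim0 | exact y.elim0 | skip
  all_goals simp [Rsw, RswJ]

theorem pos_tau (a : J (k + 1) 0) : pos (tauJ a) = tau (pos a) := by
  rcases a with (x | x) | x
  all_goals first | exact x.elim0 | skip
  all_goals
    simp [tauJ, tauP, tau_pl, tau_pr, Equiv.swap_apply_def]
    split_ifs <;> simp_all

theorem RD_pos (a b : J (k + 1) 0) :
    RD (pos a) (pos b) ↔ RswJ (Fin.last k) (tauJ a) (tauJ b) := by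
  rw [RD, ← pos_tau, ← pos_tau, Rsw_pos]

theorem pos_swJ (i : Fin (k + 1)) (x : J (k + 1) 0) : pos (swJ i x) = sw i (pos x) := by
  rcases x with (j | j) | j
  all_goals first | exact j.elim0 | skip
  all_goals simp [swJ, sw_pl, sw_pr]

/-- the exchange inside one pair -/
def swPair (i : Fin (k + 2)) : Equiv.Perm (Pos k) := Equiv.swap (pl i) (pr i)

theorem swPair_pl (i j : Fin (k + 2)) :
    swPair i (pl j : Pos k) = if j = i then pr j else pl j := by
  simp only [swPair, Equiv.swap_apply_def, pl_inj, pl_ne_pr, if_false]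
  split_ifs <;> simp_all

theorem swPair_pr (i j : Fin (k + 2)) :
    swPair i (pr j : Pos k) = if j = i then pl j else pr j := by
  simp only [swPair, Equiv.swap_apply_def, pr_inj, pr_ne_pl, if_false]
  split_ifs <;> simp_all

theorem last_ne_castSucc (i : Fin (k + 1)) : (Fin.last (k + 1)) ≠ i.castSucc :=
  (Fin.castSucc_lt_last i).ne'

variable (D : OFrame Q (k + 1) 0)

/-- the layout on the root group -/
noncomputable def lay : Layout (rootGroup Q) F (J (k + 1) 0) (Pos k) where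
  mat := D.layJ.mat.comp (rootGroup Q).subtype
  inj := D.layJ.inj.comp Subtype.val_injective
  pos := pos
  surj := fun p => by
    rcases BD.cases_on' p with ⟨i, rfl⟩ | ⟨i, rfl⟩
    exacts [⟨Sum.inl (Sum.inl i), rfl⟩, ⟨Sum.inl (Sum.inr i), rfl⟩]

variable {D}

theorem supp_iff {R : Pos k → Pos k → Prop} {g : rootGroup Q} :
    (lay D).Supp R g ↔ D.layJ.Supp (fun a b => R (pos a) (pos b)) (g : V ≃ₗ[F] V) := Iff.rfl

theorem rkJ_lt_of_lt {a b : J (k + 1) 0} (h : pos a < pos b) : rkJ a < rkJ b := by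
  rw [BD.lt_iff] at h
  rcases a with (x | x) | x <;> rcases b with (y | y) | y
  all_goals first | exact x.elim0 | exact y.elim0 | skip
  all_goals simp at h ⊢
  all_goals omega

theorem lt_or_top {a b : J (k + 1) 0} (h : rkJ a < rkJ b) : pos a < pos b ∨
    (a = Sum.inl (Sum.inl (Fin.last (k + 1))) ∧ b = Sum.inl (Sum.inr (Fin.last (k + 1)))) := by
  rw [BD.lt_iff]
  rcases a with (x | x) | x <;> rcases b with (y | y) | y
  all_goals first | exact x.elim0 | exact y.elim0 | skip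
  all_goals simp [Fin.ext_iff] at h ⊢
  all_goals omega

theorem upper_of_lt {g : rootGroup Q} (h : (lay D).Supp (· < ·) g) :
    D.Upper (g : V ≃ₗ[F] V) :=
  Layout.Supp.mono (supp_iff.1 h) fun _ _ hab => rkJ_lt_of_lt hab

theorem top_zero {g : V ≃ₗ[F] V} (hg : g ∈ isom Q) (hU : D.Upper g) :
    D.b.repr (g (D.b (Sum.inl (Sum.inr (Fin.last (k + 1))))))
      (Sum.inl (Sum.inl (Fin.last (k + 1)))) = 0 := by
  have hr : ∀ i, i ≠ Fin.last (k + 1) →
      D.b.repr (g (D.f (Fin.last (k + 1)))) (Sum.inl (Sum.inr i)) = 0 := fun i hi => by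
    rw [OFrame.f, hU.row _ _ (by
      have : i.1 ≠ k + 1 := fun e => hi (Fin.ext e)
      simp; omega), if_neg (by simp [Ne.symm hi])]
  have h0 := D.upper_top hg hU _ hr
  rwa [show D.mid (g (D.f (Fin.last (k + 1)))) = 0 from funext fun j => j.elim0, map_zero,
    QuadraticMap.map_zero, neg_zero] at h0

theorem lt_of_upper {g : rootGroup Q} (hU : D.Upper (g : V ≃ₗ[F] V)) :
    (lay D).Supp (· < ·) g := by
  rw [supp_iff, D.supp_iff]
  intro a b hab
  by_cases h : rkJ a < rkJ b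
  · obtain ⟨rfl, rfl⟩ := (lt_or_top h).resolve_left hab
    rw [top_zero (rootGroup_le_isom g.2) hU, if_neg (by simp)]
  · exact hU.row a b h

theorem upper_of_flip {g : V ≃ₗ[F] V} (hg : g ∈ isom Q) (hU : D.flip.Upper g) : D.Upper g := by
  have h := D.flip.upper_flip hg hU
  rw [OFrame.Upper, D.flip.supp_flip, D.supp_flip] at h
  simpa [OFrame.Upper, tauJ_tauJ] using h

theorem mono_iff {π : Equiv.Perm (Pos k)} {g : rootGroup Q} :
    (lay D).Mono π g ↔
      ∀ a b, D.b.repr ((g : V ≃ₗ[F] V) (D.b b)) a ≠ 0 → pos a = π (pos b) := by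
  constructor <;> intro h a b hab
  · exact h a b (by show D.layJ.mat (g : V ≃ₗ[F] V) a b ≠ 0; rwa [D.mat_apply])
  · exact h a b (by
      have : D.layJ.mat (g : V ≃ₗ[F] V) a b ≠ 0 := hab
      rwa [D.mat_apply] at this)

theorem corner {g : V ≃ₗ[F] V} (hg : g ∈ isom Q) (hU : D.Upper g)
    (h : D.b.repr (g (D.f (Fin.last k).castSucc)) (Sum.inl (Sum.inl (Fin.last (k + 1)))) *
      D.b.repr (g (D.f (Fin.last k).castSucc)) (Sum.inl (Sum.inr (Fin.last (k + 1)))) = 0) :
    D.b.repr (g (D.b (Sum.inl (Sum.inr (Fin.last k).castSucc))))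
      (Sum.inl (Sum.inl (Fin.last k).castSucc)) = 0 := by
  have hq := hg (D.f (Fin.last k).castSucc)
  rw [D.qf, D.q_repr, show D.mid (g (D.f (Fin.last k).castSucc)) = 0 from funext fun j => j.elim0,
    map_zero, QuadraticMap.map_zero, add_zero,
    Finset.sum_eq_add (Fin.last k).castSucc (Fin.last (k + 1)) (last_ne_castSucc (Fin.last k)).symm,
    h, add_zero, OFrame.f, hU.row _ (Sum.inl (Sum.inr _)) (lt_irrefl _), if_pos rfl, mul_one] at hq
  · exact hq
  · intro l _ hl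
    have h1 : l.1 ≠ k := fun e => hl.1 (Fin.ext e)
    have h2 : l.1 ≠ k + 1 := fun e => hl.2 (Fin.ext e)
    rw [OFrame.f, hU.row (Sum.inl (Sum.inr l)) _ (by simp; omega), if_neg (by simp [Ne.symm hl.1]),
      mul_zero]
  · simp
  · simp

theorem supp_out {σ : Equiv.Perm (Pos k)} {RJ : J (k + 1) 0 → J (k + 1) 0 → Prop} {g : rootGroup Q}
    (hout : ∀ a b, pos a < pos b → ¬ RJ a b →
      ¬ (a = Sum.inl (Sum.inl (Fin.last k).castSucc) ∧ b = Sum.inl (Sum.inr (Fin.last k).castSucc) ∧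
        D.b.repr ((g : V ≃ₗ[F] V) (D.b b)) a = 0) → σ (pos a) < σ (pos b))
    (hU : D.Upper (g : V ≃ₗ[F] V))
    (hz : ∀ a b, RJ a b → D.b.repr ((g : V ≃ₗ[F] V) (D.b b)) a = 0) :
    (lay D).Supp (fun p q => p < q ∧ σ p < σ q) g := by
  rw [supp_iff]
  intro a b hab
  have hne : D.b.repr ((g : V ≃ₗ[F] V) (D.b b)) a ≠ if b = a then 1 else 0 := by
    intro e
    apply hab
    rw [Matrix.sub_apply, D.mat_apply, e, Matrix.one_apply]
    by_cases h : b = a
    · subst h; simp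
    · simp [h, Ne.symm h]
  have hlt : pos a < pos b := supp_iff.1 (lt_of_upper hU) a b hab
  have hba : b ≠ a := fun e => lt_irrefl _ (e ▸ hlt)
  rw [if_neg hba] at hne
  exact ⟨hlt, hout a b hlt (fun h => hne (hz a b h)) fun h => hne h.2.2⟩

theorem eq_one_of_zero {RJ : J (k + 1) 0 → J (k + 1) 0 → Prop} {g : rootGroup Q}
    (h : D.layJ.Supp RJ (g : V ≃ₗ[F] V)) (hlt : ∀ a b, RJ a b → a ≠ b)
    (hz : ∀ a b, RJ a b → D.b.repr ((g : V ≃ₗ[F] V) (D.b b)) a = 0) : g = 1 := by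
  refine Subtype.ext (LinearEquiv.toLinearMap_injective (D.b.ext fun b => D.b.ext_elem fun a => ?_))
  show D.b.repr ((g : V ≃ₗ[F] V) (D.b b)) a = D.b.repr (D.b b) a
  rw [D.repr_b]
  by_cases hR : RJ a b
  · rw [hz a b hR, if_neg (hlt a b hR).symm]
  · exact D.supp_iff.1 h a b hR

variable [Finite F] [FiniteDimensional F V] (D) (hQ : (polarBilin Q).Nondegenerate)
  (hn : 5 ≤ Module.finrank F V)

/-- short root elements -/
noncomputable def xG (i : Fin (k + 1)) (t : F) : rootGroup Q := ⟨D.xS i t, D.xS_mem hQ hn i t⟩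
/-- short Weyl elements -/
noncomputable def nG (i : Fin (k + 1)) (t : F) : rootGroup Q := ⟨D.nS i t, D.nS_mem hQ hn i t⟩

theorem xG_supp (i : Fin (k + 1)) (t : F) : (lay D).Supp (Rsw i) (xG D hQ hn i t) := by
  rw [supp_iff]
  exact (D.xS_supp i t).mono fun a b h => (Rsw_pos i a b).2 h

theorem xGD_supp (t : F) : (lay D).Supp RD (xG D.flip hQ hn (Fin.last k) t) := by
  rw [supp_iff]
  have h : D.layJ.Supp (fun a b => RswJ (Fin.last k) (tauJ a) (tauJ b))
      (D.flip.xS (Fin.last k) t) := D.supp_flip.1 (D.flip.xS_supp (Fin.last k) t)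
  exact h.mono fun a b h => (RD_pos a b).2 h

theorem nG_mono (i : Fin (k + 1)) {t : F} (ht : t ≠ 0) :
    (lay D).Mono (sw i) (nG D hQ hn i t) := by
  rw [mono_iff]
  intro a b h
  obtain ⟨c, -, e⟩ := D.nS_b i ht b
  rw [show ((nG D hQ hn i t : rootGroup Q) : V ≃ₗ[F] V) = D.nS i t from rfl, e, map_smul,
    Finsupp.smul_apply, D.repr_b] at h
  split_ifs at h with hb
  · rw [← hb, pos_swJ]
  · simp at h

theorem nGD_mono {t : F} (ht : t ≠ 0) :
    (lay D).Mono swD (nG D.flip hQ hn (Fin.last k) t) := by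
  rw [mono_iff]
  intro a b h
  obtain ⟨c, -, e⟩ := D.flip.nS_b (Fin.last k) ht (tauJ b)
  rw [D.flip_b, D.flip_b, tauJ_tauJ] at e
  rw [show ((nG D.flip hQ hn (Fin.last k) t : rootGroup Q) : V ≃ₗ[F] V) =
    D.flip.nS (Fin.last k) t from rfl, e, map_smul, Finsupp.smul_apply, D.repr_b] at h
  split_ifs at h with hb
  · rw [← hb, swD_apply, pos_tau, pos_swJ, pos_tau]
  · simp at h

/-- the representatives -/
noncomputable def SS : Set (rootGroup Q) :=
  Set.range (fun i => nG D hQ hn i 1) ∪ {nG D.flip hQ hn (Fin.last k) 1}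

open Classical in
/-- the permutation of a representative -/
noncomputable def sigmaOf (g : rootGroup Q) : Equiv.Perm (Pos k) :=
  if h : ∃ i, nG D hQ hn i 1 = g then sw h.choose else swD

open Classical in
/-- the roots of a representative -/
noncomputable def rootsOf (g : rootGroup Q) : Pos k → Pos k → Prop :=
  if h : ∃ i, nG D hQ hn i 1 = g then Rsw h.choose else RD

theorem mem_SS {s : rootGroup Q} (hs : s ∈ SS D hQ hn) :
    (∃ i, s = nG D hQ hn i 1 ∧ sigmaOf D hQ hn s = sw i ∧ rootsOf D hQ hn s = Rsw i) ∨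
      (s = nG D.flip hQ hn (Fin.last k) 1 ∧ sigmaOf D hQ hn s = swD ∧ rootsOf D hQ hn s = RD) := by
  by_cases h : ∃ i, nG D hQ hn i 1 = s
  · exact Or.inl ⟨h.choose, h.choose_spec.symm, by rw [sigmaOf, dif_pos h], by rw [rootsOf, dif_pos h]⟩
  · rcases hs with ⟨i, hi⟩ | hs
    · exact absurd ⟨i, hi⟩ h
    · exact Or.inr ⟨hs, by rw [sigmaOf, dif_neg h], by rw [rootsOf, dif_neg h]⟩

theorem factor_S (i : Fin (k + 1)) {u : rootGroup Q} (hu : (lay D).Supp (· < ·) u) :
    ∃ t, (lay D).Supp (fun p q => p < q ∧ sw i p < sw i q) (u * (xG D hQ hn i t)⁻¹) ∧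
      ∀ a b, RswJ i a b →
        D.b.repr (((u * (xG D hQ hn i t)⁻¹ : rootGroup Q) : V ≃ₗ[F] V) (D.b b)) a = 0 := by
  obtain ⟨t, h1, h2⟩ := D.factor_long i (rootGroup_le_isom u.2) (upper_of_lt hu)
  replace h1 : D.Upper ((u * (xG D hQ hn i t)⁻¹ : rootGroup Q) : V ≃ₗ[F] V) := h1
  replace h2 : ∀ a b, RswJ i a b →
      D.b.repr (((u * (xG D hQ hn i t)⁻¹ : rootGroup Q) : V ≃ₗ[F] V) (D.b b)) a = 0 := h2
  refine ⟨t, supp_out (fun a b hlt hR hexc => ?_) h1 h2, h2⟩
  refine Rsw_out i _ _ hlt (fun h => hR ((Rsw_pos i a b).1 h)) ?_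
  rintro ⟨rfl, ha, hb⟩
  obtain rfl := pos_injective (ha.trans (pos_l _).symm)
  obtain rfl := pos_injective (hb.trans (pos_r _).symm)
  refine hexc ⟨rfl, rfl, corner (rootGroup_le_isom (SetLike.coe_mem _)) h1 ?_⟩
  rw [OFrame.f, h2 (Sum.inl (Sum.inr (Fin.last (k + 1)))) (Sum.inl (Sum.inr (Fin.last k).castSucc))
    (Or.inr ⟨by simp, rfl⟩), mul_zero]

theorem factor_D {u : rootGroup Q} (hu : (lay D).Supp (· < ·) u) :
    ∃ t, (lay D).Supp (fun p q => p < q ∧ swD p < swD q)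
        (u * (xG D.flip hQ hn (Fin.last k) t)⁻¹) ∧
      ∀ a b, RswJ (Fin.last k) (tauJ a) (tauJ b) → D.b.repr
        (((u * (xG D.flip hQ hn (Fin.last k) t)⁻¹ : rootGroup Q) : V ≃ₗ[F] V) (D.b b)) a = 0 := by
  have hui := rootGroup_le_isom u.2
  obtain ⟨t, h1, h2⟩ := D.flip.factor_long (Fin.last k) hui (D.upper_flip hui (upper_of_lt hu))
  set g := u * (xG D.flip hQ hn (Fin.last k) t)⁻¹
  have hz : ∀ a b, RswJ (Fin.last k) (tauJ a) (tauJ b) →
      D.b.repr ((g : V ≃ₗ[F] V) (D.b b)) a = 0 := by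
    intro a b h
    have := h2 _ _ h
    rwa [D.flip_repr, D.flip_b, tauJ_tauJ, tauJ_tauJ] at this
  have hUg : D.Upper (g : V ≃ₗ[F] V) := upper_of_flip (rootGroup_le_isom g.2) h1
  refine ⟨t, supp_out (fun a b hlt hR hexc => ?_) hUg hz, hz⟩
  refine RD_out _ _ hlt (fun h => hR ((RD_pos a b).1 h)) ?_
  rintro ⟨ha, hb⟩
  obtain rfl := pos_injective (ha.trans (pos_l _).symm)
  obtain rfl := pos_injective (hb.trans (pos_r _).symm)
  refine hexc ⟨rfl, rfl, corner (rootGroup_le_isom g.2) hUg ?_⟩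
  rw [OFrame.f, hz (Sum.inl (Sum.inl (Fin.last (k + 1)))) (Sum.inl (Sum.inr (Fin.last k).castSucc))
    (Or.inr ⟨by simp [tauJ, tauP],
      by simp [tauJ, tauP, Equiv.swap_apply_def, (Fin.castSucc_lt_last (Fin.last k)).ne]⟩),
    zero_mul]

variable [Finite V]

instance finite_rootGroup : Finite (rootGroup Q) :=
  Finite.of_injective (fun g : rootGroup Q => ((g : V ≃ₗ[F] V) : V → V))
    fun _ _ h => Subtype.ext (DFunLike.coe_injective h)

theorem eq_xG (i : Fin (k + 1)) {x : rootGroup Q} (hx : (lay D).Supp (Rsw i) x) :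
    ∃ t, x = xG D hQ hn i t := by
  obtain ⟨t, -, hz⟩ := factor_S D hQ hn i (hx.mono (Rsw_lt i))
  refine ⟨t, mul_inv_eq_one.1 (eq_one_of_zero (RJ := RswJ i) ?_ ?_ hz)⟩
  · have h := Subgroup.mul_mem ((lay D).Sub (Rsw i) (Rsw_trans i)) hx
      (Subgroup.inv_mem ((lay D).Sub (Rsw i) (Rsw_trans i)) (xG_supp D hQ hn i t))
    exact (supp_iff.1 h).mono fun a b h => (Rsw_pos i a b).1 h
  · intro a b h e
    subst e
    exact lt_irrefl _ (OFrame.rkJ_lt_of_RswJ h)

theorem eq_xGD {x : rootGroup Q} (hx : (lay D).Supp RD x) :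
    ∃ t, x = xG D.flip hQ hn (Fin.last k) t := by
  obtain ⟨t, -, hz⟩ := factor_D D hQ hn (hx.mono RD_lt)
  refine ⟨t, mul_inv_eq_one.1
    (eq_one_of_zero (RJ := fun a b => RswJ (Fin.last k) (tauJ a) (tauJ b)) ?_ ?_ hz)⟩
  · have h := Subgroup.mul_mem ((lay D).Sub RD RD_trans) hx
      (Subgroup.inv_mem ((lay D).Sub RD RD_trans) (xGD_supp D hQ hn t))
    exact (supp_iff.1 h).mono fun a b h => (RD_pos a b).1 h
  · intro a b h e
    subst e
    exact lt_irrefl _ (OFrame.rkJ_lt_of_RswJ h)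

include hQ hn in
theorem exists_flip_last (i : Fin (k + 1)) :
    ∃ g : rootGroup Q, (lay D).Mono (swPair i.castSucc * tau) g ∧
      swPair i.castSucc * tau ∈ BD.W k := by
  induction i using Fin.reverseInduction with
  | last =>
    have e : swPair (Fin.last k).castSucc * tau = sw (Fin.last k) * swD := by
      refine Equiv.ext fun p => ?_
      simp only [Equiv.Perm.mul_apply, swD_apply]
      rcases BD.cases_on' p with ⟨j, rfl⟩ | ⟨j, rfl⟩ <;>
        rcases Fin.eq_castSucc_or_eq_last j with ⟨l, rfl⟩ | rfl <;>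
        (try (rcases eq_or_ne l (Fin.last k) with rfl | hl)) <;>
        simp [swPair_pl, swPair_pr, tau_pl, tau_pr, sw_pl, sw_pr, Equiv.swap_apply_def,
          Fin.castSucc_ne_last, last_ne_castSucc, *]
    rw [e]
    exact ⟨_, (nG_mono D hQ hn _ one_ne_zero).mul (nGD_mono D hQ hn one_ne_zero),
      mul_mem (sw_eps _).1 swD_eps.1⟩
  | cast i ih =>
    obtain ⟨g, hg, hW⟩ := ih
    have hne : i.castSucc.castSucc ≠ i.castSucc.succ := (Fin.castSucc_lt_succ (i := i.castSucc)).ne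
    have h1 : i.succ.castSucc = i.castSucc.succ := by ext; simp
    have h2 : Fin.last (k + 1) ≠ i.castSucc.succ := by
      intro e; have := congrArg Fin.val e; simp at this; omega
    have e : swPair i.castSucc.castSucc * tau =
        sw i.castSucc * (swPair i.succ.castSucc * tau) * sw i.castSucc := by
      refine Equiv.ext fun p => ?_
      simp only [Equiv.Perm.mul_apply]
      rw [h1]
      rcases BD.cases_on' p with ⟨j, rfl⟩ | ⟨j, rfl⟩ <;>
        (rcases eq_or_ne j i.castSucc.castSucc with rfl | hj1) <;>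
        (try rcases eq_or_ne j i.castSucc.succ with rfl | hj2) <;>
        (try rcases eq_or_ne j (Fin.last (k + 1)) with rfl | hj3) <;>
        simp [swPair_pl, swPair_pr, tau_pl, tau_pr, sw_pl, sw_pr, Equiv.swap_apply_def,
          Fin.castSucc_ne_last, last_ne_castSucc, h2.symm, *]
    rw [e]
    exact ⟨_, ((nG_mono D hQ hn _ one_ne_zero).mul hg).mul (nG_mono D hQ hn _ one_ne_zero),
      mul_mem (mul_mem (sw_eps _).1 hW) (sw_eps _).1⟩

include hQ hn in
theorem exists_flips (S : Finset (Fin (k + 1))) :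
    ∃ (g : rootGroup Q) (π : Equiv.Perm (Pos k)), (lay D).Mono π g ∧ π ∈ BD.W k ∧
      (∀ i : Fin (k + 1), π (pl i.castSucc) = if i ∈ S then pr i.castSucc else pl i.castSucc) ∧
      (π (pl (Fin.last (k + 1))) = pl (Fin.last (k + 1)) ∨
        π (pl (Fin.last (k + 1))) = pr (Fin.last (k + 1))) := by
  classical
  induction S using Finset.induction with
  | empty => exact ⟨1, 1, Layout.mono_one _, one_mem _, by simp, Or.inl rfl⟩
  | @insert a S ha ih =>
    obtain ⟨g, π, hg, hW, h1, h2⟩ := ih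
    obtain ⟨f, hf, hfW⟩ := exists_flip_last D hQ hn a
    refine ⟨f * g, swPair a.castSucc * tau * π, hf.mul hg, mul_mem hfW hW, fun i => ?_, ?_⟩
    · rw [Equiv.Perm.mul_apply, h1, Equiv.Perm.mul_apply]
      by_cases hi : i ∈ S
      · rw [if_pos hi, tau_pr, if_neg (Fin.castSucc_ne_last i), swPair_pr,
          if_neg (fun e => ha (by rw [← Fin.castSucc_injective _ e]; exact hi)),
          if_pos (Finset.mem_insert_of_mem hi)]
      · rw [if_neg hi, tau_pl, if_neg (Fin.castSucc_ne_last i), swPair_pl]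
        by_cases hia : i = a <;> simp [hi, hia]
    · rw [Equiv.Perm.mul_apply, Equiv.Perm.mul_apply]
      rcases h2 with h | h <;> rw [h]
      · right; rw [tau_pl, if_pos rfl, swPair_pr, if_neg (last_ne_castSucc a)]
      · left; rw [tau_pr, if_pos rfl, swPair_pl, if_neg (last_ne_castSucc a)]

include hQ hn in
theorem exists_n0 : ∃ (π : Equiv.Perm (Pos k)) (g : rootGroup Q), π ∈ BD.W k ∧
    (lay D).Mono π g ∧ ∀ p, rk (π p) = 2 * k + 2 - rk p := by
  obtain ⟨g, π, hg, hW, h1, h2⟩ := exists_flips D hQ hn Finset.univ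
  have hl : ∀ i, rk (π (pl i)) = 2 * k + 2 - rk (pl i : Pos k) := by
    intro i
    rcases Fin.eq_castSucc_or_eq_last i with ⟨j, rfl⟩ | rfl
    · rw [h1, if_pos (Finset.mem_univ j)]; simp
    · rcases h2 with h | h <;> rw [h] <;> simp <;> omega
  refine ⟨π, g, hW, hg, fun p => ?_⟩
  rcases BD.cases_on' p with ⟨i, rfl⟩ | ⟨i, rfl⟩
  · exact hl i
  · have := rk_map hW (pl i : Pos k)
    rw [bar_pl] at this
    have := hl i
    simp at this ⊢
    omega

theorem gen_eq_top :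
    Subgroup.closure ({g | (lay D).Supp (· < ·) g} ∪ SS D hQ hn ∪ {g | (lay D).Mono 1 g}) = ⊤ := by
  set K := Subgroup.closure ({g | (lay D).Supp (· < ·) g} ∪ SS D hQ hn ∪ {g | (lay D).Mono 1 g})
    with hK
  set H := K.map (rootGroup Q).subtype with hH
  have hnS : ∀ i, D.nS i 1 ∈ H := fun i =>
    ⟨nG D hQ hn i 1, Subgroup.subset_closure (Or.inl (Or.inr (Or.inl ⟨i, rfl⟩))), rfl⟩
  obtain ⟨g1, hg1, hg1i, c, c', hc, hc', hge, hgf⟩ := D.exists_chain hnS (Fin.last k).castSucc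
  obtain ⟨g2, hg2, hg2i, d, d', hd, hd', hge', hgf'⟩ := D.exists_chain hnS (Fin.last (k + 1))
  have hs : D.flip.nS (Fin.last k) 1 ∈ H :=
    ⟨nG D.flip hQ hn (Fin.last k) 1, Subgroup.subset_closure (Or.inl (Or.inr (Or.inr rfl))), rfl⟩
  obtain ⟨c2, hc2, he⟩ := D.flip.nS_b (Fin.last k) (one_ne_zero (α := F))
    (Sum.inl (Sum.inl (Fin.last k).castSucc))
  have he' : D.flip.nS (Fin.last k) 1 (D.e (Fin.last k).castSucc) =
      (c2 * d'⁻¹) • g2 (D.f 0) := by
    rw [hgf', smul_smul, mul_assoc, inv_mul_cancel₀ hd', mul_one]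
    rw [D.flip_b, D.flip_b] at he
    have e1 : tauJ (Sum.inl (Sum.inl (Fin.last k).castSucc) : J (k + 1) 0) =
        Sum.inl (Sum.inl (Fin.last k).castSucc) := by
      simp [tauJ, tauP, Equiv.swap_apply_def, Fin.castSucc_ne_last]
    have e2 : tauJ (swJ (Fin.last k) (Sum.inl (Sum.inl (Fin.last k).castSucc) : J (k + 1) 0)) =
        Sum.inl (Sum.inr (Fin.last (k + 1))) := by
      simp [swJ, tauJ, tauP]
    rw [e1, e2] at he
    exact he
  have hw : (g2⁻¹ * D.flip.nS (Fin.last k) 1 * g1) (D.e 0) = (c * (c2 * d'⁻¹)) • D.f 0 := by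
    rw [LinearEquiv.mul_apply, LinearEquiv.mul_apply, hge, map_smul, he', map_smul, map_smul,
      smul_smul]
    congr 1
    exact g2.symm_apply_apply _
  have hle : rootGroup Q ≤ H := D.root_le_of_gen hQ
    (fun a _ hU => ⟨⟨_, sg_mem_root hQ hn _ _⟩,
      Subgroup.subset_closure (Or.inl (Or.inl (lt_of_upper hU))), rfl⟩)
    (mul_mem (mul_mem (inv_mem hg2) hs) hg1)
    (mul_mem (mul_mem (inv_mem hg2i) (nEl_mem_isom _ _ _ _ _)) hg1i)
    (mul_ne_zero hc (mul_ne_zero hc2 (inv_ne_zero hd'))) hw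
  refine eq_top_iff.2 fun x _ => ?_
  obtain ⟨y, hy, e⟩ := hle x.2
  rwa [← Subtype.ext e]

/-- the apartment data -/
noncomputable def sys : Sys (rootGroup Q) F (J (k + 1) 0) (Pos k) where
  toLayout := lay D
  W := BD.W k
  ε := BD.eps
  π0 := (exists_n0 D hQ hn).choose
  n0 := (exists_n0 D hQ hn).choose_spec.choose
  S := SS D hQ hn
  σ := sigmaOf D hQ hn
  R := rootsOf D hQ hn
  π0_mem := (exists_n0 D hQ hn).choose_spec.choose_spec.1
  n0_mono := (exists_n0 D hQ hn).choose_spec.choose_spec.2.1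
  anti := anti_of (exists_n0 D hQ hn).choose_spec.choose_spec.2.2
  S_mono s hs := by
    rcases mem_SS D hQ hn hs with ⟨i, hi, h1, -⟩ | ⟨hi, h1, -⟩
    · rw [h1, hi]; exact ⟨nG_mono D hQ hn i one_ne_zero, sw_sq i, sw_eps i⟩
    · rw [h1, hi]; exact ⟨nGD_mono D hQ hn one_ne_zero, swD_sq, swD_eps⟩
  R_trans s := by
    unfold rootsOf; split_ifs with h
    exacts [Rsw_trans _, RD_trans]
  R_lt s hs := by
    rcases mem_SS D hQ hn hs with ⟨i, -, -, h⟩ | ⟨-, -, h⟩ <;> rw [h]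
    exacts [Rsw_lt i, RD_lt]
  R_rev s hs := by
    rcases mem_SS D hQ hn hs with ⟨i, -, h1, h⟩ | ⟨-, h1, h⟩ <;> rw [h, h1]
    exacts [Rsw_rev i, RD_rev]
  orient s hs π hπ := by
    rcases mem_SS D hQ hn hs with ⟨i, -, -, h⟩ | ⟨-, -, h⟩ <;> rw [h]
    exacts [Rsw_orient i hπ.1, RD_orient hπ]
  sepW π hπ h := by
    have key : ∀ i, (∀ i', nG D hQ hn i 1 = nG D hQ hn i' 1 → i = i') ∧
        nG D hQ hn i 1 ≠ nG D.flip hQ hn (Fin.last k) 1 := fun i => by
      refine ⟨fun i' e => ?_, fun e => ?_⟩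
      · have h3 := nG_mono D hQ hn i (one_ne_zero (α := F))
        rw [e] at h3
        have h4 := congrArg (fun e : Equiv.Perm (Pos k) => e (pl i.castSucc))
          (h3.unique (nG_mono D hQ hn i' one_ne_zero))
        simp only [sw_pl, pl_inj, Equiv.swap_apply_left] at h4
        rw [Equiv.swap_apply_def] at h4
        split_ifs at h4 with a1 a2 <;> simp [Fin.ext_iff] at * <;> omega
      · have h3 := nG_mono D hQ hn i (one_ne_zero (α := F))
        rw [e] at h3
        have h4 := congrArg (fun e : Equiv.Perm (Pos k) => e (pl i.castSucc))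
          (h3.unique (nGD_mono D hQ hn one_ne_zero))
        simp only [sw_pl, Equiv.swap_apply_left, swD_apply, tau_pl] at h4
        rw [if_neg (Fin.castSucc_ne_last i), sw_pl, tau_pl, Equiv.swap_apply_def] at h4
        split_ifs at h4 with a1 a2 a3 a4 <;> simp [Fin.ext_iff] at * <;> omega
    refine eq_one_of_increasing hπ (fun i => ?_) ?_
    · rcases mem_SS D hQ hn (Or.inl ⟨i, rfl⟩ : nG D hQ hn i 1 ∈ SS D hQ hn) with
        ⟨i', hi, -, h2⟩ | ⟨hi, -, -⟩
      · obtain rfl := (key i).1 i' hi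
        exact h _ (Or.inl ⟨i, rfl⟩) _ _ (by rw [h2]; exact Or.inl ⟨rfl, rfl⟩)
      · exact absurd hi (key i).2
    · rcases mem_SS D hQ hn (Or.inr rfl : nG D.flip hQ hn (Fin.last k) 1 ∈ SS D hQ hn) with
        ⟨i', hi, -, -⟩ | ⟨-, -, h2⟩
      · exact absurd hi.symm (key i').2
      · exact h _ (Or.inr rfl) _ _ (by
          rw [h2]
          exact Or.inl ⟨by rw [tau_pl, if_neg (Fin.castSucc_ne_last _)],
            by rw [tau_pr, if_pos rfl]; simp⟩)
  X_nt s hs := by
    rcases mem_SS D hQ hn hs with ⟨i, -, -, h⟩ | ⟨-, -, h⟩ <;> rw [h]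
    · exact ⟨xG D hQ hn i 1, fun e => D.xS_ne i one_ne_zero (congrArg Subtype.val e),
        xG_supp D hQ hn i 1⟩
    · exact ⟨xG D.flip hQ hn (Fin.last k) 1,
        fun e => D.flip.xS_ne _ one_ne_zero (congrArg Subtype.val e), xGD_supp D hQ hn 1⟩
  factor s hs u hu := by
    rcases mem_SS D hQ hn hs with ⟨i, -, h1, h⟩ | ⟨-, h1, h⟩ <;> rw [h, h1]
    · obtain ⟨t, ht, -⟩ := factor_S D hQ hn i hu
      exact ⟨_, xG_supp D hQ hn i t, ht⟩
    · obtain ⟨t, ht, -⟩ := factor_D D hQ hn hu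
      exact ⟨_, xGD_supp D hQ hn t, ht⟩
  rank1 s hs x hx hx1 := by
    rcases mem_SS D hQ hn hs with ⟨i, hi, -, h⟩ | ⟨hi, -, h⟩ <;> rw [h] at hx ⊢ <;> rw [hi]
    · obtain ⟨t, rfl⟩ := eq_xG D hQ hn i hx
      have ht : t ≠ 0 := fun h0 => hx1 (Subtype.ext (by
        subst h0
        show D.xS i 0 = 1
        rw [OFrame.xS, sigma, zero_smul, sg_zero (D.qe _)]))
      exact Layout.rank1_of_identity (sw_sq i) (nG_mono D hQ hn i one_ne_zero)
        (nG_mono D hQ hn i (one_div_ne_zero ht)) (xG_supp D hQ hn i _) (xG_supp D hQ hn i _)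
        (Subtype.ext (D.rank_long i ht))
    · obtain ⟨t, rfl⟩ := eq_xGD D hQ hn hx
      have ht : t ≠ 0 := fun h0 => hx1 (Subtype.ext (by
        subst h0
        show D.flip.xS (Fin.last k) 0 = 1
        rw [OFrame.xS, sigma, zero_smul, sg_zero (D.flip.qe _)]))
      exact Layout.rank1_of_identity swD_sq (nGD_mono D hQ hn one_ne_zero)
        (nGD_mono D hQ hn (one_div_ne_zero ht)) (xGD_supp D hQ hn _) (xGD_supp D hQ hn _)
        (Subtype.ext (D.flip.rank_long (Fin.last k) ht))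
  gen := gen_eq_top D hQ hn

include hQ hn in
theorem hblock {p : ℕ} [Fact p.Prime] [CharP F p]
    (hrefl : ∀ (y : V) (hy : Q y ≠ 0), Forms.refl Q y hy ∉ rootGroup Q)
    (g : rootGroup Q) (hg : (lay D).Supp (· ≤ ·) g) (hp : ∃ j : ℕ, g ^ p ^ j = 1) :
    ∀ i j, pos i = pos j → ((lay D).mat g - 1) i j = 0 := by
  intro i j hij
  have hle : D.layJ.Supp (fun a b => rkJ a ≤ rkJ b) (g : V ≃ₗ[F] V) :=
    Layout.Supp.mono (supp_iff.1 hg) fun a b h => by
      rcases h with h | h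
      · rw [pos_injective h]
      · exact (rkJ_lt_of_lt h).le
  obtain ⟨N, hN⟩ := hp
  have hU := D.upper_of_unipotent hQ hn (by omega) hrefl g.2 hle ⟨N, by
    have := congrArg Subtype.val hN; simpa using this⟩
  obtain rfl := pos_injective hij
  by_contra hne
  exact lt_irrefl (rkJ i) (hU i i hne)

end CfsgLib.StChar.OD
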