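import Cfsg.Agent.StChar.OB
import Cfsg.Agent.StChar.OD
import Cfsg.Agent.Forms.GeoBridge

/-!
From apartment data on the root group to the Steinberg character of `PΩ`.
-/

set_option autoImplicit false
set_option maxHeartbeats 1000000

open QuadraticMap

namespace CfsgLib.StChar.Orth

open CfsgLib.Forms

variable {F : Type*} [Field F] [Fintype F] {ι : Type} [Fintype ι] [DecidableEq ι]
  {Q : QuadraticForm F (ι → F)}

theorem rootGroup_eq_map (hQ : (polarBilin Q).Nondegenerate) (hn : 5 ≤ Fintype.card ι) :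
    rootGroup Q = (commutator (isom Q)).map (isom Q).subtype := by
  have hn' : 5 ≤ Module.finrank F (ι → F) := by rwa [Module.finrank_fintype_fun_eq_card]
  refine le_antisymm ?_ ?_
  · refine (Subgroup.closure_le _).2 ?_
    rintro _ ⟨d, w, hd, hwd, -, rfl⟩
    exact ⟨⟨siegel Q d w hd hwd, siegel_mem_isom hd hwd⟩, siegel_mem_commutator hQ hn hd hwd, rfl⟩
  · rintro _ ⟨g, hg, rfl⟩
    exact commutator_le_rootGroup hQ hn' hg

theorem refl_not_mem_root (hQ : (polarBilin Q).Nondegenerate) (hn : 5 ≤ Fintype.card ι)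
    (y : ι → F) (hy : Q y ≠ 0) : Forms.refl Q y hy ∉ rootGroup Q := by
  intro h
  rw [rootGroup_eq_map hQ hn] at h
  obtain ⟨g, hg, e⟩ := h
  have hcd : CDHyp F (ι → F) := Or.inr (by rw [Module.finrank_fintype_fun_eq_card]; omega)
  have hl : g = ⟨reflProd Q [⟨y, hy⟩], reflProd_mem_isom _⟩ := by
    refine Subtype.ext (e.trans ?_)
    show Forms.refl Q y hy = Forms.refl Q y hy * 1
    rw [mul_one]
  rw [hl] at hg
  have := even_of_mem_commutator hQ hcd _ hg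
  simp at this

theorem exists_rootGroup_equiv (hQ : (polarBilin Q).Nondegenerate) (hn : 5 ≤ Fintype.card ι) :
    Nonempty (rootGroup Q ≃* Cfsg.Omega F ⇑Q) := by
  let φ : Cfsg.Omega F ⇑Q →* ((ι → F) ≃ₗ[F] (ι → F)) :=
    ((isom Q).subtype.comp (isoEquiv Q).toMonoidHom).comp (Cfsg.Omega F ⇑Q).subtype
  have hφ : Function.Injective φ :=
    (Subtype.val_injective.comp (isoEquiv Q).injective).comp Subtype.val_injective
  have hrange : φ.range = rootGroup Q := by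
    rw [rootGroup_eq_map hQ hn]
    ext g
    constructor
    · rintro ⟨x, rfl⟩
      exact ⟨isoEquiv Q x.1, (mem_Omega_iff Q x.1).1 x.2, rfl⟩
    · rintro ⟨e, he, rfl⟩
      refine ⟨⟨(isoEquiv Q).symm e, ?_⟩, ?_⟩
      · rwa [mem_Omega_iff, MulEquiv.apply_symm_apply]
      · show ((isoEquiv Q ((isoEquiv Q).symm e) : isom Q) : (ι → F) ≃ₗ[F] (ι → F)) = _
        rw [MulEquiv.apply_symm_apply]
        rfl
  exact ⟨((MonoidHom.ofInjective hφ).trans (MulEquiv.subgroupCongr hrange)).symm⟩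

variable {κ P : Type*} [Fintype κ] [DecidableEq κ] [PartialOrder P] [Finite P] {p : ℕ}
  [Fact p.Prime] [CharP F p]

theorem steinberg_of_sys [Finite (rootGroup Q)] (hQ : (polarBilin Q).Nondegenerate)
    (hn : 5 ≤ Fintype.card ι) (S : Sys (rootGroup Q) F κ P)
    (hblock : ∀ g, S.toLayout.Supp (· ≤ ·) g → (∃ j : ℕ, g ^ p ^ j = 1) →
      ∀ i j, S.pos i = S.pos j → (S.mat g - 1) i j = 0) :
    ∃ χ : Cfsg.POmega F ⇑Q → ℂ, Cfsg.IsIrrCharacter (Cfsg.POmega F ⇑Q) χ ∧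
      ∀ P : Sylow p (Cfsg.POmega F ⇑Q), χ 1 = Nat.card P ∧
        ∀ x : Cfsg.POmega F ⇑Q, x ∈ P → x ≠ 1 → χ x = 0 := by
  obtain ⟨e⟩ := exists_rootGroup_equiv hQ hn
  refine S.exists_steinberg hblock
    ((QuotientGroup.mk' (Subgroup.center (Cfsg.Omega F ⇑Q))).comp e.toMonoidHom)
    ((QuotientGroup.mk'_surjective _).comp e.surjective) ?_
  intro x hx
  have hx' : e x ∈ Subgroup.center (Cfsg.Omega F ⇑Q) := (QuotientGroup.eq_one_iff (e x)).1 hx
  rw [Subgroup.mem_center_iff] at hx' ⊢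
  intro g
  apply e.injective
  rw [map_mul, map_mul, hx' (e g)]

/-- anisotropic middle -/
theorem steinberg_B {k d : ℕ} (D : OFrame Q k d) (hd : 0 < d) (hd2 : d ≤ 2)
    (hQ : (polarBilin Q).Nondegenerate) (hn : 5 ≤ Fintype.card ι) :
    ∃ χ : Cfsg.POmega F ⇑Q → ℂ, Cfsg.IsIrrCharacter (Cfsg.POmega F ⇑Q) χ ∧
      ∀ P : Sylow p (Cfsg.POmega F ⇑Q), χ 1 = Nat.card P ∧
        ∀ x : Cfsg.POmega F ⇑Q, x ∈ P → x ≠ 1 → χ x = 0 := by
  have hn' : 5 ≤ Module.finrank F (ι → F) := by rwa [Module.finrank_fintype_fun_eq_card]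
  haveI : Finite (rootGroup Q) := OB.finite_rootGroup
  exact steinberg_of_sys hQ hn (OB.sys D hd hQ hn')
    (fun g hg hp => OB.hblock D hd hQ hn' hd2 (refl_not_mem_root hQ hn) g hg hp)

/-- split in even dimension -/
theorem steinberg_D {k : ℕ} (D : OFrame Q (k + 1) 0)
    (hQ : (polarBilin Q).Nondegenerate) (hn : 5 ≤ Fintype.card ι) :
    ∃ χ : Cfsg.POmega F ⇑Q → ℂ, Cfsg.IsIrrCharacter (Cfsg.POmega F ⇑Q) χ ∧
      ∀ P : Sylow p (Cfsg.POmega F ⇑Q), χ 1 = Nat.card P ∧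
        ∀ x : Cfsg.POmega F ⇑Q, x ∈ P → x ≠ 1 → χ x = 0 := by
  have hn' : 5 ≤ Module.finrank F (ι → F) := by rwa [Module.finrank_fintype_fun_eq_card]
  haveI : Finite (rootGroup Q) := OD.finite_rootGroup
  exact steinberg_of_sys hQ hn (OD.sys D hQ hn')
    (fun g hg hp => OD.hblock D hQ hn' (refl_not_mem_root hQ hn) g hg hp)

end CfsgLib.StChar.Orth
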