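import Cfsg.Agent.StChar.BC
import Cfsg.Agent.SpTwoGen.Basic

/-!
The apartment data of the symplectic group.
-/

set_option autoImplicit false
set_option maxHeartbeats 1000000

namespace CfsgLib.StChar.Sp

open Matrix CfsgLib.SpGeom CfsgLib.SpTwoGen CfsgLib.StChar.BC

variable {F : Type*} [Field F] {k : ℕ}

local notation "V" => (Fin (k + 1) ⊕ Fin (k + 1) → F)
local notation "SpG" => Matrix.symplecticGroup (Fin (k + 1)) F
local notation "f" => Cfsg.sympForm (k + 1) F
local notation "mM" A:max => ((A : SpG) : Matrix (Fin (k + 1) ⊕ Fin (k + 1)) (Fin (k + 1) ⊕ Fin (k + 1)) F)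

/-- the positions -/
def pos (i : Fin (k + 1) ⊕ Fin (k + 1)) : Pos k 0 := Sum.inl i

@[simp] theorem pos_inl (i : Fin (k + 1)) : (pos (Sum.inl i) : Pos k 0) = pl i := rfl
@[simp] theorem pos_inr (i : Fin (k + 1)) : (pos (Sum.inr i) : Pos k 0) = pr i := rfl

theorem pos_inj : Function.Injective (pos (k := k)) := fun _ _ h => Sum.inl_injective h

/-- the layout -/
def lay (k : ℕ) (F : Type*) [Field F] :
    Layout (Matrix.symplecticGroup (Fin (k + 1)) F) F (Fin (k + 1) ⊕ Fin (k + 1)) (Pos k 0) where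
  mat := (Matrix.symplecticGroup (Fin (k + 1)) F).subtype
  inj := Subtype.val_injective
  pos := pos
  surj := by
    intro p
    rcases cases_on' p with ⟨i, rfl⟩ | ⟨i, rfl⟩ | ⟨j, rfl⟩
    exacts [⟨_, rfl⟩, ⟨Sum.inr i, rfl⟩, j.elim0]

theorem supp_iff (R : Pos k 0 → Pos k 0 → Prop) (g : SpG) :
    (lay k F).Supp R g ↔ ∀ a b, (mM g *ᵥ Pi.single b 1) a - (Pi.single b 1 : V) a ≠ 0 →
      R (pos a) (pos b) := by
  have e : ∀ a b, ((mM g) - 1) a b = (mM g *ᵥ Pi.single b 1) a - (Pi.single b 1 : V) a := by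
    intro a b
    simp [Matrix.mulVec_single_one, Matrix.one_apply, Pi.single_apply]
  constructor <;> intro h a b hab
  · exact h a b (by show ((mM g) - 1) a b ≠ 0; rwa [e])
  · refine h a b ?_
    rw [← e]; exact hab

/-- the short root element -/
def xS (i : Fin k) (t : F) : SpG :=
  yv (Pi.single (Sum.inl i.castSucc) 1) (Pi.single (Sum.inr i.succ) 1) (-t)

/-- the long root element -/
def xL (t : F) : SpG := tv (Pi.single (Sum.inl (Fin.last k)) 1) t

theorem xS_mulVec (i : Fin k) (t : F) (x : V) :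
    mM (xS i t) *ᵥ x = x + (t * x (Sum.inl i.succ)) • Pi.single (Sum.inl i.castSucc) 1 +
      (-(t * x (Sum.inr i.castSucc))) • Pi.single (Sum.inr i.succ) 1 := by
  have hne : i.castSucc ≠ i.succ := (Fin.castSucc_lt_succ (i := i)).ne
  rw [xS, yv_mulVec (by rw [form_single_inr_right]; simp [hne.symm]), form_single_inl_right,
    form_single_inr_right]
  module

theorem xL_mulVec (t : F) (x : V) :
    mM (xL t) *ᵥ x = x + (t * x (Sum.inr (Fin.last k))) • Pi.single (Sum.inl (Fin.last k)) 1 := by
  rw [xL, tv_mulVec, form_single_inl_right]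

/-- the short Weyl element -/
def sS (i : Fin k) : SpG :=
  ⟨LinearMap.toMatrix' (LinearMap.funLeft F F
      (Sum.map (Equiv.swap i.castSucc i.succ) (Equiv.swap i.castSucc i.succ))),
    mem_of_form fun u v => by
      rw [LinearMap.toMatrix'_mulVec, LinearMap.toMatrix'_mulVec, form_def, form_def]
      simp only [LinearMap.funLeft_apply, Sum.map_inl, Sum.map_inr]
      exact Equiv.sum_comp (Equiv.swap i.castSucc i.succ)
        (fun j => u (Sum.inr j) * v (Sum.inl j) - u (Sum.inl j) * v (Sum.inr j))⟩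

theorem sS_mulVec (i : Fin k) (x : V) :
    mM (sS i) *ᵥ x = x ∘ Sum.map (Equiv.swap i.castSucc i.succ) (Equiv.swap i.castSucc i.succ) :=
  LinearMap.toMatrix'_mulVec _ x

/-- the coordinates of the long Weyl element -/
def sLfun (x : V) : V :=
  Sum.elim (fun j => if j = Fin.last k then x (Sum.inr j) else x (Sum.inl j))
    (fun j => if j = Fin.last k then -x (Sum.inl j) else x (Sum.inr j))

/-- the long Weyl element -/
def sL : SpG :=
  ⟨LinearMap.toMatrix'
      { toFun := sLfun (F := F) (k := k)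
        map_add' := fun u v => by
          funext j; rcases j with j | j <;> simp [sLfun] <;> split_ifs <;> ring
        map_smul' := fun c u => by
          funext j; rcases j with j | j <;> simp [sLfun] },
    mem_of_form fun u v => by
      rw [LinearMap.toMatrix'_mulVec, LinearMap.toMatrix'_mulVec, form_def, form_def]
      refine Finset.sum_congr rfl fun j _ => ?_
      simp only [LinearMap.coe_mk, AddHom.coe_mk, sLfun, Sum.elim_inl, Sum.elim_inr]
      split_ifs <;> ring⟩

theorem sL_mulVec (x : V) : mM (sL : SpG) *ᵥ x = sLfun x := LinearMap.toMatrix'_mulVec _ x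

/-- a diagonal element -/
def hD (a : Fin (k + 1) → F) (ha : ∀ j, a j ≠ 0) : SpG :=
  ⟨Matrix.diagonal (Sum.elim a fun j => (a j)⁻¹), mem_of_form fun u v => by
    simp only [form_def, Matrix.mulVec_diagonal, Sum.elim_inl, Sum.elim_inr]
    exact Finset.sum_congr rfl fun j _ => by field_simp [ha j]⟩

theorem hD_mulVec (a : Fin (k + 1) → F) (ha : ∀ j, a j ≠ 0) (x : V) (j) :
    (mM (hD a ha) *ᵥ x) j = Sum.elim a (fun j => (a j)⁻¹) j * x j :=
  Matrix.mulVec_diagonal _ _ _

theorem hD_mono (a : Fin (k + 1) → F) (ha : ∀ j, a j ≠ 0) : (lay k F).Mono 1 (hD a ha) := by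
  intro x y h
  change (Matrix.diagonal (Sum.elim a fun j => (a j)⁻¹)) x y ≠ 0 at h
  rcases eq_or_ne x y with rfl | hne
  · rfl
  · exact absurd (Matrix.diagonal_apply_ne _ hne) h

theorem sS_mono (i : Fin k) : (lay k F).Mono (sw i) (sS i) := by
  intro a b h
  change (mM (sS i)) a b ≠ 0 at h
  have e : (mM (sS i)) a b =
      (Pi.single b 1 : V) (Sum.map (Equiv.swap i.castSucc i.succ) (Equiv.swap i.castSucc i.succ) a) := by
    have := congrFun (sS_mulVec (F := F) i (Pi.single b 1)) a
    rwa [Matrix.mulVec_single_one] at this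
  rw [e, Pi.single_apply] at h
  split_ifs at h with hb
  · subst hb
    rcases a with a | a
    · show pl a = sw i (pl _); rw [sw_pl, Equiv.swap_apply_self]
    · show pr a = sw i (pr _); rw [sw_pr, Equiv.swap_apply_self]
  · exact absurd rfl h

theorem sL_mono : (lay k F).Mono swLast (sL : SpG) := by
  intro a b h
  change (mM (sL : SpG)) a b ≠ 0 at h
  have e : (mM (sL : SpG)) a b = sLfun (Pi.single b 1) a := by
    have := congrFun (sL_mulVec (F := F) (k := k) (Pi.single b 1)) a
    rwa [Matrix.mulVec_single_one] at this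
  rw [e] at h
  show pos a = swLast (pos b)
  rcases a with a | a <;> rcases b with b | b <;>
    simp [sLfun, Pi.single_apply, swLast_pl, swLast_pr] at h ⊢ <;> split_ifs at h ⊢ <;>
    first | (simp_all; done) | grind

theorem xS_supp (i : Fin k) (t : F) : (lay k F).Supp (Rsw i) (xS i t) := by
  rw [supp_iff]
  intro a b h
  rw [xS_mulVec] at h
  rcases a with a | a <;> rcases b with b | b <;>
    simp [Pi.single_apply, ite_apply, Rsw] at h ⊢ <;> grind

theorem xL_supp (t : F) : (lay k F).Supp RLast (xL t) := by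
  rw [supp_iff]
  intro a b h
  rw [xL_mulVec] at h
  rcases a with a | a <;> rcases b with b | b <;>
    simp [Pi.single_apply, ite_apply, RLast] at h ⊢ <;> grind

/-- the vector at a strictly lower triangle -/
theorem col_eq {R : Pos k 0 → Pos k 0 → Prop} {g : SpG} (hg : (lay k F).Supp R g)
    (a b : Fin (k + 1) ⊕ Fin (k + 1)) (h : ¬ R (pos a) (pos b)) :
    (mM g *ᵥ Pi.single b 1) a = (Pi.single b 1 : V) a := by
  by_contra hne
  exact h ((supp_iff R g).1 hg a b (sub_ne_zero.2 hne))

theorem mulVec_inj {g g' : SpG} (h : ∀ b, mM g *ᵥ Pi.single b 1 = mM g' *ᵥ Pi.single b 1) : g = g' := by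
  refine Subtype.ext (Matrix.ext fun a b => ?_)
  simpa [Matrix.mulVec_single_one] using congrFun (h b) a

/-- an element of a short root group -/
theorem eq_xS (i : Fin k) {g : SpG} (hg : (lay k F).Supp (Rsw i) g) :
    g = xS i ((mM g *ᵥ Pi.single (Sum.inl i.succ) 1) (Sum.inl i.castSucc)) := by
  set t := (mM g *ᵥ Pi.single (Sum.inl i.succ) 1) (Sum.inl i.castSucc) with ht
  have hne : i.castSucc ≠ i.succ := (Fin.castSucc_lt_succ (i := i)).ne
  have hc1 : mM g *ᵥ Pi.single (Sum.inl i.succ) 1 =
      Pi.single (Sum.inl i.succ) 1 + t • Pi.single (Sum.inl i.castSucc) 1 := by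
    funext a
    by_cases ha : a = Sum.inl i.castSucc
    · subst ha; simp [← ht, hne]
    · rw [col_eq hg a _ (by rcases a with a | a <;> simp [Rsw] at ha ⊢ <;> assumption)]
      simp [ha]
  have hc2 : ∀ a, a ≠ Sum.inr i.succ →
      (mM g *ᵥ Pi.single (Sum.inr i.castSucc) 1) a = (Pi.single (Sum.inr i.castSucc) 1 : V) a := by
    intro a ha
    refine col_eq hg a _ ?_
    rcases a with a | a <;> simp [Rsw] at ha ⊢ <;> assumption
  have hform := form_mulVec g (Pi.single (Sum.inl i.succ) 1) (Pi.single (Sum.inr i.castSucc) 1)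
  rw [hc1, form_add_left, form_smul_left, form_single_inr_right] at hform
  have h2 : (mM g *ᵥ Pi.single (Sum.inr i.castSucc) 1) (Sum.inr i.succ) = -t := by
    simp only [form_skew (mM g *ᵥ Pi.single (Sum.inr i.castSucc) 1), form_single_inl_right,
      hc2 (Sum.inr i.castSucc) (by simp [hne])] at hform
    simp [hne] at hform
    rw [Matrix.mulVec_single_one, Matrix.col_apply]
    linear_combination -hform
  refine mulVec_inj fun b => funext fun a => ?_
  rw [xS_mulVec]
  by_cases h1 : b = Sum.inl i.succ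
  · subst h1; rw [hc1]; simp [hne.symm]
  by_cases h3 : b = Sum.inr i.castSucc
  · subst h3
    by_cases ha : a = Sum.inr i.succ
    · subst ha; rw [h2]; simp [hne, hne.symm]
    · rw [hc2 a ha]; simp [ha]
  · rw [col_eq hg a b (by rcases a with a | a <;> rcases b with b | b <;> simp [Rsw] at h1 h3 ⊢ <;> grind)]
    simp [Ne.symm h1, Ne.symm h3]

/-- an element of the long root group -/
theorem eq_xL {g : SpG} (hg : (lay k F).Supp RLast g) :
    g = xL ((mM g *ᵥ Pi.single (Sum.inr (Fin.last k)) 1) (Sum.inl (Fin.last k))) := by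
  refine mulVec_inj fun b => funext fun a => ?_
  rw [xL_mulVec]
  by_cases h : a = Sum.inl (Fin.last k) ∧ b = Sum.inr (Fin.last k)
  · obtain ⟨rfl, rfl⟩ := h
    simp
  · rw [col_eq hg a b (by rcases a with a | a <;> rcases b with b | b <;> simp [RLast] at h ⊢ <;> assumption)]
    rcases a with a | a <;> rcases b with b | b <;> simp [Pi.single_apply, ite_apply] at h ⊢ <;> grind

theorem xS_rank (i : Fin k) {t : F} (ht : t ≠ 0) :
    ∃ (a : Fin (k + 1) → F) (ha : ∀ j, a j ≠ 0),
      sS i * xS i t * sS i = xS i (1 / t) * sS i * hD a ha * xS i (1 / t) := by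
  have hne : i.castSucc ≠ i.succ := (Fin.castSucc_lt_succ (i := i)).ne
  refine ⟨fun j => if j = i.castSucc then t else if j = i.succ then -1 / t else 1, fun j => by
    beta_reduce; split_ifs <;> simp [ht], ext_mulVec fun x => ?_⟩
  simp only [coe_mul', ← Matrix.mulVec_mulVec]
  funext j
  simp only [xS_mulVec, sS_mulVec, hD_mulVec, Function.comp_apply, Pi.add_apply, Pi.smul_apply,
    smul_eq_mul, Pi.single_apply]
  rcases j with j | j <;> by_cases h1 : j = i.castSucc <;> by_cases h2 : j = i.succ <;>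
    simp_all [Equiv.swap_apply_of_ne_of_ne, Ne.symm hne] <;> field_simp <;> ring

theorem xL_rank {t : F} (ht : t ≠ 0) :
    ∃ (a : Fin (k + 1) → F) (ha : ∀ j, a j ≠ 0),
      (sL : SpG) * xL t * sL = xL (-1 / t) * sL * hD a ha * xL (-1 / t) := by
  refine ⟨fun j => if j = Fin.last k then -t else 1, fun j => by
    beta_reduce; split_ifs <;> simp [ht], ext_mulVec fun x => ?_⟩
  simp only [coe_mul', ← Matrix.mulVec_mulVec]
  funext j
  simp only [xL_mulVec, sL_mulVec, hD_mulVec, sLfun, Pi.add_apply, Pi.smul_apply, smul_eq_mul,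
    Pi.single_apply]
  rcases j with j | j <;> by_cases h1 : j = Fin.last k <;>
    simp_all [hD_mulVec, Pi.single_apply] <;> field_simp <;> ring

/-- the Weyl representatives -/
def SS (k : ℕ) (F : Type*) [Field F] : Set (Matrix.symplecticGroup (Fin (k + 1)) F) :=
  Set.range (sS (F := F) (k := k)) ∪ {sL}

theorem gen_eq_top :
    Subgroup.closure ({g | (lay k F).Supp (· < ·) g} ∪ SS k F ∪ {g | (lay k F).Mono 1 g}) = ⊤ := by
  set K := Subgroup.closure ({g | (lay k F).Supp (· < ·) g} ∪ SS k F ∪ {g | (lay k F).Mono 1 g})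
    with hK
  have hU : ∀ g, (lay k F).Supp (· < ·) g → g ∈ K := fun g hg =>
    Subgroup.subset_closure (Or.inl (Or.inl hg))
  have hxS : ∀ i t, (xS i t : SpG) ∈ K := fun i t =>
    hU _ ((xS_supp i t).mono (Rsw_lt i))
  have hxL : ∀ t, (xL t : SpG) ∈ K := fun t => hU _ ((xL_supp t).mono RLast_lt)
  have hsS : ∀ i, (sS i : SpG) ∈ K := fun i =>
    Subgroup.subset_closure (Or.inl (Or.inr (Or.inl ⟨i, rfl⟩)))
  have hsL : (sL : SpG) ∈ K := Subgroup.subset_closure (Or.inl (Or.inr (Or.inr rfl)))
  have he : ∀ c : F, tv (Pi.single (Sum.inl (0 : Fin (k + 1))) 1 : V) c ∈ K := by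
    intro c
    refine hU _ ?_
    rw [supp_iff]
    intro a b h
    rw [tv_mulVec, form_single_inl_right] at h
    rcases a with a | a <;> rcases b with b | b <;> simp [Pi.single_apply, ite_apply] at h ⊢
    rw [lt_iff]
    simp [← h.1]
    omega
  have key : ∀ N, ∀ v : V, (∀ a, N < rk (pos a) → v a = 0) →
      ∃ g ∈ K, ∃ c : F, mM g *ᵥ v = c • Pi.single (Sum.inl 0) 1 := by
    intro N
    induction N with
    | zero =>
      intro v hv
      refine ⟨1, one_mem _, v (Sum.inl 0), ?_⟩
      rw [coe_one', Matrix.one_mulVec]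
      funext a
      by_cases ha : a = Sum.inl 0
      · subst ha; simp
      · rw [hv a (Nat.pos_of_ne_zero fun e => ha ?_)]
        · simp [ha]
        · exact pos_inj (rk_injective (by rw [e]; simp))
    | succ N ih =>
      intro v hv
      by_cases h0 : ∀ a, rk (pos a) = N + 1 → v a = 0
      · exact ih v fun a ha => by
          rcases eq_or_lt_of_le (Nat.succ_le_of_lt ha) with h | h
          exacts [h0 a h.symm, hv a h]
      push Not at h0
      obtain ⟨a, hrka, hva⟩ := h0
      have fin : ∀ g ∈ K, (∀ b, N < rk (pos b) → (mM g *ᵥ v) b = 0) →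
          ∃ g ∈ K, ∃ c : F, mM g *ᵥ v = c • (Pi.single (Sum.inl 0) 1 : V) := by
        intro g hg h
        obtain ⟨g', hg', c, hc⟩ := ih _ h
        exact ⟨g' * g, mul_mem hg' hg, c, by rw [coe_mul', ← Matrix.mulVec_mulVec, hc]⟩
      rcases a with j | j
      · simp only [pos_inl, rk_pl] at hrka
        have hlt : N < k := by omega
        set i : Fin k := ⟨N, hlt⟩ with hi
        have hj : j = i.succ := Fin.ext (by simp [hi, hrka])
        subst hj
        refine fin _ (mul_mem (hsS i) (hxS i (-(v (Sum.inl i.castSucc) / v (Sum.inl i.succ))))) ?_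
        intro b hb
        rw [coe_mul', ← Matrix.mulVec_mulVec, sS_mulVec, Function.comp_apply, xS_mulVec]
        have hne : i.castSucc ≠ i.succ := (Fin.castSucc_lt_succ (i := i)).ne
        rcases b with b | b
        · by_cases h1 : b = i.succ
          · subst h1; simp [field]
          · have h2 : b ≠ i.castSucc := fun e => by subst e; simp [hi] at hb
            have h3 : v (Sum.inl b) = 0 := hv _ (by
              simp only [pos_inl, rk_pl] at hb ⊢
              have : b.1 ≠ N + 1 := fun e => h1 (Fin.ext (by simp [hi, e]))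
              omega)
            simp [Equiv.swap_apply_of_ne_of_ne h2 h1, h2, h3]
        · have h3 : v (Sum.inr b) = 0 := hv _ (by simp; omega)
          have h4 : v (Sum.inr i.castSucc) = 0 := hv _ (by simp [hi]; omega)
          have h5 : v (Sum.inr i.succ) = 0 := hv _ (by simp [hi]; omega)
          by_cases h1 : b = i.succ
          · subst h1; simp [h4, h5, hne]
          · by_cases h2 : b = i.castSucc
            · subst h2; simp [h4, h5]
            · simp [Equiv.swap_apply_of_ne_of_ne h2 h1, h3, h1]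
      · simp only [pos_inr, rk_pr] at hrka
        by_cases hjl : j = Fin.last k
        · subst hjl
          simp only [Fin.val_last] at hrka
          refine fin _ (mul_mem hsL (hxL (-(v (Sum.inl (Fin.last k)) / v (Sum.inr (Fin.last k)))))) ?_
          intro b hb
          rw [coe_mul', ← Matrix.mulVec_mulVec, sL_mulVec, xL_mulVec]
          rcases b with b | b
          · exfalso; simp at hb; omega
          · by_cases h1 : b = Fin.last k
            · subst h1; simp [sLfun, field]
            · have h3 : v (Sum.inr b) = 0 := hv _ (by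
                have : b.1 ≠ k := fun e => h1 (Fin.ext (by simpa using e))
                simp; omega)
              simp [sLfun, h1, h3]
        · have hlt : j.1 < k := by
            have := j.2
            have : j.1 ≠ k := fun e => hjl (Fin.ext (by simpa using e))
            omega
          set i : Fin k := ⟨j.1, hlt⟩ with hi
          have hj : j = i.castSucc := Fin.ext rfl
          clear_value i
          subst hj
          have hiv : i.castSucc.1 = i.1 := rfl
          refine fin _ (mul_mem (hsS i) (hxS i (v (Sum.inr i.succ) / v (Sum.inr i.castSucc)))) ?_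
          intro b hb
          rw [coe_mul', ← Matrix.mulVec_mulVec, sS_mulVec, Function.comp_apply, xS_mulVec]
          have hne : i.castSucc ≠ i.succ := (Fin.castSucc_lt_succ (i := i)).ne
          rcases b with b | b
          · exfalso; simp at hb; omega
          · by_cases h1 : b = i.castSucc
            · subst h1; simp [field]
            · have h2 : b ≠ i.succ := fun e => by subst e; simp at hb; omega
              have h3 : v (Sum.inr b) = 0 := hv _ (by
                have : b.1 ≠ i.1 := fun e => h1 (Fin.ext (by simpa using e))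
                simp at hb ⊢; omega)
              simp [Equiv.swap_apply_of_ne_of_ne h1 h2, h2, h3]
  refine eq_top_of_tv K fun w c => ?_
  obtain ⟨g, hg, d, hd⟩ := key (2 * k + 2) w fun a h => by
    rcases a with a | a <;> simp at h <;> omega
  have h1 : g * tv w c * g⁻¹ ∈ K := by
    rw [tv_conj, hd, tv_smul]; exact he _
  have h2 := mul_mem (mul_mem (inv_mem hg) h1) hg
  rwa [show g⁻¹ * (g * tv w c * g⁻¹) * g = tv w c by group] at h2

open Classical in
/-- the permutation of a representative -/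
noncomputable def sigmaOf (g : SpG) : Equiv.Perm (Pos k 0) :=
  if h : ∃ i, sS i = g then sw h.choose else swLast

open Classical in
/-- the roots of a representative -/
noncomputable def rootsOf (g : SpG) : Pos k 0 → Pos k 0 → Prop :=
  if h : ∃ i, sS i = g then Rsw h.choose else RLast

theorem mem_SS {s : SpG} (hs : s ∈ SS k F) :
    (∃ i, s = sS i ∧ sigmaOf s = sw i ∧ rootsOf s = Rsw i) ∨
      (s = sL ∧ sigmaOf s = swLast ∧ rootsOf s = RLast) := by
  by_cases h : ∃ i, sS i = s
  · exact Or.inl ⟨h.choose, h.choose_spec.symm, by rw [sigmaOf, dif_pos h], by rw [rootsOf, dif_pos h]⟩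
  · rcases hs with ⟨i, hi⟩ | hs
    · exact absurd ⟨i, hi⟩ h
    · exact Or.inr ⟨hs, by rw [sigmaOf, dif_neg h], by rw [rootsOf, dif_neg h]⟩

theorem factor_xS (i : Fin k) {u : SpG} (hu : (lay k F).Supp (· < ·) u) :
    ∃ x, (lay k F).Supp (Rsw i) x ∧ (lay k F).Supp (fun p q => p < q ∧ ¬ Rsw i p q) (u * x⁻¹) := by
  have hne : i.castSucc ≠ i.succ := (Fin.castSucc_lt_succ (i := i)).ne
  set t := (mM u *ᵥ Pi.single (Sum.inl i.succ) 1) (Sum.inl i.castSucc) with ht
  refine ⟨xS i t, xS_supp i t, ?_⟩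
  have hinv : (xS i t : SpG)⁻¹ = xS i (-t) := by
    rw [xS, xS, yv_inv (by rw [form_single_inr_right]; simp [hne.symm])]
  rw [hinv]
  have hlt : (lay k F).Supp (· < ·) (u * xS i (-t)) :=
    Layout.Supp.mul (R := fun a b : Pos k 0 => a < b) (fun _ _ _ => lt_trans) hu ((xS_supp i _).mono (Rsw_lt i))
  set u' := u * xS i (-t) with hu'
  have hx1 : mM (xS i (-t) : SpG) *ᵥ Pi.single (Sum.inl i.succ) 1 =
      (Pi.single (Sum.inl i.succ) 1 + (-t) • Pi.single (Sum.inl i.castSucc) 1 : V) := by
    rw [xS_mulVec]; simp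
  have h10 : (mM u *ᵥ Pi.single (Sum.inl i.castSucc) 1) (Sum.inl i.castSucc) = 1 := by
    rw [col_eq hu _ _ (lt_irrefl _)]; simp
  have h1 : (mM u' *ᵥ Pi.single (Sum.inl i.succ) 1) (Sum.inl i.castSucc) = 0 := by
    rw [hu', coe_mul', ← Matrix.mulVec_mulVec, hx1, Matrix.mulVec_add, Matrix.mulVec_smul,
      Pi.add_apply, Pi.smul_apply, h10, ← ht]
    simp
  have h2 : (mM u' *ᵥ Pi.single (Sum.inr i.castSucc) 1) (Sum.inr i.succ) = 0 := by
    have hform := form_mulVec u' (Pi.single (Sum.inl i.succ) 1) (Pi.single (Sum.inr i.castSucc) 1)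
    rw [form_single_inr_right, form_def, Finset.sum_eq_single i.succ] at hform
    · rw [col_eq hlt (Sum.inr i.succ) (Sum.inl i.succ) (by simp [lt_iff]; omega),
        col_eq hlt (Sum.inl i.succ) (Sum.inl i.succ) (lt_irrefl _)] at hform
      simpa [hne] using hform
    · intro j _ hj
      rw [col_eq hlt (Sum.inr j) (Sum.inl i.succ) (by simp [lt_iff]; omega)]
      simp only [Pi.single_apply, reduceCtorEq, if_false, zero_mul, zero_sub, neg_eq_zero]
      rcases lt_trichotomy j.1 i.1 with hji | hji | hji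
      · rw [col_eq hlt (Sum.inr j) (Sum.inr i.castSucc) (by simp [lt_iff]; omega),
          Pi.single_eq_of_ne (by simp [Fin.ext_iff]; omega), mul_zero]
      · have : j = i.castSucc := Fin.ext hji
        subst this; rw [h1, zero_mul]
      · have : i.1 + 1 < j.1 := by
          have : j.1 ≠ i.1 + 1 := fun e => hj (Fin.ext (by simpa using e))
          omega
        rw [col_eq hlt (Sum.inl j) (Sum.inl i.succ) (by simp [lt_iff]; omega),
          Pi.single_eq_of_ne (by simp [Fin.ext_iff]; omega), zero_mul]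
    · simp
  rw [supp_iff]
  intro a b h
  refine ⟨(supp_iff _ _).1 hlt a b h, fun hR => h ?_⟩
  rcases hR with ⟨ha, hb⟩ | ⟨ha, hb⟩
  · obtain rfl := pos_inj (ha.trans (pos_inl i.castSucc).symm)
    obtain rfl := pos_inj (hb.trans (pos_inl i.succ).symm)
    rw [h1]; simp [hne]
  · obtain rfl := pos_inj (ha.trans (pos_inr i.succ).symm)
    obtain rfl := pos_inj (hb.trans (pos_inr i.castSucc).symm)
    rw [h2]; simp [hne.symm]

theorem factor_xL {u : SpG} (hu : (lay k F).Supp (· < ·) u) :
    ∃ x, (lay k F).Supp RLast x ∧ (lay k F).Supp (fun p q => p < q ∧ ¬ RLast p q) (u * x⁻¹) := by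
  set l : Fin (k + 1) := Fin.last k with hl
  set t := (mM u *ᵥ Pi.single (Sum.inr l) 1) (Sum.inl l) with ht
  refine ⟨xL t, xL_supp t, ?_⟩
  have hinv : (xL t : SpG)⁻¹ = xL (-t) :=
    inv_eq_of_mul_eq_one_right (by rw [xL, xL, tv_mul, add_neg_cancel, tv_zero])
  rw [hinv]
  set u' := u * xL (-t) with hu'
  have hlt : (lay k F).Supp (· < ·) u' :=
    Layout.Supp.mul (R := fun a b : Pos k 0 => a < b) (fun _ _ _ => lt_trans) hu ((xL_supp _).mono RLast_lt)
  have h1 : (mM u' *ᵥ Pi.single (Sum.inr l) 1) (Sum.inl l) = 0 := by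
    rw [hu', coe_mul', ← Matrix.mulVec_mulVec, xL_mulVec, Matrix.mulVec_add, Matrix.mulVec_smul,
      Pi.add_apply, Pi.smul_apply, col_eq hu (Sum.inl l) (Sum.inl l) (lt_irrefl _), ← ht, ← hl]
    simp
  rw [supp_iff]
  intro a b h
  refine ⟨(supp_iff _ _).1 hlt a b h, fun hR => h ?_⟩
  rcases hR with ⟨-, j, -⟩ | ⟨⟨j, -⟩, -⟩ | ⟨ha, hb⟩
  · exact j.elim0
  · exact j.elim0
  · obtain rfl := pos_inj (ha.trans (pos_inl l).symm)
    obtain rfl := pos_inj (hb.trans (pos_inr l).symm)
    rw [h1]; simp

/-- the apartment data -/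
noncomputable def sys (k : ℕ) (F : Type*) [Field F] :
    Sys (Matrix.symplecticGroup (Fin (k + 1)) F) F (Fin (k + 1) ⊕ Fin (k + 1)) (Pos k 0) where
  toLayout := lay k F
  W := BC.W k 0
  ε := BC.eps
  π0 := BC.bar
  n0 :=
    ⟨Matrix.J (Fin (k + 1)) F, SymplecticGroup.J_mem _ _⟩
  S := SS k F
  σ := sigmaOf
  R := rootsOf
  π0_mem := bar_mem
  n0_mono := by
    intro a b h
    change Matrix.J (Fin (k + 1)) F a b ≠ 0 at h
    show pos a = bar (pos b)
    rcases a with a | a <;> rcases b with b | b <;>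
      simp [Matrix.J, Matrix.one_apply] at h ⊢ <;> simp [h]
  anti := anti
  S_mono s hs := by
    rcases mem_SS hs with ⟨i, hi, h1, -⟩ | ⟨hi, h1, -⟩
    · rw [h1, hi]; exact ⟨sS_mono i, sw_sq i, sw_eps i⟩
    · rw [h1, hi]; exact ⟨sL_mono, swLast_sq, swLast_eps⟩
  R_trans s := by
    unfold rootsOf; split_ifs with h
    exacts [Rsw_trans _, RLast_trans]
  R_lt s hs := by
    rcases mem_SS hs with ⟨i, -, -, h⟩ | ⟨-, -, h⟩ <;> rw [h]
    exacts [Rsw_lt i, RLast_lt]
  R_rev s hs := by
    rcases mem_SS hs with ⟨i, -, h1, h⟩ | ⟨-, h1, h⟩ <;> rw [h, h1]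
    exacts [Rsw_rev i, RLast_rev]
  orient s hs π hπ := by
    rcases mem_SS hs with ⟨i, -, -, h⟩ | ⟨-, -, h⟩ <;> rw [h]
    exacts [Rsw_orient i hπ, RLast_orient hπ]
  sepW π hπ h := by
    refine eq_one_of_increasing hπ (fun i => ?_) ?_
    · have hs : (sS i : Matrix.symplecticGroup (Fin (k + 1)) F) ∈ SS k F := Or.inl ⟨i, rfl⟩
      rcases mem_SS hs with ⟨i', hi, -, h2⟩ | ⟨hi, -, h2⟩
      · have : i = i' := by
          by_contra hne
          have h3 := sS_mono (F := F) i
          rw [hi] at h3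
          have h4 := congrArg (fun e : Equiv.Perm (Pos k 0) => e (pl i.castSucc)) (h3.unique (sS_mono i'))
          simp only [sw_pl, pl_inj, Equiv.swap_apply_left] at h4
          rw [Equiv.swap_apply_def] at h4
          split_ifs at h4 with a1 a2 <;> simp [Fin.ext_iff] at * <;> omega
        subst this
        exact h _ hs _ _ (by rw [h2]; exact Or.inl ⟨rfl, rfl⟩)
      · exfalso
        have h3 := sS_mono (F := F) i
        rw [hi] at h3
        have h4 := congrArg (fun e : Equiv.Perm (Pos k 0) => e (pl i.castSucc)) (h3.unique sL_mono)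
        simp only [sw_pl, Equiv.swap_apply_left, swLast_pl] at h4
        rw [if_neg (Fin.castSucc_ne_last i), pl_inj] at h4
        exact (Fin.castSucc_lt_succ (i := i)).ne h4.symm
    · have hs : (sL : Matrix.symplecticGroup (Fin (k + 1)) F) ∈ SS k F := Or.inr rfl
      rcases mem_SS hs with ⟨i', hi, -, h2⟩ | ⟨-, -, h2⟩
      · exfalso
        have h3 := sS_mono (F := F) i'
        rw [← hi] at h3
        have h4 := congrArg (fun e : Equiv.Perm (Pos k 0) => e (pl i'.castSucc)) (h3.unique sL_mono)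
        simp only [sw_pl, Equiv.swap_apply_left, swLast_pl] at h4
        rw [if_neg (Fin.castSucc_ne_last i'), pl_inj] at h4
        exact (Fin.castSucc_lt_succ (i := i')).ne h4.symm
      · exact h _ hs _ _ (by rw [h2]; exact Or.inr (Or.inr ⟨rfl, rfl⟩))
  X_nt s hs := by
    rcases mem_SS hs with ⟨i, -, -, h⟩ | ⟨-, -, h⟩ <;> rw [h]
    · refine ⟨xS i 1, fun e => ?_, xS_supp i 1⟩
      have := congrFun (congrArg (fun g : Matrix.symplecticGroup (Fin (k + 1)) F =>
        (g : Matrix (Fin (k + 1) ⊕ Fin (k + 1)) (Fin (k + 1) ⊕ Fin (k + 1)) F) *ᵥ Pi.single (Sum.inl i.succ) 1) e) (Sum.inl i.castSucc)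
      rw [xS_mulVec] at this
      simp [(Fin.castSucc_lt_succ (i := i)).ne] at this
    · refine ⟨xL 1, fun e => ?_, xL_supp 1⟩
      have := congrFun (congrArg (fun g : Matrix.symplecticGroup (Fin (k + 1)) F =>
        (g : Matrix (Fin (k + 1) ⊕ Fin (k + 1)) (Fin (k + 1) ⊕ Fin (k + 1)) F) *ᵥ Pi.single (Sum.inr (Fin.last k)) 1) e) (Sum.inl (Fin.last k))
      rw [xL_mulVec] at this
      simp at this
  factor s hs u hu := by
    rcases mem_SS hs with ⟨i, -, h1, h⟩ | ⟨-, h1, h⟩ <;> rw [h, h1]
    · exact (factor_xS i hu).imp fun x hx =>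
        ⟨hx.1, hx.2.mono fun p q hp => ⟨hp.1, Rsw_out i p q hp.1 hp.2⟩⟩
    · exact (factor_xL hu).imp fun x hx =>
        ⟨hx.1, hx.2.mono fun p q hp => ⟨hp.1, RLast_out p q hp.1 hp.2⟩⟩
  rank1 s hs x hx hx1 := by
    rcases mem_SS hs with ⟨i, hi, -, h⟩ | ⟨hi, -, h⟩ <;> rw [h] at hx ⊢ <;> rw [hi]
    · have e := eq_xS i hx
      set t := ((x : Matrix (Fin (k + 1) ⊕ Fin (k + 1)) (Fin (k + 1) ⊕ Fin (k + 1)) F) *ᵥ Pi.single (Sum.inl i.succ) 1) (Sum.inl i.castSucc)
      have ht : t ≠ 0 := fun h0 => hx1 (by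
        rw [e, h0, xS, neg_zero, yv_zero (by
          rw [form_single_inr_right]; simp [(Fin.castSucc_lt_succ (i := i)).ne.symm])])
      obtain ⟨a, ha, hr⟩ := xS_rank i ht
      exact ⟨_, hD a ha, _, xS_supp i _, xS_supp i _, hD_mono a ha, by rw [e]; exact hr⟩
    · have e := eq_xL hx
      set t := ((x : Matrix (Fin (k + 1) ⊕ Fin (k + 1)) (Fin (k + 1) ⊕ Fin (k + 1)) F) *ᵥ Pi.single (Sum.inr (Fin.last k)) 1) (Sum.inl (Fin.last k))
      have ht : t ≠ 0 := fun h0 => hx1 (by rw [e, h0, xL, tv_zero])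
      obtain ⟨a, ha, hr⟩ := xL_rank (k := k) ht
      exact ⟨_, hD a ha, _, xL_supp _, xL_supp _, hD_mono a ha, by rw [e]; exact hr⟩
  gen := gen_eq_top

theorem hblock [Finite F] {p : ℕ} [Fact p.Prime] [CharP F p] (g : SpG)
    (hg : (lay k F).Supp (· ≤ ·) g) (hp : ∃ j : ℕ, g ^ p ^ j = 1) :
    ∀ i j, pos i = pos j → ((mM g) - 1) i j = 0 := by
  intro i j hij
  obtain rfl := pos_inj hij
  obtain ⟨e, he⟩ := hp
  have hmul : ∀ a : ℕ, (mM (g ^ a)) i i = ((mM g) i i) ^ a := by
    intro a
    induction a with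
    | zero => simp
    | succ a ih =>
      rw [pow_succ, coe_mul', Matrix.mul_apply, Finset.sum_eq_single i, ih, pow_succ]
      · intro b _ hb
        by_contra hc
        have h0 : (lay k F).Supp (fun a b : Pos k 0 => a ≤ b) (g ^ a) :=
          Layout.Supp.pow (L := lay k F) (R := fun a b : Pos k 0 => a ≤ b) (fun _ _ _ => le_trans) hg a
        have h1 := Layout.Supp.entry (L := lay k F) h0
          (show (lay k F).mat (g ^ a) i b ≠ 0 from left_ne_zero_of_mul hc)
        have h2 := Layout.Supp.entry (L := lay k F) hg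
          (show (lay k F).mat g b i ≠ 0 from right_ne_zero_of_mul hc)
        exact hb (pos_inj (le_antisymm h2 h1))
      · simp
  have h1 : ((mM g) i i) ^ p ^ e = 1 := by rw [← hmul, he]; simp
  have h2 : ((mM g) i i - 1) ^ p ^ e = 0 := by rw [sub_pow_char_pow, h1, one_pow, sub_self]
  simpa using (pow_eq_zero_iff (pow_ne_zero _ (Fact.out : p.Prime).ne_zero)).1 h2

end CfsgLib.StChar.Sp
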