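import Cfsg.Agent.StChar.Layout

/-!
Positions and evenly signed permutations for the type D.
-/

set_option autoImplicit false

namespace CfsgLib.StChar.BD

/-- two halves with incomparable middle pair -/
def Pos (k : ℕ) := Fin (k + 2) ⊕ Fin (k + 2)

variable {k : ℕ}

/-- the first half -/
def pl (i : Fin (k + 2)) : Pos k := Sum.inl i
/-- the second half -/
def pr (i : Fin (k + 2)) : Pos k := Sum.inr i

/-- the height -/
def rk : Pos k → ℕ := Sum.elim (fun i => i.1) (fun i => 2 * k + 2 - i.1)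

@[simp] theorem rk_pl (i : Fin (k + 2)) : rk (pl i : Pos k) = i.1 := rfl
@[simp] theorem rk_pr (i : Fin (k + 2)) : rk (pr i : Pos k) = 2 * k + 2 - i.1 := rfl

theorem cases_on' (p : Pos k) : (∃ i, p = pl i) ∨ ∃ i, p = pr i := by
  rcases p with i | i
  exacts [Or.inl ⟨i, rfl⟩, Or.inr ⟨i, rfl⟩]

@[simp] theorem pl_inj {i j : Fin (k + 2)} : (pl i : Pos k) = pl j ↔ i = j :=
  ⟨fun h => Sum.inl_injective h, fun h => by rw [h]⟩
@[simp] theorem pr_inj {i j : Fin (k + 2)} : (pr i : Pos k) = pr j ↔ i = j :=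
  ⟨fun h => Sum.inr_injective h, fun h => by rw [h]⟩
@[simp] theorem pl_ne_pr (i j : Fin (k + 2)) : (pl i : Pos k) ≠ pr j := fun h => Sum.inl_ne_inr h
@[simp] theorem pr_ne_pl (i j : Fin (k + 2)) : (pr i : Pos k) ≠ pl j := (pl_ne_pr j i).symm

instance : DecidableEq (Pos k) := inferInstanceAs (DecidableEq (Fin (k + 2) ⊕ Fin (k + 2)))

instance : Fintype (Pos k) := inferInstanceAs (Fintype (Fin (k + 2) ⊕ Fin (k + 2)))

instance : PartialOrder (Pos k) where
  le p q := p = q ∨ rk p < rk q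
  lt p q := rk p < rk q
  le_refl p := Or.inl rfl
  le_trans p q s := by
    rintro (rfl | h) (rfl | h')
    exacts [Or.inl rfl, Or.inr h', Or.inr h, Or.inr (h.trans h')]
  lt_iff_le_not_ge p q := by
    refine ⟨fun h => ⟨Or.inr h, ?_⟩, fun h => h.1.resolve_left fun e => h.2 (Or.inl e.symm)⟩
    rintro (rfl | h')
    · exact lt_irrefl _ h
    · exact lt_asymm h h'
  le_antisymm p q := by
    rintro (rfl | h) (h' | h')
    exacts [rfl, rfl, h'.symm, absurd h' (lt_asymm h)]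

theorem lt_iff (p q : Pos k) : p < q ↔ rk p < rk q := Iff.rfl
theorem le_iff (p q : Pos k) : p ≤ q ↔ p = q ∨ rk p < rk q := Iff.rfl

/-- the opposite position -/
def bar : Equiv.Perm (Pos k) := (Equiv.sumComm _ _ : Equiv.Perm (Fin (k + 2) ⊕ Fin (k + 2)))

@[simp] theorem bar_pl (i : Fin (k + 2)) : bar (pl i : Pos k) = pr i := rfl
@[simp] theorem bar_pr (i : Fin (k + 2)) : bar (pr i : Pos k) = pl i := rfl

theorem rk_bar (p : Pos k) : rk (bar p) + rk p = 2 * k + 2 := by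
  rcases cases_on' p with ⟨i, rfl⟩ | ⟨i, rfl⟩ <;> simp <;> omega

theorem bar_bar (p : Pos k) : bar (bar p) = p := by
  rcases cases_on' p with ⟨i, rfl⟩ | ⟨i, rfl⟩ <;> rfl

theorem eq_or_bar_of_rk_eq {p q : Pos k} (h : rk p = rk q) : p = q ∨ p = bar q := by
  rcases cases_on' p with ⟨i, rfl⟩ | ⟨i, rfl⟩ <;> rcases cases_on' q with ⟨j, rfl⟩ | ⟨j, rfl⟩ <;>
    simp at h <;> simp [Fin.ext_iff] <;> omega

/-- the exchange inside the last pair -/
def tau : Equiv.Perm (Pos k) := Equiv.swap (pl (Fin.last (k + 1))) (pr (Fin.last (k + 1)))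

theorem tau_pl (i : Fin (k + 2)) :
    tau (pl i : Pos k) = if i = Fin.last (k + 1) then pr i else pl i := by
  simp only [tau, Equiv.swap_apply_def, pl_inj, pl_ne_pr, if_false]
  split_ifs <;> simp_all

theorem tau_pr (i : Fin (k + 2)) :
    tau (pr i : Pos k) = if i = Fin.last (k + 1) then pl i else pr i := by
  simp only [tau, Equiv.swap_apply_def, pr_inj, pr_ne_pl, if_false]
  split_ifs <;> simp_all

theorem tau_tau (p : Pos k) : tau (tau p) = p := Equiv.swap_apply_self _ _ _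

theorem tau_sq : (tau * tau : Equiv.Perm (Pos k)) = 1 := Equiv.swap_mul_self _ _

theorem rk_tau (p : Pos k) : rk (tau p) = rk p := by
  rcases cases_on' p with ⟨i, rfl⟩ | ⟨i, rfl⟩ <;> simp only [tau_pl, tau_pr] <;> split_ifs with h <;>
    simp [h] <;> omega

theorem tau_bar (p : Pos k) : tau (bar p) = bar (tau p) := by
  rcases cases_on' p with ⟨i, rfl⟩ | ⟨i, rfl⟩ <;> simp [tau_pl, tau_pr] <;> split_ifs <;> simp

/-- permutations commuting with the opposition, of sign one -/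
def W (k : ℕ) : Subgroup (Equiv.Perm (Pos k)) where
  carrier := {π | (∀ p, π (bar p) = bar (π p)) ∧ Equiv.Perm.sign π = 1}
  one_mem' := ⟨fun _ => rfl, map_one _⟩
  mul_mem' := fun {a b} ha hb => ⟨fun p => by
    simp only [Equiv.Perm.mul_apply]; rw [hb.1, ha.1], by rw [map_mul, ha.2, hb.2, one_mul]⟩
  inv_mem' := fun {a} ha => ⟨fun p => by
    apply a.injective
    rw [ha.1, Equiv.Perm.inv_def, Equiv.apply_symm_apply, Equiv.apply_symm_apply],
    by rw [map_inv, ha.2, inv_one]⟩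

theorem rk_map {π : Equiv.Perm (Pos k)} (hπ : π ∈ W k) (p : Pos k) :
    rk (π (bar p)) + rk (π p) = 2 * k + 2 := by rw [hπ.1]; exact rk_bar _

/-- the pair of a position -/
def idx : Pos k → Fin (k + 2) := Sum.elim id id

/-- the induced map on the pairs -/
def pairFun (π : Equiv.Perm (Pos k)) (i : Fin (k + 2)) : Fin (k + 2) := idx (π (pl i))

theorem pair_spec {π : Equiv.Perm (Pos k)} (hπ : π ∈ W k) (i : Fin (k + 2)) :
    π (pl i) = pl (pairFun π i) ∧ π (pr i) = pr (pairFun π i) ∨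
      π (pl i) = pr (pairFun π i) ∧ π (pr i) = pl (pairFun π i) := by
  have hr : π (pr i) = bar (π (pl i)) := by rw [← hπ.1 (pl i), bar_pl]
  rcases cases_on' (π (pl i)) with ⟨j, e⟩ | ⟨j, e⟩
  · left; rw [hr, pairFun, e]; exact ⟨rfl, rfl⟩
  · right; rw [hr, pairFun, e]; exact ⟨rfl, rfl⟩

theorem pair_mul {a b : Equiv.Perm (Pos k)} (ha : a ∈ W k) (hb : b ∈ W k) (i : Fin (k + 2)) :
    pairFun (a * b) i = pairFun a (pairFun b i) := by
  rw [pairFun, Equiv.Perm.mul_apply]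
  rcases pair_spec hb i with ⟨h, -⟩ | ⟨h, -⟩ <;> rw [h]
  · rfl
  · rw [← bar_pl, ha.1]
    rcases pair_spec ha (pairFun b i) with ⟨h', -⟩ | ⟨h', -⟩ <;> rw [h'] <;> rfl

/-- the permutation of the pairs -/
def pairPerm : W k →* Equiv.Perm (Fin (k + 2)) where
  toFun π :=
    { toFun := pairFun (π : Equiv.Perm (Pos k))
      invFun := pairFun ((π⁻¹ : W k) : Equiv.Perm (Pos k))
      left_inv := fun i => by
        rw [← pair_mul (π⁻¹).2 π.2, ← Subgroup.coe_mul, inv_mul_cancel]; rfl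
      right_inv := fun i => by
        rw [← pair_mul π.2 (π⁻¹).2, ← Subgroup.coe_mul, mul_inv_cancel]; rfl }
  map_one' := Equiv.ext fun _ => rfl
  map_mul' a b := Equiv.ext fun i => pair_mul a.2 b.2 i

/-- the sign character -/
def eps : W k →* ℤˣ := Equiv.Perm.sign.comp pairPerm

/-- the simple reflection between neighbouring pairs -/
def sw (i : Fin (k + 1)) : Equiv.Perm (Pos k) :=
  Equiv.swap (pl i.castSucc) (pl i.succ) * Equiv.swap (pr i.castSucc) (pr i.succ)

/-- the roots of a simple reflection -/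
def Rsw (i : Fin (k + 1)) (p q : Pos k) : Prop :=
  (p = pl i.castSucc ∧ q = pl i.succ) ∨ (p = pr i.succ ∧ q = pr i.castSucc)

/-- the last simple reflection -/
def swD : Equiv.Perm (Pos k) := tau * sw (Fin.last k) * tau

/-- the roots of the last reflection -/
def RD (p q : Pos k) : Prop := Rsw (Fin.last k) (tau p) (tau q)

theorem sw_pl (i : Fin (k + 1)) (j : Fin (k + 2)) :
    sw i (pl j : Pos k) = pl (Equiv.swap i.castSucc i.succ j) := by
  simp only [sw, Equiv.Perm.mul_apply]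
  rw [Equiv.swap_apply_of_ne_of_ne (pl_ne_pr _ _) (pl_ne_pr _ _)]
  simp only [Equiv.swap_apply_def, pl_inj]
  split_ifs <;> rfl

theorem sw_pr (i : Fin (k + 1)) (j : Fin (k + 2)) :
    sw i (pr j : Pos k) = pr (Equiv.swap i.castSucc i.succ j) := by
  simp only [sw, Equiv.Perm.mul_apply, Equiv.swap_apply_def, pr_inj]
  split_ifs <;> simp_all

theorem sw_sq (i : Fin (k + 1)) : (sw i * sw i : Equiv.Perm (Pos k)) = 1 := by
  refine Equiv.ext fun p => ?_
  rw [Equiv.Perm.mul_apply]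
  rcases cases_on' p with ⟨j, rfl⟩ | ⟨j, rfl⟩ <;> simp [sw_pl, sw_pr, Equiv.swap_apply_self]

theorem swD_apply (p : Pos k) : swD p = tau (sw (Fin.last k) (tau p)) := rfl

theorem swD_sq : (swD * swD : Equiv.Perm (Pos k)) = 1 := by
  refine Equiv.ext fun p => ?_
  have h : ∀ q : Pos k, sw (Fin.last k) (sw (Fin.last k) q) = q := fun q => by
    rw [← Equiv.Perm.mul_apply, sw_sq]; rfl
  rw [Equiv.Perm.mul_apply, swD_apply, swD_apply, tau_tau, h, tau_tau]; rfl

theorem sw_sign (i : Fin (k + 1)) : Equiv.Perm.sign (sw i : Equiv.Perm (Pos k)) = 1 := by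
  have hne : i.castSucc ≠ i.succ := (Fin.castSucc_lt_succ (i := i)).ne
  rw [sw, map_mul, Equiv.Perm.sign_swap, Equiv.Perm.sign_swap]
  · decide
  · simp [hne]
  · simp [hne]

theorem sw_eps (i : Fin (k + 1)) : ∃ h : (sw i : Equiv.Perm (Pos k)) ∈ W k, eps ⟨_, h⟩ = -1 := by
  have h : (sw i : Equiv.Perm (Pos k)) ∈ W k := ⟨fun p => by
    rcases cases_on' p with ⟨j, rfl⟩ | ⟨j, rfl⟩ <;> simp [sw_pl, sw_pr], sw_sign i⟩
  refine ⟨h, ?_⟩
  have hp : pairPerm ⟨_, h⟩ = Equiv.swap i.castSucc i.succ := by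
    refine Equiv.ext fun j => ?_
    show idx (sw i (pl j : Pos k)) = _
    rw [sw_pl]; rfl
  show Equiv.Perm.sign (pairPerm ⟨_, h⟩) = -1
  rw [hp, Equiv.Perm.sign_swap (Fin.castSucc_lt_succ (i := i)).ne]

theorem idx_tau (p : Pos k) : idx (tau p) = idx p := by
  rcases cases_on' p with ⟨j, rfl⟩ | ⟨j, rfl⟩ <;> simp only [tau_pl, tau_pr] <;> split_ifs <;> rfl

theorem swD_eps : ∃ h : (swD : Equiv.Perm (Pos k)) ∈ W k, eps ⟨_, h⟩ = -1 := by
  have h : (swD : Equiv.Perm (Pos k)) ∈ W k := ⟨fun p => by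
    rw [swD_apply, swD_apply, tau_bar, (sw_eps (Fin.last k)).1.1, tau_bar], by
    rw [swD, map_mul, map_mul, sw_sign, mul_one, ← map_mul, tau_sq, map_one]⟩
  refine ⟨h, ?_⟩
  have hp : pairPerm ⟨_, h⟩ = Equiv.swap (Fin.last k).castSucc (Fin.last k).succ := by
    refine Equiv.ext fun j => ?_
    show idx (swD (pl j : Pos k)) = _
    rw [swD_apply, idx_tau, tau_pl]
    split_ifs
    · rw [sw_pr]; rfl
    · rw [sw_pl]; rfl
  show Equiv.Perm.sign (pairPerm ⟨_, h⟩) = -1
  rw [hp, Equiv.Perm.sign_swap (Fin.castSucc_lt_succ (i := Fin.last k)).ne]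

theorem Rsw_lt (i : Fin (k + 1)) (p q : Pos k) (h : Rsw i p q) : p < q := by
  rw [lt_iff]
  rcases h with ⟨rfl, rfl⟩ | ⟨rfl, rfl⟩ <;> simp <;> omega

theorem RD_lt (p q : Pos k) (h : RD p q) : p < q := by
  have := Rsw_lt _ _ _ h
  rwa [lt_iff, rk_tau, rk_tau, ← lt_iff] at this

theorem Rsw_trans (i : Fin (k + 1)) (p q s : Pos k) (h : Rsw i p q) (h' : Rsw i q s) : Rsw i p s := by
  rcases h with ⟨rfl, rfl⟩ | ⟨rfl, rfl⟩ <;> rcases h' with ⟨h1, -⟩ | ⟨h1, -⟩ <;>
    simp [Fin.ext_iff] at h1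

theorem RD_trans (p q s : Pos k) (h : RD p q) (h' : RD q s) : RD p s := Rsw_trans _ _ _ _ h h'

theorem Rsw_rev (i : Fin (k + 1)) (p q : Pos k) (h : Rsw i p q) : Rsw i (sw i q) (sw i p) := by
  rcases h with ⟨rfl, rfl⟩ | ⟨rfl, rfl⟩
  · left; simp [sw_pl]
  · right; simp [sw_pr]

theorem RD_rev (p q : Pos k) (h : RD p q) : RD (swD q) (swD p) := by
  unfold RD
  rw [swD_apply, swD_apply, tau_tau, tau_tau]
  exact Rsw_rev _ _ _ h

theorem Rsw_out (i : Fin (k + 1)) (p q : Pos k) (hpq : p < q) (h : ¬ Rsw i p q)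
    (h' : ¬ (i = Fin.last k ∧ p = pl (Fin.last k).castSucc ∧ q = pr (Fin.last k).castSucc)) :
    sw i p < sw i q := by
  rw [lt_iff] at *
  have hA : ∀ j : Fin (k + 2), (Equiv.swap i.castSucc i.succ j).1 =
      if j.1 = i.1 then i.1 + 1 else if j.1 = i.1 + 1 then i.1 else j.1 := by
    intro j
    rw [Equiv.swap_apply_def]
    simp only [Fin.ext_iff, Fin.val_castSucc, Fin.val_succ]
    split_ifs <;> simp_all
  rcases cases_on' p with ⟨a, rfl⟩ | ⟨a, rfl⟩ <;>
    rcases cases_on' q with ⟨b, rfl⟩ | ⟨b, rfl⟩ <;>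
    simp only [sw_pl, sw_pr, rk_pl, rk_pr, hA] at hpq ⊢ <;>
    simp [Rsw, Fin.ext_iff] at h h' <;> first | omega | (split_ifs <;> omega)

theorem RD_out (p q : Pos k) (hpq : p < q) (h : ¬ RD p q)
    (h' : ¬ (p = pl (Fin.last k).castSucc ∧ q = pr (Fin.last k).castSucc)) : swD p < swD q := by
  rw [lt_iff, swD_apply, swD_apply, rk_tau, rk_tau, ← lt_iff]
  refine Rsw_out _ _ _ ?_ h ?_
  · rwa [lt_iff, rk_tau, rk_tau, ← lt_iff]
  · rintro ⟨-, e1, e2⟩
    have f1 := congrArg tau e1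
    have f2 := congrArg tau e2
    rw [tau_tau, tau_pl, if_neg (Fin.castSucc_ne_last _)] at f1
    rw [tau_tau, tau_pr, if_neg (Fin.castSucc_ne_last _)] at f2
    exact h' ⟨f1, f2⟩

theorem Rsw_orient (i : Fin (k + 1)) {π : Equiv.Perm (Pos k)}
    (hπ : ∀ p, π (bar p) = bar (π p)) :
    (∀ p q, Rsw i p q → π p < π q) ∨ (∀ p q, Rsw i p q → π q < π p) := by
  simp only [lt_iff]
  have h1 : rk (π (pr i.castSucc)) + rk (π (pl i.castSucc : Pos k)) = 2 * k + 2 := by
    rw [← bar_pl, hπ]; exact rk_bar _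
  have h2 : rk (π (pr i.succ)) + rk (π (pl i.succ : Pos k)) = 2 * k + 2 := by
    rw [← bar_pl, hπ]; exact rk_bar _
  have hne : rk (π (pl i.castSucc : Pos k)) ≠ rk (π (pl i.succ)) := fun e => by
    rcases eq_or_bar_of_rk_eq e with h | h
    · exact (Fin.castSucc_lt_succ (i := i)).ne (pl_inj.1 (π.injective h))
    · rw [← hπ, bar_pl] at h
      exact pl_ne_pr _ _ (π.injective h)
  rcases lt_or_gt_of_ne hne with h | h
  · left; rintro p q (⟨rfl, rfl⟩ | ⟨rfl, rfl⟩) <;> omega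
  · right; rintro p q (⟨rfl, rfl⟩ | ⟨rfl, rfl⟩) <;> omega

theorem RD_orient {π : Equiv.Perm (Pos k)} (hπ : π ∈ W k) :
    (∀ p q, RD p q → π p < π q) ∨ (∀ p q, RD p q → π q < π p) := by
  rcases Rsw_orient (Fin.last k) (π := π * tau) (fun p => by
    rw [Equiv.Perm.mul_apply, Equiv.Perm.mul_apply, tau_bar, hπ.1]) with h | h
  · left; intro p q hpq; simpa [Equiv.Perm.mul_apply, tau_tau] using h _ _ hpq
  · right; intro p q hpq; simpa [Equiv.Perm.mul_apply, tau_tau] using h _ _ hpq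

/-- increasing on every simple root means trivial -/
theorem eq_one_of_increasing {π : Equiv.Perm (Pos k)} (hπ : π ∈ W k)
    (h1 : ∀ i : Fin (k + 1), π (pl i.castSucc) < π (pl i.succ))
    (h2 : π (pl (Fin.last k).castSucc) < π (pr (Fin.last (k + 1)))) : π = 1 := by
  simp only [lt_iff] at h1 h2
  let f : Fin (k + 2) → ℕ := fun i => rk (π (pl i))
  have hf : StrictMono f := Fin.strictMono_iff_lt_succ.2 h1
  have hb : ∀ i : Fin (k + 1), f i.castSucc < k + 1 := fun i => by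
    have h3 := rk_map hπ (pl (Fin.last (k + 1)) : Pos k)
    rw [bar_pl] at h3
    have h4 : f (Fin.last k).castSucc < f (Fin.last (k + 1)) := hf (Fin.castSucc_lt_last _)
    have h5 : f i.castSucc ≤ f (Fin.last k).castSucc :=
      hf.monotone (Fin.castSucc_le_castSucc_iff.2 (Fin.le_last i))
    simp only [f] at h4 h5 ⊢
    omega
  let g : Fin (k + 1) → Fin (k + 1) := fun i => ⟨f i.castSucc, hb i⟩
  have hg : g = id := StrictMono.eq_id (fun a b h => hf (Fin.castSucc_lt_castSucc_iff.2 h))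
  have hl : ∀ i : Fin (k + 1), π (pl i.castSucc : Pos k) = pl i.castSucc := fun i => by
    have e : rk (π (pl i.castSucc : Pos k)) = i.1 := by
      have := congrArg Fin.val (congrFun hg i)
      simpa [g, f] using this
    rcases cases_on' (π (pl i.castSucc)) with ⟨j, hj⟩ | ⟨j, hj⟩ <;> rw [hj] at e ⊢ <;> simp at e
    · exact congrArg pl (Fin.ext (by simpa using e))
    · omega
  have hr : ∀ i : Fin (k + 1), π (pr i.castSucc : Pos k) = pr i.castSucc := fun i => by
    rw [← bar_pl, hπ.1, hl]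
  have key : π (pl (Fin.last (k + 1))) = pl (Fin.last (k + 1)) := by
    rcases pair_spec hπ (Fin.last (k + 1)) with ⟨e, e'⟩ | ⟨e, e'⟩
    all_goals
      rcases Fin.eq_castSucc_or_eq_last (pairFun π (Fin.last (k + 1))) with ⟨j, hj⟩ | hj
    · rw [hj] at e; exact absurd (π.injective (e.trans (hl j).symm)) (by simp [(Fin.castSucc_lt_last j).ne'])
    · rw [e, hj]
    · rw [hj] at e; exact absurd (π.injective (e.trans (hr j).symm)) (by simp)
    · exfalso
      rw [hj] at e e'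
      have hπτ : π = tau := by
        refine Equiv.ext fun p => ?_
        rcases cases_on' p with ⟨i, rfl⟩ | ⟨i, rfl⟩ <;>
          rcases Fin.eq_castSucc_or_eq_last i with ⟨j, rfl⟩ | rfl
        · rw [hl, tau_pl, if_neg (Fin.castSucc_ne_last j)]
        · rw [e, tau_pl, if_pos rfl]
        · rw [hr, tau_pr, if_neg (Fin.castSucc_ne_last j)]
        · rw [e', tau_pr, if_pos rfl]
      have hs := hπ.2
      rw [hπτ, tau, Equiv.Perm.sign_swap (pl_ne_pr _ _)] at hs
      exact absurd hs (by decide)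
  refine Equiv.ext fun p => ?_
  rcases cases_on' p with ⟨i, rfl⟩ | ⟨i, rfl⟩ <;>
    rcases Fin.eq_castSucc_or_eq_last i with ⟨j, rfl⟩ | rfl
  · exact hl j
  · exact key
  · exact hr j
  · rw [← bar_pl, hπ.1, key]; rfl

theorem anti_of {π : Equiv.Perm (Pos k)} (h : ∀ p, rk (π p) = 2 * k + 2 - rk p) (p q : Pos k)
    (hpq : p ≤ q) : π q ≤ π p := by
  rcases hpq with rfl | hlt
  · exact le_refl _
  · refine Or.inr ?_
    rw [h, h]
    have := rk_bar q
    omega

end CfsgLib.StChar.BD
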