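import Cfsg.Agent.StChar.BC
import Cfsg.Agent.StChar.ORoots

/-!
The apartment data of an orthogonal group with an anisotropic middle.
-/

set_option autoImplicit false
set_option maxHeartbeats 1000000

open QuadraticMap

namespace CfsgLib.StChar.OB

open CfsgLib.Forms CfsgLib.OrthTwoGen CfsgLib.StChar.Orth CfsgLib.StChar.BC

variable {F V : Type*} [Field F] [AddCommGroup V] [Module F V] {Q : QuadraticForm F V} {k d : ℕ}

/-- the positions -/
def pos : J k d → Pos k 1 :=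
  Sum.elim (Sum.elim pl pr) (fun _ => pm 0)

@[simp] theorem pos_l (i : Fin (k + 1)) : pos (Sum.inl (Sum.inl i) : J k d) = pl i := rfl
@[simp] theorem pos_r (i : Fin (k + 1)) : pos (Sum.inl (Sum.inr i) : J k d) = pr i := rfl
@[simp] theorem pos_m (j : Fin d) : pos (Sum.inr j : J k d) = pm 0 := rfl

theorem rk_pos (x : J k d) : rk (pos x) = rkJ x := by
  rcases x with (i | i) | j <;> rfl

theorem Rsw_pos (i : Fin k) (a b : J k d) : Rsw i (pos a) (pos b) ↔ RswJ i a b := by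
  rcases a with (x | x) | x <;> rcases b with (y | y) | y <;> simp [Rsw, RswJ]

theorem RLast_pos (a b : J k d) : RLast (pos a) (pos b) ↔ RLastJ a b := by
  rcases a with (x | x) | x <;> rcases b with (y | y) | y <;> simp [RLast, RLastJ]

theorem pos_swJ (i : Fin k) (x : J k d) : pos (swJ i x) = sw i (pos x) := by
  rcases x with (j | j) | j <;> simp [swJ, sw_pl, sw_pr, sw_pm]

/-- the exchange inside one pair -/
def swPair (i : Fin (k + 1)) : Equiv.Perm (Pos k 1) := Equiv.swap (pl i) (pr i)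

theorem swPair_pl (i j : Fin (k + 1)) :
    swPair i (pl j : Pos k 1) = if j = i then pr j else pl j := by
  simp only [swPair, Equiv.swap_apply_def, pl_inj, pl_ne_pr, if_false]
  split_ifs <;> simp_all

theorem swPair_pr (i j : Fin (k + 1)) :
    swPair i (pr j : Pos k 1) = if j = i then pl j else pr j := by
  simp only [swPair, Equiv.swap_apply_def, pr_inj, pr_ne_pl, if_false]
  split_ifs <;> simp_all

theorem swPair_pm (i : Fin (k + 1)) (j : Fin 1) : swPair i (pm j : Pos k 1) = pm j := by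
  simp [swPair, Equiv.swap_apply_def]

theorem pos_swP (i : Fin (k + 1)) (p : Fin (k + 1) ⊕ Fin (k + 1)) :
    pos (swP i (Sum.inl p) : J k d) = swPair i (pos (Sum.inl p : J k d)) := by
  rcases p with j | j <;> simp [swP, swPair_pl, swPair_pr, Equiv.swap_apply_def] <;>
    split_ifs <;> simp_all

variable (D : OFrame Q k d)

/-- the layout on the root group -/
noncomputable def lay (hd : 0 < d) : Layout (rootGroup Q) F (J k d) (Pos k 1) where
  mat := D.layJ.mat.comp (rootGroup Q).subtype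
  inj := D.layJ.inj.comp Subtype.val_injective
  pos := pos
  surj := fun p => by
    rcases BC.cases_on' p with ⟨i, rfl⟩ | ⟨i, rfl⟩ | ⟨j, rfl⟩
    exacts [⟨Sum.inl (Sum.inl i), rfl⟩, ⟨Sum.inl (Sum.inr i), rfl⟩,
      ⟨Sum.inr ⟨0, hd⟩, by rw [pos_m, Subsingleton.elim j 0]⟩]

variable {D} {hd : 0 < d}

theorem supp_iff {R : Pos k 1 → Pos k 1 → Prop} {g : rootGroup Q} :
    (lay D hd).Supp R g ↔ D.layJ.Supp (fun a b => R (pos a) (pos b)) (g : V ≃ₗ[F] V) := Iff.rfl

theorem upper_iff {g : rootGroup Q} :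
    (lay D hd).Supp (· < ·) g ↔ D.Upper (g : V ≃ₗ[F] V) := by
  rw [supp_iff]
  constructor <;> intro h a b hab <;> have := h a b hab <;>
    simpa [BC.lt_iff, rk_pos, OFrame.Upper] using this

theorem mono_iff {π : Equiv.Perm (Pos k 1)} {g : rootGroup Q} :
    (lay D hd).Mono π g ↔
      ∀ a b, D.b.repr ((g : V ≃ₗ[F] V) (D.b b)) a ≠ 0 → pos a = π (pos b) := by
  constructor <;> intro h a b hab
  · exact h a b (by show D.layJ.mat (g : V ≃ₗ[F] V) a b ≠ 0; rwa [D.mat_apply])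
  · exact h a b (by
      have : D.layJ.mat (g : V ≃ₗ[F] V) a b ≠ 0 := hab
      rwa [D.mat_apply] at this)

theorem supp_lt_not {R : Pos k 1 → Pos k 1 → Prop} {RJ : J k d → J k d → Prop}
    (hR : ∀ a b, R (pos a) (pos b) ↔ RJ a b) {g : rootGroup Q} (hU : D.Upper (g : V ≃ₗ[F] V))
    (hz : ∀ a b, RJ a b → D.b.repr ((g : V ≃ₗ[F] V) (D.b b)) a = 0) :
    (lay D hd).Supp (fun p q => p < q ∧ ¬ R p q) g := by
  rw [supp_iff, D.supp_iff]
  intro a b hab
  by_cases hlt : rkJ a < rkJ b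
  · have hRJ : RJ a b := (hR a b).1 (by
      by_contra hne
      exact hab ⟨by rw [BC.lt_iff, rk_pos, rk_pos]; exact hlt, hne⟩)
    rw [hz a b hRJ, if_neg]
    rintro rfl
    exact lt_irrefl _ hlt
  · exact hU.row a b hlt

theorem eq_one_of_supp {R : Pos k 1 → Pos k 1 → Prop} {g : rootGroup Q}
    (h : (lay D hd).Supp R g) (h' : (lay D hd).Supp (fun p q => p < q ∧ ¬ R p q) g) : g = 1 := by
  refine (lay D hd).inj ?_
  rw [map_one]
  ext a b
  by_contra hne
  have h0 : ((lay D hd).mat g - 1) a b ≠ 0 := by simpa [sub_eq_zero] using hne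
  exact (h' a b h0).2 (h a b h0)

variable [Finite F] [FiniteDimensional F V] (D) (hQ : (polarBilin Q).Nondegenerate)
  (hn : 5 ≤ Module.finrank F V) (hd)

/-- short root elements -/
noncomputable def xG (i : Fin k) (t : F) : rootGroup Q := ⟨D.xS i t, D.xS_mem hQ hn i t⟩
/-- last root elements -/
noncomputable def yG (z : Fin d → F) : rootGroup Q := ⟨D.xL z, D.xL_mem hQ hn z⟩
/-- short Weyl elements -/
noncomputable def nG (i : Fin k) (t : F) : rootGroup Q := ⟨D.nS i t, D.nS_mem hQ hn i t⟩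
/-- Weyl elements of one pair -/
noncomputable def mG (i : Fin (k + 1)) (z : Fin d → F) : rootGroup Q := ⟨D.nP i z, D.nP_mem hQ hn i z⟩

/-- a middle vector -/
noncomputable def z0 : Fin d → F := Pi.single ⟨0, hd⟩ 1

omit [Finite F] in
theorem z0_ne : (z0 hd : Fin d → F) ≠ 0 := by simp [z0]

theorem xG_supp (i : Fin k) (t : F) : (lay D hd).Supp (Rsw i) (xG D hQ hn i t) := by
  rw [supp_iff]
  exact (D.xS_supp i t).mono fun a b h => (Rsw_pos i a b).2 h

theorem yG_supp (z : Fin d → F) : (lay D hd).Supp RLast (yG D hQ hn z) := by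
  rw [supp_iff]
  exact (D.xL_supp z).mono fun a b h => (RLast_pos a b).2 h

theorem nG_mono (i : Fin k) {t : F} (ht : t ≠ 0) : (lay D hd).Mono (sw i) (nG D hQ hn i t) := by
  rw [mono_iff]
  intro a b h
  obtain ⟨c, -, e⟩ := D.nS_b i ht b
  rw [show ((nG D hQ hn i t : rootGroup Q) : V ≃ₗ[F] V) = D.nS i t from rfl, e, map_smul,
    Finsupp.smul_apply, D.repr_b] at h
  split_ifs at h with hb
  · rw [← hb, pos_swJ]
  · simp at h

theorem mG_mono (i : Fin (k + 1)) {z : Fin d → F} (hz : z ≠ 0) :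
    (lay D hd).Mono (swPair i) (mG D hQ hn i z) := by
  rw [mono_iff]
  intro a b h
  rw [show ((mG D hQ hn i z : rootGroup Q) : V ≃ₗ[F] V) = D.nP i z from rfl] at h
  rcases b with p | j
  · obtain ⟨c, -, e⟩ := D.nP_inl (i := i) hz p
    rw [e, map_smul, Finsupp.smul_apply, D.repr_b] at h
    split_ifs at h with hb
    · rw [← hb, pos_swP]
    · simp at h
  · rcases a with p | j'
    · exact absurd (D.nP_mid hz j p) h
    · rw [pos_m, pos_m, swPair_pm]

/-- the representatives -/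
noncomputable def SS : Set (rootGroup Q) :=
  Set.range (fun i => nG D hQ hn i 1) ∪ {mG D hQ hn (Fin.last k) (z0 hd)}

open Classical in
/-- the permutation of a representative -/
noncomputable def sigmaOf (g : rootGroup Q) : Equiv.Perm (Pos k 1) :=
  if h : ∃ i, nG D hQ hn i 1 = g then sw h.choose else swLast

open Classical in
/-- the roots of a representative -/
noncomputable def rootsOf (g : rootGroup Q) : Pos k 1 → Pos k 1 → Prop :=
  if h : ∃ i, nG D hQ hn i 1 = g then Rsw h.choose else RLast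

theorem mem_SS {s : rootGroup Q} (hs : s ∈ SS D hd hQ hn) :
    (∃ i, s = nG D hQ hn i 1 ∧ sigmaOf D hQ hn s = sw i ∧ rootsOf D hQ hn s = Rsw i) ∨
      (s = mG D hQ hn (Fin.last k) (z0 hd) ∧ sigmaOf D hQ hn s = swLast ∧
        rootsOf D hQ hn s = RLast) := by
  by_cases h : ∃ i, nG D hQ hn i 1 = s
  · exact Or.inl ⟨h.choose, h.choose_spec.symm, by rw [sigmaOf, dif_pos h], by rw [rootsOf, dif_pos h]⟩
  · rcases hs with ⟨i, hi⟩ | hs
    · exact absurd ⟨i, hi⟩ h
    · exact Or.inr ⟨hs, by rw [sigmaOf, dif_neg h], by rw [rootsOf, dif_neg h]⟩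

theorem factor_S (i : Fin k) {u : rootGroup Q} (hu : (lay D hd).Supp (· < ·) u) :
    ∃ t, (lay D hd).Supp (fun p q => p < q ∧ ¬ Rsw i p q) (u * (xG D hQ hn i t)⁻¹) := by
  obtain ⟨t, h1, h2⟩ := D.factor_long i (rootGroup_le_isom u.2) (upper_iff.1 hu)
  exact ⟨t, supp_lt_not (Rsw_pos i) h1 h2⟩

theorem factor_L {u : rootGroup Q} (hu : (lay D hd).Supp (· < ·) u) :
    ∃ z, (lay D hd).Supp (fun p q => p < q ∧ ¬ RLast p q) (u * (yG D hQ hn z)⁻¹) := by
  obtain ⟨z, h1, h2⟩ := D.factor_last (rootGroup_le_isom u.2) (upper_iff.1 hu)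
  exact ⟨z, supp_lt_not RLast_pos h1 h2⟩

variable [Finite V]

instance finite_rootGroup : Finite (rootGroup Q) :=
  Finite.of_injective (fun g : rootGroup Q => ((g : V ≃ₗ[F] V) : V → V))
    fun _ _ h => Subtype.ext (DFunLike.coe_injective h)

theorem eq_xG (i : Fin k) {x : rootGroup Q} (hx : (lay D hd).Supp (Rsw i) x) :
    ∃ t, x = xG D hQ hn i t := by
  obtain ⟨t, ht⟩ := factor_S D hd hQ hn i (hx.mono (Rsw_lt i))
  refine ⟨t, mul_inv_eq_one.1 (eq_one_of_supp ?_ ht)⟩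
  exact Subgroup.mul_mem ((lay D hd).Sub (Rsw i) (Rsw_trans i)) hx
    (Subgroup.inv_mem ((lay D hd).Sub (Rsw i) (Rsw_trans i)) (xG_supp D hd hQ hn i t))

theorem eq_yG {x : rootGroup Q} (hx : (lay D hd).Supp RLast x) : ∃ z, x = yG D hQ hn z := by
  obtain ⟨z, hz⟩ := factor_L D hd hQ hn (hx.mono RLast_lt)
  refine ⟨z, mul_inv_eq_one.1 (eq_one_of_supp ?_ hz)⟩
  exact Subgroup.mul_mem ((lay D hd).Sub RLast RLast_trans) hx
    (Subgroup.inv_mem ((lay D hd).Sub RLast RLast_trans) (yG_supp D hd hQ hn z))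

include hd hQ hn in
theorem exists_flips (S : Finset (Fin (k + 1))) :
    ∃ (g : rootGroup Q) (π : Equiv.Perm (Pos k 1)), (lay D hd).Mono π g ∧
      (∀ i, π (pl i) = if i ∈ S then pr i else pl i) ∧
      (∀ i, π (pr i) = if i ∈ S then pl i else pr i) ∧ ∀ j, π (pm j) = pm j := by
  classical
  induction S using Finset.induction with
  | empty => exact ⟨1, 1, Layout.mono_one _, by simp, by simp, by simp⟩
  | @insert a S ha ih =>
    obtain ⟨g, π, hg, h1, h2, h3⟩ := ih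
    refine ⟨mG D hQ hn a (z0 hd) * g, swPair a * π, (mG_mono D hd hQ hn a (z0_ne hd)).mul hg,
      fun i => ?_, fun i => ?_, fun j => ?_⟩
    · rw [Equiv.Perm.mul_apply, h1]
      by_cases hi : i ∈ S
      · rw [if_pos hi, swPair_pr, if_neg (fun e => ha (by rw [← e]; exact hi)),
          if_pos (Finset.mem_insert_of_mem hi)]
      · rw [if_neg hi, swPair_pl]
        by_cases hia : i = a <;> simp [hi, hia]
    · rw [Equiv.Perm.mul_apply, h2]
      by_cases hi : i ∈ S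
      · rw [if_pos hi, swPair_pl, if_neg (fun e => ha (by rw [← e]; exact hi)),
          if_pos (Finset.mem_insert_of_mem hi)]
      · rw [if_neg hi, swPair_pr]
        by_cases hia : i = a <;> simp [hi, hia]
    · rw [Equiv.Perm.mul_apply, h3, swPair_pm]

include hd hQ hn in
theorem exists_n0 : ∃ g : rootGroup Q, (lay D hd).Mono BC.bar g := by
  obtain ⟨g, π, hg, h1, h2, h3⟩ := exists_flips D hd hQ hn Finset.univ
  have : π = BC.bar := Equiv.ext fun p => by
    rcases BC.cases_on' p with ⟨i, rfl⟩ | ⟨i, rfl⟩ | ⟨j, rfl⟩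
    · rw [h1, if_pos (Finset.mem_univ i), bar_pl]
    · rw [h2, if_pos (Finset.mem_univ i), bar_pr]
    · rw [h3, bar_pm]
  exact ⟨g, this ▸ hg⟩

theorem gen_eq_top :
    Subgroup.closure ({g | (lay D hd).Supp (· < ·) g} ∪ SS D hd hQ hn ∪
      {g | (lay D hd).Mono 1 g}) = ⊤ := by
  set K := Subgroup.closure ({g | (lay D hd).Supp (· < ·) g} ∪ SS D hd hQ hn ∪
    {g | (lay D hd).Mono 1 g}) with hK
  set H := K.map (rootGroup Q).subtype with hH
  have hnS : ∀ i, D.nS i 1 ∈ H := fun i =>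
    ⟨nG D hQ hn i 1, Subgroup.subset_closure (Or.inl (Or.inr (Or.inl ⟨i, rfl⟩))), rfl⟩
  obtain ⟨g, hg, hgi, c, c', hc, hc', hge, hgf⟩ := D.exists_chain hnS (Fin.last k)
  have hs : D.nP (Fin.last k) (z0 hd) ∈ H :=
    ⟨mG D hQ hn (Fin.last k) (z0 hd), Subgroup.subset_closure (Or.inl (Or.inr (Or.inr rfl))), rfl⟩
  obtain ⟨c2, hc2, he⟩ := D.nP_inl (i := Fin.last k) (z0_ne hd) (Sum.inl (Fin.last k))
  have hw : (g⁻¹ * D.nP (Fin.last k) (z0 hd) * g) (D.e 0) = (c * c2 * c'⁻¹) • D.f 0 := by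
    rw [LinearEquiv.mul_apply, LinearEquiv.mul_apply, hge, map_smul, OFrame.e, he]
    have : D.b (swP (Fin.last k) (Sum.inl (Sum.inl (Fin.last k)))) = c'⁻¹ • g (D.f 0) := by
      rw [hgf, smul_smul, inv_mul_cancel₀ hc', one_smul, OFrame.f]
      simp [swP]
    rw [this, map_smul, map_smul, map_smul, smul_smul, smul_smul]
    congr 1
    exact g.symm_apply_apply _
  have hle : rootGroup Q ≤ H := D.root_le_of_gen hQ
    (fun a _ hU => ⟨⟨_, sg_mem_root hQ hn _ _⟩,
      Subgroup.subset_closure (Or.inl (Or.inl (upper_iff.2 hU))), rfl⟩)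
    (mul_mem (mul_mem (inv_mem hg) hs) hg)
    (mul_mem (mul_mem (inv_mem hgi) (rootGroup_le_isom (D.nP_mem hQ hn _ _))) hgi)
    (mul_ne_zero (mul_ne_zero hc hc2) (inv_ne_zero hc')) hw
  refine eq_top_iff.2 fun x _ => ?_
  obtain ⟨y, hy, e⟩ := hle x.2
  rwa [← Subtype.ext e]

/-- the apartment data -/
noncomputable def sys : Sys (rootGroup Q) F (J k d) (Pos k 1) where
  toLayout := lay D hd
  W := BC.W k 1
  ε := BC.eps
  π0 := BC.bar
  n0 := (exists_n0 D hd hQ hn).choose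
  S := SS D hd hQ hn
  σ := sigmaOf D hQ hn
  R := rootsOf D hQ hn
  π0_mem := bar_mem
  n0_mono := (exists_n0 D hd hQ hn).choose_spec
  anti := BC.anti
  S_mono s hs := by
    rcases mem_SS D hd hQ hn hs with ⟨i, hi, h1, -⟩ | ⟨hi, h1, -⟩
    · rw [h1, hi]; exact ⟨nG_mono D hd hQ hn i one_ne_zero, sw_sq i, sw_eps i⟩
    · rw [h1, hi]; exact ⟨mG_mono D hd hQ hn _ (z0_ne hd), swLast_sq, swLast_eps⟩
  R_trans s := by
    unfold rootsOf; split_ifs with h
    exacts [Rsw_trans _, RLast_trans]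
  R_lt s hs := by
    rcases mem_SS D hd hQ hn hs with ⟨i, -, -, h⟩ | ⟨-, -, h⟩ <;> rw [h]
    exacts [Rsw_lt i, RLast_lt]
  R_rev s hs := by
    rcases mem_SS D hd hQ hn hs with ⟨i, -, h1, h⟩ | ⟨-, h1, h⟩ <;> rw [h, h1]
    exacts [Rsw_rev i, RLast_rev]
  orient s hs π hπ := by
    rcases mem_SS D hd hQ hn hs with ⟨i, -, -, h⟩ | ⟨-, -, h⟩ <;> rw [h]
    exacts [Rsw_orient i hπ, RLast_orient hπ]
  sepW π hπ h := by
    have key : ∀ i, (∀ i', nG D hQ hn i 1 = nG D hQ hn i' 1 → i = i') ∧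
        nG D hQ hn i 1 ≠ mG D hQ hn (Fin.last k) (z0 hd) := fun i => by
      refine ⟨fun i' e => ?_, fun e => ?_⟩
      · have h3 := nG_mono D hd hQ hn i (one_ne_zero (α := F))
        rw [e] at h3
        have h4 := congrArg (fun e : Equiv.Perm (Pos k 1) => e (pl i.castSucc))
          (h3.unique (nG_mono D hd hQ hn i' one_ne_zero))
        simp only [sw_pl, pl_inj, Equiv.swap_apply_left] at h4
        rw [Equiv.swap_apply_def] at h4
        split_ifs at h4 with a1 a2 <;> simp [Fin.ext_iff] at * <;> omega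
      · have h3 := nG_mono D hd hQ hn i (one_ne_zero (α := F))
        rw [e] at h3
        have h4 := congrArg (fun e : Equiv.Perm (Pos k 1) => e (pl i.castSucc))
          (h3.unique (mG_mono D hd hQ hn (Fin.last k) (z0_ne hd)))
        simp only [sw_pl, Equiv.swap_apply_left, swPair_pl] at h4
        rw [if_neg (Fin.castSucc_ne_last i), pl_inj] at h4
        exact (Fin.castSucc_lt_succ (i := i)).ne h4.symm
    refine eq_one_of_increasing hπ (fun i => ?_) ?_
    · rcases mem_SS D hd hQ hn (Or.inl ⟨i, rfl⟩ : nG D hQ hn i 1 ∈ SS D hd hQ hn) with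
        ⟨i', hi, -, h2⟩ | ⟨hi, -, -⟩
      · obtain rfl := (key i).1 i' hi
        exact h _ (Or.inl ⟨i, rfl⟩) _ _ (by rw [h2]; exact Or.inl ⟨rfl, rfl⟩)
      · exact absurd hi (key i).2
    · rcases mem_SS D hd hQ hn (Or.inr rfl : mG D hQ hn (Fin.last k) (z0 hd) ∈ SS D hd hQ hn) with
        ⟨i', hi, -, -⟩ | ⟨-, -, h2⟩
      · exact absurd hi.symm (key i').2
      · exact h _ (Or.inr rfl) _ _ (by rw [h2]; exact Or.inr (Or.inr ⟨rfl, rfl⟩))
  X_nt s hs := by
    rcases mem_SS D hd hQ hn hs with ⟨i, -, -, h⟩ | ⟨-, -, h⟩ <;> rw [h]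
    · exact ⟨xG D hQ hn i 1, fun e => D.xS_ne i one_ne_zero (congrArg Subtype.val e),
        xG_supp D hd hQ hn i 1⟩
    · exact ⟨yG D hQ hn (z0 hd), fun e => D.xL_ne (z0_ne hd) (congrArg Subtype.val e),
        yG_supp D hd hQ hn _⟩
  factor s hs u hu := by
    rcases mem_SS D hd hQ hn hs with ⟨i, -, h1, h⟩ | ⟨-, h1, h⟩ <;> rw [h, h1]
    · obtain ⟨t, ht⟩ := factor_S D hd hQ hn i hu
      exact ⟨_, xG_supp D hd hQ hn i t, ht.mono fun p q hp => ⟨hp.1, Rsw_out i p q hp.1 hp.2⟩⟩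
    · obtain ⟨z, hz⟩ := factor_L D hd hQ hn hu
      exact ⟨_, yG_supp D hd hQ hn z, hz.mono fun p q hp => ⟨hp.1, RLast_out p q hp.1 hp.2⟩⟩
  rank1 s hs x hx hx1 := by
    rcases mem_SS D hd hQ hn hs with ⟨i, hi, -, h⟩ | ⟨hi, -, h⟩ <;> rw [h] at hx ⊢ <;> rw [hi]
    · obtain ⟨t, rfl⟩ := eq_xG D hd hQ hn i hx
      have ht : t ≠ 0 := fun h0 => hx1 (Subtype.ext (by
        subst h0
        show D.xS i 0 = 1
        rw [OFrame.xS, sigma, zero_smul, sg_zero (D.qe _)]))
      exact Layout.rank1_of_identity (sw_sq i) (nG_mono D hd hQ hn i one_ne_zero)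
        (nG_mono D hd hQ hn i (one_div_ne_zero ht)) (xG_supp D hd hQ hn i _) (xG_supp D hd hQ hn i _)
        (Subtype.ext (D.rank_long i ht))
    · obtain ⟨z, rfl⟩ := eq_yG D hd hQ hn hx
      have hz : z ≠ 0 := fun h0 => hx1 (Subtype.ext (by
        subst h0
        show D.xL 0 = 1
        rw [OFrame.xL, map_zero, sg_zero (D.qe _)]))
      obtain ⟨z', v, hv, e⟩ := D.rank_last hz (z0_ne hd)
      exact Layout.rank1_of_identity swLast_sq (mG_mono D hd hQ hn _ (z0_ne hd))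
        (mG_mono D hd hQ hn _ hv) (yG_supp D hd hQ hn z') (yG_supp D hd hQ hn z') (Subtype.ext e)
  gen := gen_eq_top D hd hQ hn

include hQ hn in
theorem hblock {p : ℕ} [Fact p.Prime] [CharP F p] (hd2 : d ≤ 2)
    (hrefl : ∀ (y : V) (hy : Q y ≠ 0), Forms.refl Q y hy ∉ rootGroup Q)
    (g : rootGroup Q) (hg : (lay D hd).Supp (· ≤ ·) g) (hp : ∃ j : ℕ, g ^ p ^ j = 1) :
    ∀ i j, pos i = pos j → ((lay D hd).mat g - 1) i j = 0 := by
  intro i j hij
  have hle : D.layJ.Supp (fun a b => rkJ a ≤ rkJ b) (g : V ≃ₗ[F] V) :=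
    Layout.Supp.mono (supp_iff.1 hg) fun a b h => by rwa [BC.le_iff, rk_pos, rk_pos] at h
  obtain ⟨N, hN⟩ := hp
  have hU := D.upper_of_unipotent hQ hn hd2 hrefl g.2 hle ⟨N, by
    have := congrArg Subtype.val hN; simpa using this⟩
  by_contra hne
  have := hU i j hne
  change rkJ i < rkJ j at this
  rw [← rk_pos, ← rk_pos, hij] at this
  exact lt_irrefl _ this

end CfsgLib.StChar.OB
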