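import Cfsg.Agent.OrthTwoGen.Basic

/-!
A subgroup containing the Siegel maps at both ends of one hyperbolic pair contains the root group.
-/

set_option autoImplicit false

open QuadraticMap

namespace CfsgLib.StChar.Orth

open CfsgLib.Forms CfsgLib.OrthTwoGen

variable {F V : Type*} [Field F] [AddCommGroup V] [Module F V] {Q : QuadraticForm F V}
  {H : Subgroup (V ≃ₗ[F] V)} {e f : V}

theorem rootGroup_le_of_pair (hQ : (polarBilin Q).Nondegenerate) (qe : Q e = 0) (qf : Q f = 0)
    (hef : polar Q e f = 1) (hE : ∀ x, polar Q x e = 0 → sg Q e x ∈ H)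
    (hF : ∀ x, polar Q x f = 0 → sg Q f x ∈ H) : rootGroup Q ≤ H := by
  classical
  let T : V → Prop := fun v => ∀ x, polar Q x v = 0 → sg Q v x ∈ H
  have hback : ∀ (B : V ≃ₗ[F] V) (v : V), B ∈ H → B ∈ isom Q → Q v = 0 → T (B v) → T v := by
    intro B v hB hBi hv hT x hx
    have h := hT (B x) (by rw [isom_polar hBi, hx])
    rw [← sg_conj hBi hv hx] at h
    have := mul_mem (mul_mem (inv_mem hB) h) hB
    simpa [mul_assoc] using this
  have hee : polar Q e e = 0 := by rw [polar_self, qe]; simp
  have hff : polar Q f f = 0 := by rw [polar_self, qf]; simp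
  have hfe : polar Q f e = 1 := by rw [polar_comm, hef]
  have step1 : ∀ v, Q v = 0 → polar Q v e ≠ 0 → T v := by
    intro v hv hb
    set b := polar Q v e with hbdef
    set g := polar Q v f with hgdef
    set x := b⁻¹ • (v - g • e - b • f) with hx
    have hxd : polar Q x e = 0 := by
      rw [hx, polar_smul_left, polar_sub_left, polar_sub_left, polar_smul_left, polar_smul_left,
        hee, hfe, ← hbdef]; simp
    obtain ⟨γ, hγ⟩ : ∃ γ : F, sg Q e x v = γ • e + b • f := by
      refine ⟨g + (polar Q v x - Q x * b), ?_⟩
      rw [sg_apply qe hxd, hx, smul_smul, mul_inv_cancel₀ hb, one_smul]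
      module
    refine hback _ v (hE x hxd) (sg_mem_isom _ _) hv ?_
    have hq := (sg_mem_isom (Q := Q) e x) v
    rw [hγ, QuadraticMap.map_add (⇑Q), QuadraticMap.map_smul, QuadraticMap.map_smul, qe, qf,
      polar_smul_left, polar_smul_right, hef, hv] at hq
    simp [hb] at hq
    rw [hγ, hq, zero_smul, zero_add]
    intro y hy
    have hy' : polar Q y f = 0 := by
      rw [polar_smul_right, smul_eq_mul] at hy
      exact (mul_eq_zero.mp hy).resolve_left hb
    rw [sg_smul qf hy']
    exact hF _ (by rw [polar_smul_left, hy', smul_zero])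
  have step2 : ∀ v, Q v = 0 → v ≠ polar Q v f • e → T v := by
    intro v hv hne
    by_cases hb : polar Q v e ≠ 0
    · exact step1 v hv hb
    push Not at hb
    set g := polar Q v f with hgdef
    set v' := v - g • e with hv'
    have hv'0 : v' ≠ 0 := sub_ne_zero.mpr hne
    obtain ⟨w, hw⟩ : ∃ w, polar Q v' w ≠ 0 := by
      by_contra hcon
      push Not at hcon
      exact hv'0 (hQ.1 v' fun w => by rw [polarBilin_apply_apply]; exact hcon w)
    set x0 := w - polar Q w f • e - polar Q w e • f with hx0
    have hv'e : polar Q v' e = 0 := by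
      rw [hv', polar_sub_left, hb, polar_smul_left, hee]; simp
    have hv'f : polar Q v' f = 0 := by
      rw [hv', polar_sub_left, ← hgdef, polar_smul_left, hef]; simp
    have hx0e : polar Q x0 e = 0 := by
      rw [hx0, polar_sub_left, polar_sub_left, polar_smul_left, polar_smul_left, hee, hfe]; simp
    have hx0f : polar Q x0 f = 0 := by
      rw [hx0, polar_sub_left, polar_sub_left, polar_smul_left, polar_smul_left, hff, hef]; simp
    have hp : polar Q v' x0 ≠ 0 := by
      rw [hx0, polar_sub_right, polar_sub_right, polar_smul_right, polar_smul_right, hv'e, hv'f]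
      simpa using hw
    have hvx : polar Q v x0 = polar Q v' x0 := by
      rw [hv', polar_sub_left, polar_smul_left, polar_comm Q e x0, hx0e]; simp
    set c := -(g / polar Q v' x0) with hc
    set x := c • x0 with hx
    have hxe : polar Q x e = 0 := by rw [hx, polar_smul_left, hx0e, smul_zero]
    refine hback _ v (hE x hxe) (sg_mem_isom _ _) hv ?_
    have hv1 : sg Q e x v = v' := by
      rw [sg_apply qe hxe, hb, hx, polar_smul_right, hvx, smul_eq_mul, hc]
      rw [neg_mul, div_mul_cancel₀ g hp, hv']; module
    rw [hv1]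
    have hq' : Q v' = 0 := by rw [← hv1, sg_mem_isom (Q := Q) e x v, hv]
    refine hback _ v' (hF x0 hx0f) (sg_mem_isom _ _) hq' (step1 _ ?_ ?_)
    · rw [sg_mem_isom (Q := Q) f x0 v', hq']
    · rw [sg_apply qf hx0f, hv'f]
      simp only [mul_zero, sub_zero, zero_smul, polar_add_left, polar_smul_left, hv'e, hfe, zero_add,
        smul_eq_mul, mul_one]
      exact hp
  have hall : ∀ v, Q v = 0 → T v := by
    intro v hv
    by_cases h : v = polar Q v f • e
    · intro x hx
      rw [h] at hx ⊢
      by_cases hg : polar Q v f = 0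
      · rw [hg, zero_smul]
        have e' : sg Q (0 : V) x = 1 :=
          LinearEquiv.ext fun y => by rw [sg_apply (by simp) (by simp)]; simp
        rw [e']; exact one_mem H
      · have hx' : polar Q x e = 0 := by
          rw [polar_smul_right, smul_eq_mul] at hx
          exact (mul_eq_zero.mp hx).resolve_left hg
        rw [sg_smul qe hx']
        exact hE _ (by rw [polar_smul_left, hx', smul_zero])
    · exact step2 v hv h
  refine (Subgroup.closure_le H).2 ?_
  rintro _ ⟨d, x, hd, hxd, -, rfl⟩
  rw [SetLike.mem_coe, ← sg_eq hd hxd]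
  exact hall d hd x hxd

end CfsgLib.StChar.Orth
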