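import Cfsg.Agent.StChar.Layout
import Cfsg.Agent.StChar.OPair

/-!
Upper triangular isometries for a frame of hyperbolic pairs with a small anisotropic middle.
-/

set_option autoImplicit false
set_option maxHeartbeats 1000000

open QuadraticMap

namespace CfsgLib.StChar.Orth

open CfsgLib.Forms CfsgLib.OrthTwoGen

/-- the index set: two halves and a middle -/
abbrev J (k d : ℕ) := (Fin (k + 1) ⊕ Fin (k + 1)) ⊕ Fin d

/-- a Witt basis -/
structure OFrame {F V : Type*} [Field F] [AddCommGroup V] [Module F V] (Q : QuadraticForm F V)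
    (k d : ℕ) where
  b : Module.Basis (J k d) F V
  qb : ∀ p : Fin (k + 1) ⊕ Fin (k + 1), Q (b (Sum.inl p)) = 0
  gram : ∀ p x, polar Q (b (Sum.inl p)) (b x) = if Sum.inl p.swap = x then 1 else 0
  aniso : ∀ z : Fin d → F, Q (b.equivFun.symm (Sum.elim (fun _ => 0) z)) = 0 → z = 0

/-- the height -/
def rkJ {k d : ℕ} : J k d → ℕ :=
  Sum.elim (Sum.elim (fun i => i.1) (fun i => 2 * k + 2 - i.1)) (fun _ => k + 1)

@[simp] theorem rkJ_l {k d : ℕ} (i : Fin (k + 1)) :
    rkJ (Sum.inl (Sum.inl i) : J k d) = i.1 := rfl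
@[simp] theorem rkJ_r {k d : ℕ} (i : Fin (k + 1)) :
    rkJ (Sum.inl (Sum.inr i) : J k d) = 2 * k + 2 - i.1 := rfl
@[simp] theorem rkJ_m {k d : ℕ} (j : Fin d) : rkJ (Sum.inr j : J k d) = k + 1 := rfl

theorem rkJ_eq_inl {k d : ℕ} {p : Fin (k + 1) ⊕ Fin (k + 1)} {c : J k d}
    (h : rkJ c = rkJ (Sum.inl p : J k d)) : c = Sum.inl p := by
  rcases p with i | i <;> rcases c with (l | l) | l <;> simp at h <;>
    first
      | (obtain rfl : l = i := Fin.ext (by omega); rfl)
      | omega

variable {F V : Type*} [Field F] [AddCommGroup V] [Module F V] {Q : QuadraticForm F V} {k d : ℕ}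

namespace OFrame

variable (D : OFrame Q k d)

/-- first vector of a pair -/
noncomputable def e (i : Fin (k + 1)) : V := D.b (Sum.inl (Sum.inl i))
/-- second vector of a pair -/
noncomputable def f (i : Fin (k + 1)) : V := D.b (Sum.inl (Sum.inr i))

theorem qe (i : Fin (k + 1)) : Q (D.e i) = 0 := D.qb _
theorem qf (i : Fin (k + 1)) : Q (D.f i) = 0 := D.qb _
theorem pef (i : Fin (k + 1)) : polar Q (D.e i) (D.f i) = 1 := by rw [e, f, D.gram]; simp
theorem pee (i j : Fin (k + 1)) : polar Q (D.e i) (D.e j) = 0 := by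
  rw [e, e, D.gram, if_neg]; simp
theorem pff (i j : Fin (k + 1)) : polar Q (D.f i) (D.f j) = 0 := by
  rw [f, f, D.gram, if_neg]; simp
theorem pef' {i j : Fin (k + 1)} (h : i ≠ j) : polar Q (D.e i) (D.f j) = 0 := by
  rw [e, f, D.gram, if_neg]; simp [h]
theorem pfe' {i j : Fin (k + 1)} (h : i ≠ j) : polar Q (D.f i) (D.e j) = 0 := by
  rw [e, f, D.gram, if_neg]; simp [h]

theorem two {i j : Fin (k + 1)} (h : i ≠ j) : TwoPairs Q (D.e i) (D.f i) (D.e j) (D.f j) :=
  ⟨D.qe i, D.qf i, D.qe j, D.qf j, D.pef i, D.pef j, D.pee i j, D.pef' h, D.pfe' h, D.pff i j⟩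

theorem repr_b (x y : J k d) : D.b.repr (D.b y) x = if y = x then 1 else 0 := by
  rw [Module.Basis.repr_self, Finsupp.single_apply]

theorem repr_inl (v : V) (p : Fin (k + 1) ⊕ Fin (k + 1)) :
    D.b.repr v (Sum.inl p) = polar Q v (D.b (Sum.inl p.swap)) := by
  rw [← polarBilin_apply_apply, ← LinearMap.flip_apply (polarBilin Q)]
  conv_rhs => rw [← D.b.sum_repr v, map_sum]
  rw [Finset.sum_eq_single (Sum.inl p)]
  · rw [map_smul, LinearMap.flip_apply, polarBilin_apply_apply, polar_comm, D.gram,
      if_pos (by simp), smul_eq_mul, mul_one]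
  · intro x _ hx
    rw [map_smul, LinearMap.flip_apply, polarBilin_apply_apply, polar_comm, D.gram,
      if_neg (by rw [Sum.swap_swap]; exact fun h => hx h.symm), smul_zero]
  · simp

theorem repr_l (v : V) (i : Fin (k + 1)) :
    D.b.repr v (Sum.inl (Sum.inl i)) = polar Q v (D.f i) := D.repr_inl v (Sum.inl i)

theorem repr_r (v : V) (i : Fin (k + 1)) :
    D.b.repr v (Sum.inl (Sum.inr i)) = polar Q v (D.e i) := D.repr_inl v (Sum.inr i)

/-- a vector from its coordinates -/
noncomputable def comb (c : J k d → F) : V := D.b.equivFun.symm c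

theorem repr_comb (c : J k d → F) (x : J k d) : D.b.repr (D.comb c) x = c x := by
  rw [comb, ← Module.Basis.equivFun_apply, LinearEquiv.apply_symm_apply]

/-- a vector of the middle -/
noncomputable def vec : (Fin d → F) →ₗ[F] V where
  toFun z := D.comb (Sum.elim (fun _ => 0) z)
  map_add' z w := D.b.ext_elem fun x => by
    rw [map_add, Finsupp.add_apply]
    simp only [D.repr_comb]
    rcases x with x | x <;> simp
  map_smul' c z := D.b.ext_elem fun x => by
    rw [map_smul, Finsupp.smul_apply]
    simp only [D.repr_comb, RingHom.id_apply]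
    rcases x with x | x <;> simp

theorem repr_vec (z : Fin d → F) (x : J k d) :
    D.b.repr (D.vec z) x = Sum.elim (fun _ => 0) z x := D.repr_comb _ x

/-- the middle coordinates -/
noncomputable def mid : V →ₗ[F] (Fin d → F) where
  toFun v := fun j => D.b.repr v (Sum.inr j)
  map_add' v w := by ext j; simp
  map_smul' c v := by ext j; simp

theorem mid_apply (v : V) (j : Fin d) : D.mid v j = D.b.repr v (Sum.inr j) := rfl

theorem mid_vec (z : Fin d → F) : D.mid (D.vec z) = z := by
  ext j; rw [mid_apply, repr_vec]; rfl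

theorem aniso' {z : Fin d → F} (h : Q (D.vec z) = 0) : z = 0 := D.aniso z h

theorem vec_e (z : Fin d → F) (i : Fin (k + 1)) : polar Q (D.vec z) (D.e i) = 0 := by
  rw [← D.repr_r, repr_vec]; rfl

theorem vec_f (z : Fin d → F) (i : Fin (k + 1)) : polar Q (D.vec z) (D.f i) = 0 := by
  rw [← D.repr_l, repr_vec]; rfl

theorem decomp (v : V) :
    v = ∑ i, D.b.repr v (Sum.inl (Sum.inl i)) • D.e i +
      ∑ i, D.b.repr v (Sum.inl (Sum.inr i)) • D.f i + D.vec (D.mid v) := by
  have hv : D.vec (D.mid v) = ∑ j, D.b.repr v (Sum.inr j) • D.b (Sum.inr j) := by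
    show D.b.equivFun.symm _ = _
    rw [Module.Basis.equivFun_symm_apply, Fintype.sum_sum_type, Fintype.sum_sum_type]
    simp [mid_apply]
  rw [hv]
  conv_lhs => rw [← D.b.sum_repr v, Fintype.sum_sum_type, Fintype.sum_sum_type]
  rfl

theorem polar_sum_left {α : Type*} (s : Finset α) (g : α → V) (w : V) :
    polar Q (∑ i ∈ s, g i) w = ∑ i ∈ s, polar Q (g i) w := by
  simp only [← polarBilin_apply_apply, map_sum, LinearMap.coe_sum, Finset.sum_apply]

theorem polar_repr (v w : V) :
    polar Q v w = ∑ i, (D.b.repr v (Sum.inl (Sum.inl i)) * D.b.repr w (Sum.inl (Sum.inr i)) +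
      D.b.repr v (Sum.inl (Sum.inr i)) * D.b.repr w (Sum.inl (Sum.inl i))) +
      polar Q (D.vec (D.mid v)) (D.vec (D.mid w)) := by
  have hm : ∀ z : Fin d → F, polar Q (D.vec z) w = polar Q (D.vec z) (D.vec (D.mid w)) := fun z => by
    rw [polar_comm _ (D.vec z) w, polar_comm _ (D.vec z) (D.vec (D.mid w))]
    conv_lhs => rw [D.decomp w]
    simp only [polar_add_left, polar_sum_left, polar_smul_left, polar_comm Q (D.e _) (D.vec z),
      polar_comm Q (D.f _) (D.vec z), D.vec_e, D.vec_f, smul_zero, Finset.sum_const_zero, zero_add]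
  conv_lhs => rw [D.decomp v]
  rw [polar_add_left, polar_add_left, polar_sum_left, polar_sum_left, hm, Finset.sum_add_distrib]
  congr 1
  congr 1 <;> refine Finset.sum_congr rfl fun i _ => ?_
  · rw [polar_smul_left, polar_comm, ← D.repr_r, smul_eq_mul]
  · rw [polar_smul_left, polar_comm, ← D.repr_l, smul_eq_mul]

theorem q_sum_singular {α : Type*} (s : Finset α) (g : α → V) (hg : ∀ i, Q (g i) = 0)
    (hp : ∀ i j, polar Q (g i) (g j) = 0) (c : α → F) : Q (∑ i ∈ s, c i • g i) = 0 := by
  classical
  induction s using Finset.induction with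
  | empty => simp
  | @insert a s ha ih =>
    rw [Finset.sum_insert ha, QuadraticMap.map_add (⇑Q), ih, QuadraticMap.map_smul, hg, polar_comm,
      polar_sum_left]
    simp [hp]

theorem q_repr (v : V) :
    Q v = ∑ i, D.b.repr v (Sum.inl (Sum.inl i)) * D.b.repr v (Sum.inl (Sum.inr i)) +
      Q (D.vec (D.mid v)) := by
  have hA := q_sum_singular Finset.univ D.e D.qe D.pee (fun i => D.b.repr v (Sum.inl (Sum.inl i)))
  have hB := q_sum_singular Finset.univ D.f D.qf D.pff (fun i => D.b.repr v (Sum.inl (Sum.inr i)))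
  conv_lhs => rw [D.decomp v]
  rw [QuadraticMap.map_add (⇑Q), QuadraticMap.map_add (⇑Q), hA, hB, polar_add_left, polar_sum_left,
    polar_sum_left, polar_sum_left]
  simp only [polar_smul_left, polar_comm Q (D.e _) (D.vec _), polar_comm Q (D.f _) (D.vec _), D.vec_e,
    D.vec_f, smul_zero, Finset.sum_const_zero, add_zero, zero_add]
  congr 1
  refine Finset.sum_congr rfl fun i _ => ?_
  rw [polar_comm, polar_sum_left, Finset.sum_eq_single i]
  · rw [polar_smul_left, polar_comm, D.pef]; simp
  · intro j _ hj; rw [polar_smul_left, D.pfe' hj, smul_zero]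
  · simp

/-- the matrices -/
noncomputable def layJ : Layout (V ≃ₗ[F] V) F (J k d) (J k d) where
  mat :=
    { toFun := fun g => LinearMap.toMatrix D.b D.b (g : V →ₗ[F] V)
      map_one' := LinearMap.toMatrix_id D.b
      map_mul' := fun g h => LinearMap.toMatrix_comp D.b D.b D.b (g : V →ₗ[F] V) (h : V →ₗ[F] V) }
  inj := fun g h e =>
    LinearEquiv.toLinearMap_injective ((LinearMap.toMatrix D.b D.b).injective e)
  pos := id
  surj := fun x => ⟨x, rfl⟩

theorem mat_apply (g : V ≃ₗ[F] V) (a b : J k d) :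
    D.layJ.mat g a b = D.b.repr (g (D.b b)) a := LinearMap.toMatrix_apply _ _ _ _ _

theorem supp_iff {R : J k d → J k d → Prop} {g : V ≃ₗ[F] V} :
    D.layJ.Supp R g ↔ ∀ a b, ¬ R a b → D.b.repr (g (D.b b)) a = if b = a then 1 else 0 := by
  have e : ∀ a b, (D.layJ.mat g - 1) a b = D.b.repr (g (D.b b)) a - if b = a then 1 else 0 :=
    fun a b => by
      rw [Matrix.sub_apply, D.mat_apply, Matrix.one_apply]
      by_cases h : b = a
      · subst h; simp
      · simp [h, Ne.symm h]
  constructor
  · intro h a b hR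
    by_contra hne
    exact hR (h a b (by rw [e]; exact sub_ne_zero.2 hne))
  · intro h a b hne
    by_contra hR
    exact hne (by rw [e, h a b hR, sub_self])

/-- strictly upper triangular -/
def Upper (g : V ≃ₗ[F] V) : Prop := D.layJ.Supp (fun a b => rkJ a < rkJ b) g

theorem Upper.row {D : OFrame Q k d} {g : V ≃ₗ[F] V} (hg : D.Upper g) (a b : J k d) (h : ¬ rkJ a < rkJ b) :
    D.b.repr (g (D.b b)) a = if b = a then 1 else 0 := (D.supp_iff.1 hg) a b h

theorem Upper.mul {D : OFrame Q k d} {g h : V ≃ₗ[F] V} (hg : D.Upper g) (hh : D.Upper h) : D.Upper (g * h) :=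
  Layout.Supp.mul (L := D.layJ) (R := fun a b => rkJ a < rkJ b) (fun _ _ _ => lt_trans) hg hh

theorem sg_upper {j : Fin (k + 1)} {a : V} (h1 : polar Q a (D.e j) = 0)
    (hlow : ∀ i, i < j → polar Q a (D.e i) = 0 ∧ polar Q a (D.f i) = 0) :
    D.Upper (sg Q (D.e j) a) := by
  refine D.supp_iff.2 fun x y hxy => ?_
  rw [sg_apply (D.qe j) h1, map_sub, map_add, map_smul, map_smul, Finsupp.sub_apply,
    Finsupp.add_apply, Finsupp.smul_apply, Finsupp.smul_apply, D.repr_b, e, D.repr_b]
  have h2 : polar Q (D.b y) (D.b (Sum.inl (Sum.inl j))) =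
      if (Sum.inl (Sum.inr j) : J k d) = y then 1 else 0 := by
    rw [polar_comm, D.gram]; rfl
  rw [h2]
  by_cases hx : (Sum.inl (Sum.inl j) : J k d) = x
  · subst hx
    rcases y with (i | i) | i
    · have hp : polar Q (D.b (Sum.inl (Sum.inl i))) a = 0 := by
        rw [polar_comm]
        rcases lt_or_eq_of_le (Fin.le_def.2 (show i.1 ≤ j.1 by simp at hxy; omega)) with hi | hi
        · exact (hlow i hi).1
        · rw [hi]; exact h1
      simp [hp]
    · simp at hxy; omega
    · simp at hxy; omega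
  · rw [if_neg hx, smul_zero, add_zero]
    by_cases hy : (Sum.inl (Sum.inr j) : J k d) = y
    · subst hy
      rw [if_pos rfl, one_smul]
      suffices D.b.repr a x = 0 by rw [this, sub_zero]
      rcases x with (i | i) | i
      · simp at hxy; omega
      · rw [D.repr_r]
        rcases lt_or_eq_of_le (Fin.le_def.2 (show i.1 ≤ j.1 by simp at hxy; omega)) with hi | hi
        · exact (hlow i hi).1
        · rw [hi]; exact h1
      · simp at hxy; omega
    · rw [if_neg hy, zero_smul, sub_zero]

/-- the top entry of a column is forced by the form -/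
theorem upper_top {g : V ≃ₗ[F] V} (hg : g ∈ isom Q) (hU : D.Upper g) (j : Fin (k + 1))
    (hr : ∀ i, i ≠ j → D.b.repr (g (D.f j)) (Sum.inl (Sum.inr i)) = 0) :
    D.b.repr (g (D.f j)) (Sum.inl (Sum.inl j)) = - Q (D.vec (D.mid (g (D.f j)))) := by
  have h := hg (D.f j)
  have h1 : D.b.repr (g (D.f j)) (Sum.inl (Sum.inr j)) = 1 := by
    rw [f, hU.row _ _ (lt_irrefl _), if_pos rfl]
  rw [D.qf, D.q_repr, Finset.sum_eq_single j] at h
  · rw [h1, mul_one] at h
    exact eq_neg_of_add_eq_zero_left h
  · intro i _ hi; rw [hr i hi, mul_zero]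
  · simp

/-- upper isometries lie in the root group -/
theorem upper_mem_root [Finite F] [FiniteDimensional F V] (hQ : (polarBilin Q).Nondegenerate)
    (hn : 5 ≤ Module.finrank F V) {u : V ≃ₗ[F] V} (hu : u ∈ isom Q) (hU : D.Upper u) :
    u ∈ rootGroup Q := by
  suffices key : ∀ N j : ℕ, k + 1 = j + N → ∀ u : V ≃ₗ[F] V, u ∈ isom Q → D.Upper u →
      (∀ i : Fin (k + 1), i.1 < j → u (D.e i) = D.e i ∧ u (D.f i) = D.f i) → u ∈ rootGroup Q from
    key (k + 1) 0 (by omega) u hu hU fun i hi => absurd hi (Nat.not_lt_zero _)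
  intro N
  induction N with
  | zero =>
    intro j hj u hu hU hfix
    have h1 : u = 1 := by
      refine LinearEquiv.toLinearMap_injective (D.b.ext fun y => ?_)
      show u (D.b y) = D.b y
      rcases y with (i | i) | m
      · exact (hfix i (by omega)).1
      · exact (hfix i (by omega)).2
      · refine D.b.ext_elem fun x => ?_
        rcases x with (i | i) | m'
        · rw [D.repr_l, D.repr_l]
          conv_lhs => rw [← (hfix i (by omega)).2]
          exact isom_polar hu _ _
        · rw [hU.row _ _ (by simp; omega), D.repr_b]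
        · rw [hU.row _ _ (by simp), D.repr_b]
    rw [h1]; exact one_mem _
  | succ N ih =>
    intro j hj u hu hU hfix
    set jj : Fin (k + 1) := ⟨j, by omega⟩ with hjj
    set w := u (D.f jj) with hw
    set c := D.b.repr w (Sum.inl (Sum.inl jj)) with hc
    obtain ⟨a, ha⟩ : ∃ a, a = -(w - D.f jj - c • D.e jj) := ⟨_, rfl⟩
    have hwr : D.b.repr w (Sum.inl (Sum.inr jj)) = 1 := by
      rw [hw, f, hU.row _ _ (lt_irrefl _), if_pos rfl]
    have hwq : Q w = 0 := by rw [hw, hu, D.qf]
    have hfe : polar Q (D.f jj) (D.e jj) = 1 := by rw [polar_comm]; exact D.pef jj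
    have haj : polar Q a (D.e jj) = 0 := by
      rw [ha, polar_neg_left, polar_sub_left, polar_sub_left, polar_smul_left, ← D.repr_r, hwr, hfe,
        D.pee]
      simp
    have haf : polar Q a (D.f jj) = 0 := by
      rw [ha, polar_neg_left, polar_sub_left, polar_sub_left, polar_smul_left, ← D.repr_l, ← hc,
        D.pff, D.pef]
      simp
    have halow : ∀ i, i < jj → polar Q a (D.e i) = 0 ∧ polar Q a (D.f i) = 0 := by
      intro i hi
      have hne : i ≠ jj := ne_of_lt hi
      obtain ⟨fe, ff⟩ := hfix i hi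
      constructor
      · rw [ha, polar_neg_left, polar_sub_left, polar_sub_left, polar_smul_left, D.pee,
          D.pfe' hne.symm]
        conv_lhs => rw [hw, ← fe, isom_polar hu, D.pfe' hne.symm]
        simp
      · rw [ha, polar_neg_left, polar_sub_left, polar_sub_left, polar_smul_left, D.pff,
          D.pef' hne.symm]
        conv_lhs => rw [hw, ← ff, isom_polar hu, D.pff]
        simp
    have hqa : c = -Q a := by
      have e1 : w = D.f jj + c • D.e jj + (-1 : F) • a := by rw [ha]; module
      rw [e1, map_add_smul, map_add_smul, D.qf, D.qe, polar_add_left, polar_smul_left,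
        polar_comm Q (D.f jj) a, haf, polar_comm Q (D.e jj) a, haj, hfe] at hwq
      simp at hwq
      exact eq_neg_of_add_eq_zero_left hwq
    have hsw : sg Q (D.e jj) a (D.f jj) = w := by
      rw [sg_apply (D.qe jj) haj, polar_comm Q (D.f jj) a, haf, hfe, mul_one, zero_sub, one_smul,
        ← hqa, ha]
      module
    have hinv : (sg Q (D.e jj) a)⁻¹ = sg Q (D.e jj) (-a) := sg_inv (D.qe jj) haj
    have hup : D.Upper (sg Q (D.e jj) (-a)) :=
      D.sg_upper (by rw [polar_neg_left, haj, neg_zero]) fun i hi => by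
        rw [polar_neg_left, polar_neg_left, (halow i hi).1, (halow i hi).2, neg_zero]; simp
    have hfx : ∀ i, i < jj → sg Q (D.e jj) a (D.e i) = D.e i ∧ sg Q (D.e jj) a (D.f i) = D.f i :=
      fun i hi => ⟨sg_fix (D.qe jj) haj (D.pee _ _) (by rw [polar_comm]; exact (halow i hi).1),
        sg_fix (D.qe jj) haj (D.pfe' (ne_of_lt hi)) (by rw [polar_comm]; exact (halow i hi).2)⟩
    have hee : sg Q (D.e jj) a (D.e jj) = D.e jj :=
      sg_fix (D.qe jj) haj (D.pee _ _) (by rw [polar_comm]; exact haj)
    have hue : u (D.e jj) = D.e jj := by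
      refine D.b.ext_elem fun x => ?_
      rw [e, D.repr_b]
      by_cases hx : rkJ x < j
      · rcases x with (i | i) | m
        · rw [D.repr_l, show D.b (Sum.inl (Sum.inl jj)) = D.e jj from rfl]
          conv_lhs => rw [← (hfix i (by simpa using hx)).2]
          rw [isom_polar hu, ← D.repr_l, e, D.repr_b]
        · simp at hx; omega
        · simp at hx; omega
      · exact hU.row x _ (by simpa [hjj] using hx)
    have h' := ih (j + 1) (by omega) ((sg Q (D.e jj) a)⁻¹ * u)
      (mul_mem (inv_mem (sg_mem_isom _ _)) hu) (by rw [hinv]; exact hup.mul hU) fun i hi => by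
      rcases Nat.lt_or_ge i.1 j with h | h
      · constructor
        · rw [LinearEquiv.mul_apply, (hfix i h).1]
          conv_lhs => rw [← (hfx i h).1]
          exact LinearEquiv.symm_apply_apply _ _
        · rw [LinearEquiv.mul_apply, (hfix i h).2]
          conv_lhs => rw [← (hfx i h).2]
          exact LinearEquiv.symm_apply_apply _ _
      · obtain rfl : i = jj := Fin.ext (by simp [hjj]; omega)
        constructor
        · rw [LinearEquiv.mul_apply, hue]
          exact (LinearEquiv.symm_apply_eq _).2 hee.symm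
        · rw [LinearEquiv.mul_apply, ← hw, ← hsw]
          exact LinearEquiv.symm_apply_apply _ _
    have := mul_mem (sg_mem_root hQ hn (D.e jj) a) h'
    rwa [mul_inv_cancel_left] at this

/-- a unipotent element of the Borel subgroup is strictly upper -/
theorem upper_of_unipotent [Finite F] [FiniteDimensional F V] {p : ℕ} [Fact p.Prime] [CharP F p]
    (hQ : (polarBilin Q).Nondegenerate) (hn : 5 ≤ Module.finrank F V) (hd : d ≤ 2)
    (hrefl : ∀ (y : V) (hy : Q y ≠ 0), refl Q y hy ∉ rootGroup Q)
    {g : V ≃ₗ[F] V} (hg : g ∈ rootGroup Q) (hle : D.layJ.Supp (fun a b => rkJ a ≤ rkJ b) g)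
    (hp : ∃ j : ℕ, g ^ p ^ j = 1) : D.Upper g := by
  classical
  obtain ⟨N, hN⟩ := hp
  set M := D.layJ.mat g with hM
  have hgi := rootGroup_le_isom hg
  have hent : ∀ (L : ℕ) a b, (M ^ L) a b ≠ 0 → rkJ a ≤ rkJ b := by
    intro L a b h
    rcases eq_or_ne a b with rfl | hab
    · exact le_rfl
    · refine Layout.Supp.pow (L := D.layJ) (R := fun a b => rkJ a ≤ rkJ b) (fun _ _ _ => le_trans)
        hle L a b ?_
      rw [map_pow, Matrix.sub_apply, Matrix.one_apply_ne hab, sub_zero]
      exact h
  have hent1 : ∀ a b, M a b ≠ 0 → rkJ a ≤ rkJ b := fun a b h => hent 1 a b (by rwa [pow_one])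
  have hMN : M ^ p ^ N = 1 := by rw [hM, ← map_pow, hN, map_one]
  have hdiag : ∀ x : Fin (k + 1) ⊕ Fin (k + 1), M (Sum.inl x) (Sum.inl x) = 1 := by
    intro x
    have hpow : ∀ L : ℕ, (M ^ L) (Sum.inl x) (Sum.inl x) = (M (Sum.inl x) (Sum.inl x)) ^ L := by
      intro L
      induction L with
      | zero => simp
      | succ L ih =>
        rw [pow_succ, Matrix.mul_apply, Finset.sum_eq_single (Sum.inl x), ih, pow_succ]
        · intro c _ hc
          by_contra h
          exact hc (rkJ_eq_inl (le_antisymm (hent1 _ _ (right_ne_zero_of_mul h))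
            (hent L _ _ (left_ne_zero_of_mul h))))
        · simp
    have h1 : (M (Sum.inl x) (Sum.inl x)) ^ p ^ N = 1 := by rw [← hpow, hMN]; simp
    have h2 : (M (Sum.inl x) (Sum.inl x) - 1) ^ p ^ N = 0 := by
      rw [sub_pow_char_pow, h1, one_pow, sub_self]
    exact sub_eq_zero.1
      ((pow_eq_zero_iff (pow_ne_zero _ (Fact.out : p.Prime).ne_zero)).1 h2)
  set A : Matrix (Fin d) (Fin d) F := Matrix.of fun a b => M (Sum.inr a) (Sum.inr b) with hA
  have hApow : ∀ L : ℕ, A ^ L = Matrix.of fun a b => (M ^ L) (Sum.inr a) (Sum.inr b) := by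
    intro L
    induction L with
    | zero => ext a b; simp [Matrix.one_apply]
    | succ L ih =>
      ext a b
      have hz : ∑ c, (M ^ L) (Sum.inr a) (Sum.inl c) * M (Sum.inl c) (Sum.inr b) = 0 := by
        refine Finset.sum_eq_zero fun c _ => ?_
        by_contra h
        have := rkJ_eq_inl (p := c) (c := (Sum.inr a : J k d)) (by
          have h1 := hent L _ _ (left_ne_zero_of_mul h)
          have h2 := hent1 _ _ (right_ne_zero_of_mul h)
          simp only [rkJ_m] at h1 h2 ⊢
          omega)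
        simp at this
      rw [pow_succ, Matrix.mul_apply, ih, Matrix.of_apply, pow_succ, Matrix.mul_apply,
        Fintype.sum_sum_type, hz, zero_add]
      rfl
  have hA1 : A ^ p ^ N = 1 := by
    rw [hApow, hMN]; ext a b; simp [Matrix.one_apply]
  have hgvec : ∀ x : Fin d → F, D.mid (g (D.vec x)) = A.mulVec x ∧
      ∀ i, D.b.repr (g (D.vec x)) (Sum.inl (Sum.inr i)) = 0 := by
    intro x
    have h1 : ∀ a, D.b.repr (g (D.vec x)) a = ∑ j, M a (Sum.inr j) * x j := by
      intro a
      have h2 := congrFun (LinearMap.toMatrix_mulVec_repr D.b D.b (g : V →ₗ[F] V) (D.vec x)) a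
      rw [show LinearMap.toMatrix D.b D.b (g : V →ₗ[F] V) = M from rfl] at h2
      refine h2.symm.trans ?_
      rw [Matrix.mulVec, dotProduct, Fintype.sum_sum_type, Finset.sum_eq_zero, zero_add]
      · exact Finset.sum_congr rfl fun j _ => by rw [D.repr_vec]; rfl
      · intro c _; rw [D.repr_vec]; simp
    refine ⟨funext fun j => ?_, fun i => ?_⟩
    · rw [D.mid_apply, h1]; rfl
    · rw [h1]
      refine Finset.sum_eq_zero fun j _ => ?_
      by_contra h
      have := hent1 _ _ (left_ne_zero_of_mul h)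
      simp at this
      omega
  have hiso : ∀ x y : Fin d → F,
      polar Q (D.vec (A.mulVec x)) (D.vec (A.mulVec y)) = polar Q (D.vec x) (D.vec y) ∧
        Q (D.vec (A.mulVec x)) = Q (D.vec x) := by
    intro x y
    refine ⟨?_, ?_⟩
    · rw [← isom_polar hgi (D.vec x) (D.vec y), D.polar_repr (g (D.vec x)), Finset.sum_eq_zero,
        zero_add, (hgvec x).1, (hgvec y).1]
      intro i _; rw [(hgvec x).2, (hgvec y).2]; simp
    · rw [← hgi (D.vec x), D.q_repr (g (D.vec x)), Finset.sum_eq_zero, zero_add, (hgvec x).1]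
      intro i _; rw [(hgvec x).2]; simp
  have upper_of : ∀ h : V ≃ₗ[F] V,
      (∀ (x : Fin (k + 1) ⊕ Fin (k + 1)) b, D.b.repr (h (D.b b)) (Sum.inl x) = M (Sum.inl x) b) →
      (∀ (i : Fin (k + 1)) (j : Fin d), D.b.repr (h (D.e i)) (Sum.inr j) = 0) →
      (∀ x, D.mid (h (D.vec x)) = x) → D.Upper h := by
    intro h h1 h2 h3
    refine D.supp_iff.2 fun a b hab => ?_
    rcases a with x | j
    · rw [h1]
      by_cases hb : b = Sum.inl x
      · subst hb; rw [if_pos rfl, hdiag]
      · rw [if_neg hb]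
        by_contra hne
        exact hb (rkJ_eq_inl (le_antisymm (not_lt.1 hab) (hent1 _ _ hne)))
    · rcases b with (i | i) | m
      · rw [if_neg (by simp)]; exact h2 i j
      · simp at hab; omega
      · have hbv : D.vec (Pi.single m 1) = D.b (Sum.inr m) := D.b.ext_elem fun x => by
          rw [D.repr_vec, D.repr_b]
          rcases x with x | x <;> simp [Pi.single_apply, eq_comm]
        rw [← hbv, ← D.mid_apply, h3, Pi.single_apply]
        simp [eq_comm]
  have he0 : ∀ (i : Fin (k + 1)) (j : Fin d), D.b.repr (g (D.e i)) (Sum.inr j) = 0 := by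
    intro i j
    rw [e, ← D.mat_apply]
    by_contra h
    have := hent1 _ _ h
    simp at this
    omega
  by_cases hone : ∀ x, A.mulVec x = x
  · exact upper_of g (fun x b => (D.mat_apply g _ b).symm) he0 fun x => by rw [(hgvec x).1, hone]
  exfalso
  push Not at hone
  obtain ⟨w, hw⟩ := hone
  haveI : Nonempty (Fin d) := by
    obtain ⟨j, -⟩ := Function.ne_iff.1 hw
    exact ⟨j⟩
  have hdet : (A - 1).det = 0 := by
    have h0 : (A - 1) ^ p ^ N = 0 := by
      rw [sub_pow_char_pow_of_commute (p := p) _ (Commute.one_right _), hA1, one_pow, sub_self]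
    have h1 := congrArg Matrix.det h0
    rw [Matrix.det_pow, Matrix.det_zero] at h1
    exact (pow_eq_zero_iff (pow_ne_zero _ (Fact.out : p.Prime).ne_zero)).1 h1
  obtain ⟨v, hv0, hv⟩ := Matrix.exists_mulVec_eq_zero_iff.2 hdet
  rw [Matrix.sub_mulVec, Matrix.one_mulVec, sub_eq_zero] at hv
  set y := A.mulVec w - w with hy
  have hy0 : y ≠ 0 := sub_ne_zero.2 hw
  have hQy : Q (D.vec y) ≠ 0 := fun h => hy0 (D.aniso' h)
  have hyv : polar Q (D.vec y) (D.vec v) = 0 := by
    rw [hy, map_sub, polar_sub_left]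
    conv_lhs => arg 1; rw [← hv]
    rw [(hiso w v).1, sub_self]
  have hyw : polar Q (D.vec w) (D.vec y) = - Q (D.vec y) := by
    have h := (hiso w w).2
    rw [show A.mulVec w = w + y by rw [hy]; abel, map_add, QuadraticMap.map_add (⇑Q)] at h
    linear_combination h
  set R := refl Q (D.vec y) hQy with hR
  have hRmid : ∀ u, D.mid (R u) = D.mid u - ((Q (D.vec y))⁻¹ * polar Q u (D.vec y)) • y := fun u => by
    rw [hR, refl_apply, map_sub, map_smul, D.mid_vec]
  have hRinl : ∀ u (x : Fin (k + 1) ⊕ Fin (k + 1)),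
      D.b.repr (R u) (Sum.inl x) = D.b.repr u (Sum.inl x) := fun u x => by
    rw [hR, refl_apply, map_sub, map_smul, Finsupp.sub_apply, Finsupp.smul_apply, D.repr_vec]
    simp
  have hpm : ∀ u, (∀ i, D.b.repr u (Sum.inl (Sum.inr i)) = 0) →
      polar Q u (D.vec y) = polar Q (D.vec (D.mid u)) (D.vec y) := fun u hu => by
    rw [D.polar_repr u, Finset.sum_eq_zero, zero_add, D.mid_vec]
    intro i _; rw [hu, D.repr_vec, D.repr_vec]; simp
  set h := R * g with hh
  have hmid : ∀ x, D.mid (h (D.vec x)) =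
      A.mulVec x - ((Q (D.vec y))⁻¹ * polar Q (D.vec (A.mulVec x)) (D.vec y)) • y := fun x => by
    rw [hh, LinearEquiv.mul_apply, hRmid, (hgvec x).1, hpm _ (hgvec x).2, (hgvec x).1]
  have hLv : D.mid (h (D.vec v)) = v := by
    rw [hmid, hv, polar_comm, hyv]; simp
  have hLw : D.mid (h (D.vec w)) = w := by
    rw [hmid, show A.mulVec w = w + y by rw [hy]; abel, map_add, polar_add_left, hyw, polar_self]
    simp only [nsmul_eq_mul, Nat.cast_ofNat]
    match_scalars <;> field_simp <;> ring
  have hli : LinearIndependent F ![v, w] := by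
    rw [LinearIndependent.pair_iff]
    intro s t hst
    by_cases ht : t = 0
    · subst ht
      rw [zero_smul, add_zero, smul_eq_zero] at hst
      exact ⟨hst.resolve_right hv0, rfl⟩
    · exfalso
      apply hw
      have e1 : w = (-(s / t)) • v := by
        rw [← sub_eq_zero, neg_smul, sub_neg_eq_add, ← smul_right_inj ht, smul_zero, smul_add,
          smul_smul, mul_div_cancel₀ _ ht, add_comm]
        exact hst
      rw [e1, Matrix.mulVec_smul, hv]
  have hcard : Fintype.card (Fin 2) = Module.finrank F (Fin d → F) := by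
    have := hli.fintype_card_le_finrank
    rw [Module.finrank_fintype_fun_eq_card, Fintype.card_fin, Fintype.card_fin] at *
    omega
  have hL : D.mid.comp ((h : V →ₗ[F] V).comp D.vec) = LinearMap.id := by
    refine (basisOfLinearIndependentOfCardEqFinrank hli hcard).ext fun i => ?_
    rw [coe_basisOfLinearIndependentOfCardEqFinrank]
    fin_cases i
    · exact hLv
    · exact hLw
  have hUh : D.Upper h := by
    refine upper_of h (fun x b => ?_) (fun i j => ?_) fun x => LinearMap.congr_fun hL x
    · rw [hh, LinearEquiv.mul_apply, hRinl]; exact (D.mat_apply g _ b).symm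
    · rw [hh, LinearEquiv.mul_apply, ← D.mid_apply, hRmid, hpm _ ?_]
      · have : D.mid (g (D.e i)) = 0 := funext fun j => he0 i j
        simp [this]
      · intro l
        rw [e, ← D.mat_apply]
        by_contra hne
        have := hent1 _ _ hne
        simp at this
        omega
  have hhi : h ∈ isom Q := mul_mem (refl_mem_isom _) hgi
  have := mul_mem (D.upper_mem_root hQ hn hhi hUh) (inv_mem hg)
  rw [hh, mul_inv_cancel_right] at this
  exact hrefl _ hQy this

end OFrame

end CfsgLib.StChar.Orth
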